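import Cfsg.Agent.TwoFourCC.Main

/-!
# Transport of the covering property along isomorphisms, and the large Ree groups
-/

set_option autoImplicit false

namespace Cfsg.Agent.TwoFourCC

open Cfsg.Lie Cfsg.Agent.ChevTw

theorem two_conj_of_equiv {M N : Type*} [Group M] [Group N] (φ : M ≃* N)
    (h : ∃ x : N, Odd (orderOf x) ∧ ∀ g : N, g ≠ 1 → ∃ u v, g = (u * x * u⁻¹) * (v * x * v⁻¹)) :
    ∃ x : M, Odd (orderOf x) ∧ ∀ g : M, g ≠ 1 → ∃ u v, g = (u * x * u⁻¹) * (v * x * v⁻¹) := by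
  obtain ⟨x, hx, hg⟩ := h
  refine ⟨φ.symm x, by rwa [φ.symm.orderOf_eq], fun g hg1 => ?_⟩
  obtain ⟨u, v, e⟩ := hg (φ g) fun e => hg1 (φ.injective (by rw [e, map_one]))
  exact ⟨φ.symm u, φ.symm v, φ.injective (by simp [e])⟩

theorem iso2F4_two_conj {M : Type*} [Group M] (h : Cfsg.Lie.Iso2F4 M) :
    ∃ x : M, Odd (orderOf x) ∧ ∀ g : M, g ≠ 1 → ∃ u v, g = (u * x * u⁻¹) * (v * x * v⁻¹) := by
  obtain ⟨K, iK, iF, m, hm, hK, ⟨φ⟩⟩ := h
  exact two_conj_of_equiv φ (twisted_two_conj hK hm)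

end Cfsg.Agent.TwoFourCC
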