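import Cfsg.Agent.TwoFourCC.TitsWit

/-!
The searches for three centralisers in the Tits group (owner: helper51).
-/

set_option autoImplicit false
set_option maxRecDepth 20000

namespace Cfsg.Agent.TwoFourCC

open Cfsg.Agent.CosetCert Cfsg.Agent.SporOut

theorem cent_three : allB (centOK zThree hintOneThree hintTwoThree centThree) 11 0 = true := by decide +kernel

theorem cent_five : allB (centOK zFive hintOneFive hintTwoFive centFive) 11 0 = true := by decide +kernel

theorem cent_thirteen : allB (centOK zThirteen hintOneThirteen hintTwoThirteen centThirteen) 11 0 = true := by
  decide +kernel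

end Cfsg.Agent.TwoFourCC
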