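import Cfsg.Agent.TwoFourCC.TitsSyl
import Cfsg.Agent.TwoFourCC.TitsCent
import Mathlib.GroupTheory.Sylow

/-!
An element of order thirteen of the Tits group such that every non-identity element is a product of two of
its conjugates (owner: helper51).
-/

set_option autoImplicit false
set_option maxRecDepth 20000
set_option linter.style.haveILetI false

namespace Cfsg.Agent.TwoFourCC

open Cfsg.Lie Cfsg.Agent.CosetCert Cfsg.Agent.SporOut

/-- An element that is a product of two conjugates of a fixed element. -/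
def TwoConj {G : Type*} [Group G] (x g : G) : Prop :=
  ∃ u v : G, g = u * x * u⁻¹ * (v * x * v⁻¹)

theorem TwoConj.conj {G : Type*} [Group G] {x g : G} (h : TwoConj x g) (c : G) : TwoConj x (c * g * c⁻¹) := by
  obtain ⟨u, v, rfl⟩ := h
  exact ⟨c * u, c * v, by group⟩

theorem TwoConj.of_conj {G : Type*} [Group G] {x g : G} (c : G) (h : TwoConj x (c * g * c⁻¹)) : TwoConj x g := by
  have h2 := h.conj c⁻¹
  rwa [show c⁻¹ * (c * g * c⁻¹) * c⁻¹⁻¹ = g by group] at h2

/-! ### Products of codes -/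

/-- The element of a code, in the group. -/
noncomputable def kElt (n : ℕ) : titsK :=
  if h : cOK n = true then ⟨cElt n, cElt_mem h⟩ else 1

theorem coe_kElt {n : ℕ} (h : cOK n = true) : (kElt n : Equiv.Perm (Fin 1755)) = cElt n := by
  rw [kElt, dif_pos h]

theorem prodImg_eq : ∀ A : List ℕ, A.all cOK = true → ∀ q : Fin 1755,
    (((A.map kElt).prod : titsK) : Equiv.Perm (Fin 1755)) q = (prodImg A q : ℕ)
  | [], _, q => rfl
  | a :: A, h, q => by
    rw [List.all_cons, Bool.and_eq_true] at h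
    rw [List.map_cons, List.prod_cons, Subgroup.coe_mul, Equiv.Perm.mul_apply, coe_kElt h.1, cElt_apply h.1,
      prodImg_eq A h.2 q]
    rfl

theorem prod_eq_of_prodEq {A B : List ℕ} (h : prodEq A B = true) : (A.map kElt).prod = (B.map kElt).prod := by
  simp only [prodEq, Bool.and_eq_true] at h
  refine Subtype.ext (ext3 (SetLike.coe_mem _) (SetLike.coe_mem _) fun q hq => Fin.ext ?_)
  rw [prodImg_eq A h.1 q, prodImg_eq B h.2.1 q]
  exact Nat.eq_of_beq_eq_true (at3_spec h.2.2 hq)

theorem kElt_inj {n n' : ℕ} (h : cOK n = true) (h' : cOK n' = true) (e : kElt n = kElt n') : n = n' := by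
  have e' : cElt n = cElt n' := by rw [← coe_kElt h, e, coe_kElt h']
  have key : ∀ q, q < 1755 → cImg n q = cImg n' q := fun q hq => by
    rw [← cElt_apply h ⟨q, hq⟩, e', cElt_apply h' ⟨q, hq⟩]
  exact code_inj h h' (key _ point_lt.1) (key _ point_lt.2.1) (key _ point_lt.2.2)

theorem kElt_one : kElt codeOne = 1 := by simpa using prod_eq_of_prodEq syl_words.2.2.2.1

/-- The element of order thirteen. -/
noncomputable def xK : titsK := kElt zThirteen

theorem witOK_spec {n : ℕ} {w : List ℕ} (h : witOK n w = true) : TwoConj xK (kElt n) := by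
  match w, h with
  | [u, u', v, v'], h =>
    simp only [witOK, Bool.and_eq_true] at h
    obtain ⟨hu, hv, hn⟩ := h
    have eu := prod_eq_of_prodEq hu
    have ev := prod_eq_of_prodEq hv
    have en := prod_eq_of_prodEq hn
    simp only [List.map_cons, List.map_nil, List.prod_cons, List.prod_nil, mul_one] at eu ev en
    refine ⟨kElt u, kElt v, ?_⟩
    rw [← eq_inv_of_mul_eq_one_right eu, ← eq_inv_of_mul_eq_one_right ev, en]
    simp only [xK, mul_assoc]
  | [], h => simp [witOK] at h
  | [_], h => simp [witOK] at h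
  | [_, _], h => simp [witOK] at h
  | [_, _, _], h => simp [witOK] at h
  | _ :: _ :: _ :: _ :: _ :: _, h => simp [witOK] at h

theorem listWit_spec {L : List (ℕ × List ℕ)} (h : listWit L = true) {a : ℕ × List ℕ} (ha : a ∈ L)
    (hne : kElt a.1 ≠ 1) : TwoConj xK (kElt a.1) := by
  simp only [listWit, List.all_eq_true, Bool.and_eq_true, Bool.or_eq_true] at h
  rcases (h a ha).2 with e | e
  · exact absurd (by rw [Nat.eq_of_beq_eq_true e, kElt_one]) hne
  · exact witOK_spec e

/-! ### Centralisers -/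

theorem cent_list {z H1 H2 : ℕ} {L : List (ℕ × List ℕ)} (hz : cOK z = true) (hz0 : cImg z p0 = p1)
    (hs : allB (centOK z H1 H2 L) 11 0 = true) (hw : listWit L = true) {g : titsK}
    (hc : g * kElt z = kElt z * g) (hg : g ≠ 1) : TwoConj xK g := by
  have hc' := congrArg Subtype.val hc
  simp only [Subgroup.coe_mul, coe_kElt hz] at hc'
  obtain ⟨a, ha, e⟩ := cent_sound hz hz0 hs g.2 hc'
  have hok : cOK a.1 = true := by
    simp only [listWit, List.all_eq_true, Bool.and_eq_true] at hw
    exact (hw a ha).1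
  obtain rfl : g = kElt a.1 := Subtype.ext (e.trans (coe_kElt hok).symm)
  exact listWit_spec hw ha hg

/-! ### Subgroups given by lists -/

theorem list_subgroup {G L : List ℕ} {W : List (List ℕ)} (h : closedOK G L W = true) (hn : L.Nodup) :
    ∃ P : Subgroup titsK, (∀ k, k ∈ P ↔ ∃ a ∈ L, k = kElt a) ∧ Nat.card P = L.length := by
  classical
  simp only [closedOK, Bool.and_eq_true, List.all_eq_true, List.any_eq_true, List.contains_iff_mem] at h
  obtain ⟨-, hL, h1, hcl, hlen, hgen⟩ := h
  let S : Set titsK := {k | ∃ g ∈ G, k = kElt g}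
  have hiff : ∀ k, k ∈ Subgroup.closure S ↔ ∃ a ∈ L, k = kElt a := by
    intro k
    constructor
    · intro hk
      rw [← Subgroup.mem_toSubmonoid, Subgroup.closure_toSubmonoid_of_finite] at hk
      induction hk using Submonoid.closure_induction_left with
      | one => exact ⟨codeOne, h1, kElt_one.symm⟩
      | mul_left x hx y _ ih =>
        obtain ⟨g, hg, rfl⟩ := hx
        obtain ⟨a, ha, rfl⟩ := ih
        obtain ⟨c, hc, -, he⟩ := hcl g hg a ha
        exact ⟨c, hc, by simpa using prod_eq_of_prodEq he⟩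
    · rintro ⟨a, ha, rfl⟩
      obtain ⟨i, hi, rfl⟩ := List.getElem_of_mem ha
      have hlen' : W.length = L.length := Nat.eq_of_beq_eq_true hlen
      have hm : (L[i], W[i]'(by omega)) ∈ L.zip W := by
        rw [List.mem_iff_getElem]
        exact ⟨i, by simp [List.length_zip]; omega, by simp⟩
      obtain ⟨hG, he⟩ := hgen _ hm
      have e := prod_eq_of_prodEq he
      simp only [List.map_cons, List.map_nil, List.prod_cons, List.prod_nil, mul_one] at e
      rw [e]
      refine Subgroup.list_prod_mem _ fun y hy => ?_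
      obtain ⟨g, hg, rfl⟩ := List.mem_map.1 hy
      exact Subgroup.subset_closure ⟨g, hG g hg, rfl⟩
  refine ⟨_, hiff, ?_⟩
  let Φ : Fin L.length → Subgroup.closure S :=
    fun i => ⟨kElt L[i], (hiff _).2 ⟨_, List.getElem_mem _, rfl⟩⟩
  have hb : Function.Bijective Φ := by
    refine ⟨fun i j e => Fin.ext ?_, fun k => ?_⟩
    · have e' := kElt_inj (hL _ (List.getElem_mem _)) (hL _ (List.getElem_mem _)) (congrArg Subtype.val e)
      exact (List.Nodup.getElem_inj_iff hn).1 e'
    · obtain ⟨a, ha, e⟩ := (hiff _).1 k.2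
      obtain ⟨i, hi, rfl⟩ := List.getElem_of_mem ha
      exact ⟨⟨i, hi⟩, Subtype.ext e.symm⟩
  rw [← Nat.card_eq_of_bijective Φ hb, Nat.card_fin]

/-- An element of prime power order lies in a conjugate of a Sylow subgroup of known order. -/
theorem exists_conj_mem {G : Type*} [Group G] [Finite G] {p e : ℕ} [Fact p.Prime]
    (he : (Nat.card G).factorization p = e) {P : Subgroup G} (hP : Nat.card P = p ^ e) {g : G} {k : ℕ}
    (hg : orderOf g = p ^ k) : ∃ h : G, h * g * h⁻¹ ∈ P := by
  have hz : IsPGroup p (Subgroup.zpowers g) := IsPGroup.of_card (n := k) (by rw [Nat.card_zpowers, hg])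
  obtain ⟨Q, hQ⟩ := hz.exists_le_sylow
  obtain ⟨h, hh⟩ := MulAction.exists_smul_eq G Q (Sylow.ofCard P (by rw [hP, he]))
  refine ⟨h, ?_⟩
  have hm : h * g * h⁻¹ ∈ ((h • Q : Sylow p G) : Subgroup G) := by
    rw [Sylow.coe_subgroup_smul]
    exact ⟨g, hQ (Subgroup.mem_zpowers g), by simp [MulAut.smul_def, MulAut.conj_apply]⟩
  rw [hh] at hm
  simpa using hm

/-! ### The Sylow subgroup at two -/

/-- A generator of the Sylow subgroup. -/
noncomputable def letK (l : ℕ) : titsK :=
  if h : 1 ≤ l ∧ l ≤ 6 then ⟨titsFrame.σ l, frame_valid.mem l h.1 h.2⟩ else 1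

theorem isSylLetter_iff {l : ℕ} : isSylLetter l = true ↔ l ∈ ({1, 3, 5, 6} : Set ℕ) := by
  simp only [isSylLetter, Bool.or_eq_true, Set.mem_insert_iff, Set.mem_singleton_iff]
  constructor
  · rintro (h | h | h | h) <;> simp [Nat.eq_of_beq_eq_true h]
  · rintro (h | h | h | h) <;> simp [h]

theorem sylLetter_range {l : ℕ} (h : isSylLetter l = true) : 1 ≤ l ∧ l ≤ 6 := by
  have := isSylLetter_iff.1 h
  simp only [Set.mem_insert_iff, Set.mem_singleton_iff] at this
  omega

theorem letK_apply {l : ℕ} (h : isSylLetter l = true) (q : Fin 1755) :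
    ((letK l : Equiv.Perm (Fin 1755)) q : ℕ) = titsFrame.T l q := by
  rw [letK, dif_pos (sylLetter_range h)]
  exact frame_valid.spec l (sylLetter_range h).1 (sylLetter_range h).2 q

/-- The Sylow subgroup at two. -/
noncomputable def sylTwo : Subgroup titsK := Subgroup.closure {k | ∃ l, isSylLetter l = true ∧ k = letK l}

theorem valF_mem_syl : ∀ (f c : ℕ), okSyl f c = true →
    valF titsFrame.σ f c ∈ sylTwo.map titsK.subtype := by
  intro f
  induction f with
  | zero => intro c _; exact one_mem _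
  | succ f ih =>
    intro c hc
    have e : okSyl (f + 1) c = (Nat.beq c 1 || (isSylLetter (c % 16) && okSyl f (c / 16))) := rfl
    rw [e, Bool.or_eq_true] at hc
    by_cases h1 : c ≤ 1
    · rw [valF, if_pos h1]; exact one_mem _
    · rcases hc with hc | hc
      · exact absurd (Nat.eq_of_beq_eq_true hc).le h1
      rw [Bool.and_eq_true] at hc
      rw [valF, if_neg h1]
      refine mul_mem (ih _ hc.2) ⟨letK (c % 16), Subgroup.subset_closure ⟨_, hc.1, rfl⟩, ?_⟩
      rw [letK, dif_pos (sylLetter_range hc.1)]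
      rfl

/-- A valid index of a member of the Sylow subgroup. -/
def SylIdx (s : ℕ) : Prop := s < 3510 ∧ w1 (s / 2) ≠ 0

theorem sylCode_ok {s : ℕ} (h : SylIdx s) : cOK (sylCode s) = true := by
  obtain ⟨a, b, c⟩ := cMk_coords (r := s % 2) (show p0 < 2048 from point_lt.1.trans (by norm_num))
    (show s / 2 < 2048 by have := h.1; omega)
  simp only [cOK, sylCode, Bool.and_eq_true]
  rw [show cMk p0 (Nat.div s 2) (Nat.mod s 2) = cMk p0 (s / 2) (s % 2) from rfl, a, b, c]
  exact ⟨blt_iff.2 point_lt.1, blt_iff.2 (by have := h.1; omega), not_beq_zero.2 h.2, blt_iff.2 (by omega)⟩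

theorem syl_check {s : ℕ} (h : SylIdx s) :
    sylClassOK s = true ∧ (s % 2 = 1 ∨ (okSyl 96 (w1 (s / 2)) = true ∧
      ∀ l, isSylLetter l = true → sylStepOK (s / 2) l (titsFrame.T l (s / 2)) = true)) := by
  have hk := allB_spec_zero syl_ok (by norm_num : 3510 ≤ 2 ^ 12) h.1
  have hb : Nat.ble 3510 s = false := by rw [← Bool.not_eq_true, Nat.ble_eq]; exact not_le.2 h.1
  have hw : Nat.beq (w1 (Nat.div s 2)) 0 = false := by
    rcases e : Nat.beq (w1 (Nat.div s 2)) 0
    · rfl
    · exact absurd (Nat.eq_of_beq_eq_true e) h.2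
  simp only [sylOK, hb, hw, cond_false, Bool.and_eq_true, Bool.or_eq_true, List.all_eq_true] at hk
  refine ⟨hk.1, hk.2.imp (fun e => Nat.eq_of_beq_eq_true e) fun e => ⟨e.1, fun l hl => e.2 l ?_⟩⟩
  simpa using isSylLetter_iff.1 hl

theorem kElt_syl_mem {s : ℕ} (h : SylIdx s) : kElt (sylCode s) ∈ sylTwo := by
  have hs' : SylIdx (2 * (s / 2)) :=
    ⟨by have := h.1; omega, by rw [Nat.mul_div_cancel_left _ (by norm_num : 0 < 2)]; exact h.2⟩
  have hw : okSyl 96 (w1 (s / 2)) = true := by
    rcases (syl_check hs').2 with e | e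
    · omega
    · simpa [Nat.mul_div_cancel_left] using e.1
  obtain ⟨a, b, c⟩ := cMk_coords (r := s % 2) (show p0 < 2048 from point_lt.1.trans (by norm_num))
    (show s / 2 < 2048 by have := h.1; omega)
  have key : ((kElt (sylCode s) : titsK) : Equiv.Perm (Fin 1755)) ∈ sylTwo.map titsK.subtype := by
    rw [coe_kElt (sylCode_ok h), sylCode, cElt,
      show cMk p0 (Nat.div s 2) (Nat.mod s 2) = cMk p0 (s / 2) (s % 2) from rfl, a, b, c]
    refine mul_mem (valF_mem_syl _ _ syl_words.1) (mul_mem (valF_mem_syl _ _ hw) ?_)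
    rcases Nat.mod_two_eq_zero_or_one s with e | e <;> rw [e]
    exacts [valF_mem_syl _ _ syl_words.2.1, valF_mem_syl _ _ syl_words.2.2.1]
  obtain ⟨k, hk, e⟩ := key
  rwa [Subtype.ext e] at hk

theorem val_one : titsFrame.val 1 = 1 := by
  show valF titsFrame.σ (95 + 1) 1 = 1
  rw [valF, if_pos le_rfl]

theorem word_ones : w2 0 = 1 ∧ w0 p0 = 1 ∧ w1 p1 = 1 := by
  have h : Nat.beq (w2 0) 1 = true ∧ Nat.beq (w0 p0) 1 = true ∧ Nat.beq (w1 p1) 1 = true := by decide +kernel
  exact ⟨Nat.eq_of_beq_eq_true h.1, Nat.eq_of_beq_eq_true h.2.1, Nat.eq_of_beq_eq_true h.2.2⟩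

theorem pair_codes_ok : cOK (cMk p0 p1 0) = true ∧ cOK (cMk p0 p1 1) = true := by decide +kernel

theorem sylCode_split {y r : ℕ} (hr : r < 2) (hy : y < 1755) (hy1 : w1 y ≠ 0) :
    kElt (sylCode (2 * y + r)) = kElt (sylCode (2 * y)) * kElt (cMk p0 p1 r) := by
  have hi : SylIdx (2 * y + r) := ⟨by omega, by rw [show (2 * y + r) / 2 = y by omega]; exact hy1⟩
  have hj : SylIdx (2 * y) := ⟨by omega, by rw [Nat.mul_div_cancel_left _ (by norm_num : 0 < 2)]; exact hy1⟩
  have hk : cOK (cMk p0 p1 r) = true := by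
    interval_cases r
    exacts [pair_codes_ok.1, pair_codes_ok.2]
  refine Subtype.ext ?_
  rw [Subgroup.coe_mul, coe_kElt (sylCode_ok hi), coe_kElt (sylCode_ok hj), coe_kElt hk]
  have l0 : p0 < 2048 := point_lt.1.trans (by norm_num)
  obtain ⟨a, b, c⟩ := cMk_coords (r := r) l0 (show p1 < 2048 from point_lt.2.1.trans (by norm_num))
  have e1 : sylCode (2 * y + r) = cMk p0 y r := by
    show cMk p0 ((2 * y + r) / 2) ((2 * y + r) % 2) = _
    rw [show (2 * y + r) / 2 = y by omega, show (2 * y + r) % 2 = r by omega]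
  have e0 : sylCode (2 * y) = cMk p0 y 0 := by
    show cMk p0 (2 * y / 2) (2 * y % 2) = _
    rw [Nat.mul_div_cancel_left _ (by norm_num : 0 < 2), Nat.mul_mod_right]
  obtain ⟨a1, b1, c1⟩ := cMk_coords (r := r) l0 (show y < 2048 by omega)
  obtain ⟨a0, b0, c0⟩ := cMk_coords (r := 0) l0 (show y < 2048 by omega)
  rw [e1, e0]
  unfold cElt
  rw [a, b, c, a1, b1, c1, a0, b0, c0, word_ones.1, word_ones.2.1, word_ones.2.2, val_one]
  simp only [one_mul, mul_one]

theorem mem_sylTwo {k : titsK} (hk : k ∈ sylTwo) : ∃ s, SylIdx s ∧ k = kElt (sylCode s) := by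
  rw [sylTwo, ← Subgroup.mem_toSubmonoid, Subgroup.closure_toSubmonoid_of_finite] at hk
  induction hk using Submonoid.closure_induction_left with
  | one =>
    refine ⟨2 * p1, ?_, ?_⟩
    · refine ⟨by decide +kernel, ?_⟩
      rw [Nat.mul_div_cancel_left _ (by norm_num : 0 < 2)]
      exact not_beq_zero.1 (by decide +kernel)
    · rw [show sylCode (2 * p1) = codeOne by decide +kernel, kElt_one]
  | mul_left x hx y _ ih =>
    obtain ⟨l, hl, rfl⟩ := hx
    obtain ⟨s, hs, rfl⟩ := ih
    have hs' : SylIdx (2 * (s / 2)) :=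
      ⟨by have := hs.1; omega, by rw [Nat.mul_div_cancel_left _ (by norm_num : 0 < 2)]; exact hs.2⟩
    rcases (syl_check hs').2 with e | ⟨-, e⟩
    · omega
    have hst := e l hl
    rw [Nat.mul_div_cancel_left _ (by norm_num : 0 < 2)] at hst
    simp only [sylStepOK, Bool.and_eq_true, List.any_eq_true, List.mem_range] at hst
    obtain ⟨hy, hy1, r, hr, hst⟩ := hst
    set y := titsFrame.T l (s / 2) with hydef
    have hy' := blt_iff.1 hy
    have hy1' := not_beq_zero.1 hy1
    have hstep : letK l * kElt (sylCode (2 * (s / 2))) = kElt (sylCode (2 * y + r)) := by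
      have hi : SylIdx (2 * y + r) := ⟨by omega, by rw [show (2 * y + r) / 2 = y by omega]; exact hy1'⟩
      refine Subtype.ext (ext3 (SetLike.coe_mem _) (SetLike.coe_mem _) fun q hq => Fin.ext ?_)
      rw [Subgroup.coe_mul, Equiv.Perm.mul_apply, letK_apply hl, coe_kElt (sylCode_ok hs'),
        cElt_apply (sylCode_ok hs'), coe_kElt (sylCode_ok hi), cElt_apply (sylCode_ok hi)]
      have e0 : sylCode (2 * (s / 2)) = cMk p0 (s / 2) 0 := by
        show cMk p0 (2 * (s / 2) / 2) (2 * (s / 2) % 2) = _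
        rw [Nat.mul_div_cancel_left _ (by norm_num : 0 < 2), Nat.mul_mod_right]
      have e1 : sylCode (2 * y + r) = cMk p0 y r := by
        show cMk p0 ((2 * y + r) / 2) ((2 * y + r) % 2) = _
        rw [show (2 * y + r) / 2 = y by omega, show (2 * y + r) % 2 = r by omega]
      rw [e0, e1]
      exact Nat.eq_of_beq_eq_true (at3_spec hst hq)
    have hsq : kElt (cMk p0 p1 1) * kElt (cMk p0 p1 1) = 1 := by
      simpa using prod_eq_of_prodEq syl_words.2.2.2.2
    have h0 : kElt (cMk p0 p1 0) = 1 := by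
      rw [show cMk p0 p1 0 = codeOne by decide +kernel, kElt_one]
    have es := sylCode_split (y := s / 2) (r := s % 2) (by omega) (by have := hs.1; omega) hs.2
    rw [Nat.div_add_mod] at es
    rw [es, ← mul_assoc, hstep, sylCode_split hr hy' hy1', mul_assoc]
    have fin : ∃ t, t < 2 ∧ kElt (cMk p0 p1 r) * kElt (cMk p0 p1 (s % 2)) = kElt (cMk p0 p1 t) := by
      interval_cases r <;> rcases Nat.mod_two_eq_zero_or_one s with e | e <;> rw [e]
      · exact ⟨0, by norm_num, by rw [h0, one_mul]⟩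
      · exact ⟨1, by norm_num, by rw [h0, one_mul]⟩
      · exact ⟨1, by norm_num, by rw [h0, mul_one]⟩
      · exact ⟨0, by norm_num, by rw [h0, hsq]⟩
    obtain ⟨t, ht, ek⟩ := fin
    refine ⟨2 * y + t, ⟨by omega, by rw [show (2 * y + t) / 2 = y by omega]; exact hy1'⟩, ?_⟩
    rw [ek, sylCode_split ht hy' hy1']

theorem card_sylTwo : Nat.card sylTwo = 2 ^ 11 := by
  classical
  have hs : ∀ r : Lev 1755 lev1Tree × Fin 2, SylIdx (2 * (r.1.1 : ℕ) + r.2) := by
    rintro ⟨⟨y, hy⟩, r⟩
    refine ⟨by have := y.2; omega, ?_⟩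
    rw [show (2 * (y : ℕ) + r) / 2 = y by omega]
    exact hy
  let Φ : Lev 1755 lev1Tree × Fin 2 → sylTwo := fun r => ⟨_, kElt_syl_mem (hs r)⟩
  have hb : Function.Bijective Φ := by
    refine ⟨fun r r' e => ?_, fun k => ?_⟩
    · have e' := kElt_inj (sylCode_ok (hs r)) (sylCode_ok (hs r')) (congrArg Subtype.val e)
      have a := cMk_coords (r := (2 * (r.1.1 : ℕ) + r.2) % 2) (show p0 < 2048 from point_lt.1.trans (by norm_num))
        (show (2 * (r.1.1 : ℕ) + r.2) / 2 < 2048 by have := r.1.1.2; omega)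
      have a' := cMk_coords (r := (2 * (r'.1.1 : ℕ) + r'.2) % 2) (show p0 < 2048 from point_lt.1.trans (by norm_num))
        (show (2 * (r'.1.1 : ℕ) + r'.2) / 2 < 2048 by have := r'.1.1.2; omega)
      change cMk p0 ((2 * (r.1.1 : ℕ) + r.2) / 2) ((2 * (r.1.1 : ℕ) + r.2) % 2) =
        cMk p0 ((2 * (r'.1.1 : ℕ) + r'.2) / 2) ((2 * (r'.1.1 : ℕ) + r'.2) % 2) at e'
      rw [e'] at a
      have e1 := a.2.1.symm.trans a'.2.1
      have e2 := a.2.2.symm.trans a'.2.2
      obtain ⟨⟨⟨y, hy⟩, hy'⟩, ⟨i, hi⟩⟩ := r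
      obtain ⟨⟨⟨y', hy2⟩, hy2'⟩, ⟨i', hi'⟩⟩ := r'
      simp only at e1 e2
      obtain rfl : y = y' := by omega
      obtain rfl : i = i' := by omega
      rfl
    · obtain ⟨s, ⟨h1, h2⟩, e⟩ := mem_sylTwo k.2
      refine ⟨(⟨⟨s / 2, by omega⟩, h2⟩, ⟨s % 2, by omega⟩), Subtype.ext ?_⟩
      show kElt (sylCode (2 * (s / 2) + s % 2)) = _
      rw [Nat.div_add_mod, e]
  rw [← Nat.card_eq_of_bijective Φ hb, Nat.card_prod, card_lev, Nat.card_fin,
    show levSize 1755 lev1Tree = 1024 from second_card]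
  norm_num

theorem syl_good {s : ℕ} (hs : SylIdx s) (hne : kElt (sylCode s) ≠ 1) : TwoConj xK (kElt (sylCode s)) := by
  induction hd : sylDep s using Nat.strong_induction_on generalizing s with
  | _ d ih =>
    have h := (syl_check hs).1
    rw [sylClassOK] at h
    rcases h15 : Nat.beq (sylLet s) 15 with _ | _
    · rw [h15, cond_false] at h
      rcases h0 : Nat.beq (sylLet s) 0 with _ | _
      · rw [h0, cond_false] at h
        simp only [Bool.and_eq_true] at h
        obtain ⟨hl, hp, hp1, hp15, hdep, heq⟩ := h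
        have hps : SylIdx (sylPar s) := by
          refine ⟨?_, not_beq_zero.1 hp1⟩
          by_contra hlt
          have : 1755 ≤ sylPar s / 2 := by omega
          have h4 : sylPar s / 2 < 2048 := by have := blt_iff.1 hp; omega
          have hz : ∀ i, i < 2048 - 1755 → w1 (1755 + i) = 0 := by
            intro i hi
            exact Nat.eq_of_beq_eq_true (List.all_eq_true.1 (by decide +kernel :
              (List.range (2048 - 1755)).all (fun i => Nat.beq (w1 (1755 + i)) 0) = true) i (List.mem_range.2 hi))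
          have := hz (sylPar s / 2 - 1755) (by omega)
          rw [show 1755 + (sylPar s / 2 - 1755) = sylPar s / 2 by omega] at this
          exact not_beq_zero.1 hp1 this
        have heq' : kElt (sylCode s) * letK (sylLet s) = letK (sylLet s) * kElt (sylCode (sylPar s)) := by
          refine Subtype.ext (ext3 (SetLike.coe_mem _) (SetLike.coe_mem _) fun q hq => Fin.ext ?_)
          have e := Nat.eq_of_beq_eq_true (at3_spec heq hq)
          rw [Subgroup.coe_mul, Subgroup.coe_mul, Equiv.Perm.mul_apply, Equiv.Perm.mul_apply, letK_apply hl,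
            coe_kElt (sylCode_ok hs), cElt_apply (sylCode_ok hs), letK_apply hl, coe_kElt (sylCode_ok hps),
            cElt_apply (sylCode_ok hps)]
          exact e
        have hpar : kElt (sylCode (sylPar s)) ≠ 1 := by
          intro e
          apply hne
          rw [e, mul_one] at heq'
          exact mul_eq_right.1 heq'
        have hk := (ih (sylDep (sylPar s)) (hd ▸ blt_iff.1 hdep) hps hpar rfl).conj (letK (sylLet s))
        rwa [← heq', mul_inv_cancel_right] at hk
      · rw [h0, cond_true] at h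
        exact witOK_spec h
    · rw [h15, cond_true] at h
      exact absurd (by rw [Nat.eq_of_beq_eq_true h, kElt_one]) hne

/-! ### The main statement -/

theorem card_facts : (Nat.card titsK).factorization 2 = 11 ∧ (Nat.card titsK).factorization 3 = 3 ∧
    (Nat.card titsK).factorization 5 = 2 ∧ (Nat.card titsK).factorization 13 = 1 ∧
    ∀ p : ℕ, p.Prime → p ∣ Nat.card titsK → p = 2 ∨ p = 3 ∨ p = 5 ∨ p = 13 := by
  rw [card_titsK, show (17971200 : ℕ) = 2 ^ 11 * 3 ^ 3 * 5 ^ 2 * 13 ^ 1 by norm_num]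
  have p3 : Nat.Prime 3 := by norm_num
  have p5 : Nat.Prime 5 := by norm_num
  have p13 : Nat.Prime 13 := by norm_num
  have hf : (2 ^ 11 * 3 ^ 3 * 5 ^ 2 * 13 ^ 1 : ℕ).factorization =
      Finsupp.single 2 11 + Finsupp.single 3 3 + Finsupp.single 5 2 + Finsupp.single 13 1 := by
    rw [Nat.factorization_mul (by norm_num) (by norm_num), Nat.factorization_mul (by norm_num) (by norm_num),
      Nat.factorization_mul (by norm_num) (by norm_num), Nat.prime_two.factorization_pow, p3.factorization_pow,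
      p5.factorization_pow, p13.factorization_pow]
  refine ⟨?_, ?_, ?_, ?_, fun p hp hd => ?_⟩
  · rw [hf]; simp
  · rw [hf]; simp
  · rw [hf]; simp
  · rw [hf]; simp
  · rcases (hp.dvd_mul.1 hd) with hd | hd
    · rcases (hp.dvd_mul.1 hd) with hd | hd
      · rcases (hp.dvd_mul.1 hd) with hd | hd
        · exact Or.inl ((Nat.prime_dvd_prime_iff_eq hp Nat.prime_two).1 (hp.dvd_of_dvd_pow hd))
        · exact Or.inr (Or.inl ((Nat.prime_dvd_prime_iff_eq hp p3).1 (hp.dvd_of_dvd_pow hd)))
      · exact Or.inr (Or.inr (Or.inl ((Nat.prime_dvd_prime_iff_eq hp p5).1 (hp.dvd_of_dvd_pow hd))))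
    · exact Or.inr (Or.inr (Or.inr ((Nat.prime_dvd_prime_iff_eq hp p13).1 (hp.dvd_of_dvd_pow hd))))

/-- The step from an element of prime order in a listed Sylow subgroup to the centraliser. -/
theorem good_of_conj_cent {p z : ℕ} {L : List (ℕ × ℕ × ℕ)} {P : Subgroup titsK}
    (hmem : ∀ k, k ∈ P ↔ ∃ a ∈ L.map Prod.fst, k = kElt a) (hc : conjOK z L = true)
    {g y : titsK} (hy : orderOf y = p) (hp : 1 < p) (hcomm : Commute g y)
    (hin : ∃ h, h * y * h⁻¹ ∈ P) (hcent : ∀ k : titsK, Commute k (kElt z) → k ≠ 1 → TwoConj xK k)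
    (hg : g ≠ 1) : TwoConj xK g := by
  obtain ⟨h, hh⟩ := hin
  obtain ⟨a, ha, ea⟩ := (hmem _).1 hh
  obtain ⟨⟨n, c, c'⟩, hb, rfl⟩ := List.mem_map.1 ha
  simp only [conjOK, List.all_eq_true, Bool.or_eq_true, Bool.and_eq_true] at hc
  rcases hc _ hb with e | ⟨e1, e2⟩
  · exfalso
    rw [Nat.eq_of_beq_eq_true e, kElt_one] at ea
    rw [conj_eq_one_iff] at ea
    rw [ea, orderOf_one] at hy
    omega
  · have e1' := prod_eq_of_prodEq e1
    have e2' := prod_eq_of_prodEq e2
    simp only [List.map_cons, List.map_nil, List.prod_cons, List.prod_nil, mul_one] at e1' e2'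
    simp only at ea
    rw [e2', ← inv_eq_of_mul_eq_one_right e1'] at ea
    set d := (kElt c)⁻¹ * h with hd
    refine TwoConj.of_conj d (hcent _ ?_ (fun e => hg (conj_eq_one_iff.1 e)))
    have ez : d * y * d⁻¹ = kElt z := by
      rw [hd, show (kElt c)⁻¹ * h * y * ((kElt c)⁻¹ * h)⁻¹ = (kElt c)⁻¹ * (h * y * h⁻¹) * kElt c by group, ea]
      group
    rw [← ez]
    exact (Commute.conj_iff d).2 hcomm

theorem two_conj_K : ∀ g : titsK, g ≠ 1 → TwoConj xK g := by
  classical
  intro g hg
  obtain ⟨c2, c3, c5, c13, cprimes⟩ := card_facts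
  by_cases h2 : ∃ k, orderOf g = 2 ^ k
  · obtain ⟨k, hk⟩ := h2
    haveI : Fact (Nat.Prime 2) := ⟨Nat.prime_two⟩
    obtain ⟨h, hh⟩ := exists_conj_mem c2 card_sylTwo hk
    obtain ⟨s, hs, e⟩ := mem_sylTwo hh
    refine TwoConj.of_conj h ?_
    rw [e]
    exact syl_good hs fun e1 => hg (conj_eq_one_iff.1 (e.trans e1))
  · have hopos : orderOf g ≠ 0 := (orderOf_pos g).ne'
    obtain ⟨p, hp, hpd, hp2⟩ : ∃ p, p.Prime ∧ p ∣ orderOf g ∧ p ≠ 2 := by
      by_contra hne
      push Not at hne
      exact h2 ⟨_, Nat.eq_prime_pow_of_unique_prime_dvd hopos fun {d} hd hdd => hne d hd hdd⟩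
    set y := g ^ (orderOf g / p) with hydef
    have hy : orderOf y = p := orderOf_pow_orderOf_div hopos hpd
    have hcomm : Commute g y := Commute.self_pow g _
    have hyp : orderOf y = p ^ 1 := by rw [hy, pow_one]
    haveI : Fact p.Prime := ⟨hp⟩
    rcases cprimes p hp (hpd.trans (orderOf_dvd_natCard g)) with rfl | rfl | rfl | rfl
    · exact absurd rfl hp2
    · obtain ⟨hcl, hn, hlen, hc⟩ := three_group
      obtain ⟨P, hmem, hcard⟩ := list_subgroup hcl hn
      rw [List.length_map, hlen] at hcard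
      exact good_of_conj_cent hmem hc hy (by norm_num) hcomm
        (exists_conj_mem c3 (by rw [hcard]; norm_num) hyp)
        (fun k hk hk1 => cent_list z_facts.1.1 z_facts.1.2 cent_three wit_lists.1 hk hk1) hg
    · obtain ⟨hcl, hn, hlen, hc⟩ := five_group
      obtain ⟨P, hmem, hcard⟩ := list_subgroup hcl hn
      rw [List.length_map, hlen] at hcard
      exact good_of_conj_cent hmem hc hy (by norm_num) hcomm
        (exists_conj_mem c5 (by rw [hcard]; norm_num) hyp)
        (fun k hk hk1 => cent_list z_facts.2.1.1 z_facts.2.1.2 cent_five wit_lists.2.1 hk hk1) hg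
    · obtain ⟨hcl, hn, hlen⟩ := thirteen_group
      obtain ⟨P, hmem, hcard⟩ := list_subgroup hcl hn
      rw [List.length_map, hlen] at hcard
      obtain ⟨h, hh⟩ := exists_conj_mem c13 (by rw [hcard]; norm_num) hyp
      have hzP : xK ∈ P := (hmem _).2 ⟨zThirteen, by decide +kernel, rfl⟩
      haveI : Fact (Nat.card P).Prime := ⟨by rw [hcard]; norm_num⟩
      have hne1 : (⟨_, hh⟩ : P) ≠ 1 := fun e => by
        have e' := congrArg Subtype.val e
        simp only [OneMemClass.coe_one, conj_eq_one_iff] at e'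
        rw [e', orderOf_one] at hy
        norm_num at hy
      obtain ⟨i, hi⟩ : (⟨xK, hzP⟩ : P) ∈ Subgroup.zpowers (⟨_, hh⟩ : P) :=
        mem_zpowers_of_prime_card rfl hne1
      refine TwoConj.of_conj h (cent_list z_facts.2.2.1 z_facts.2.2.2 cent_thirteen wit_lists.2.2 ?_
        (fun e => hg (conj_eq_one_iff.1 e)))
      have hi' : (h * y * h⁻¹) ^ i = xK := by simpa using congrArg Subtype.val hi
      show Commute (h * g * h⁻¹) xK
      rw [← hi']
      exact ((Commute.conj_iff h).2 hcomm).zpow_right i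

theorem odd_xK : Odd (orderOf xK) := by
  classical
  obtain ⟨hcl, hn, hlen⟩ := thirteen_group
  obtain ⟨P, hmem, hcard⟩ := list_subgroup hcl hn
  rw [List.length_map, hlen] at hcard
  have hzP : xK ∈ P := (hmem _).2 ⟨zThirteen, by decide +kernel, rfl⟩
  have := orderOf_dvd_natCard (⟨xK, hzP⟩ : P)
  rw [hcard, Subgroup.orderOf_mk] at this
  exact (show Odd 13 by decide).of_dvd_nat this

/-- Some element of odd order of the Tits group has every non-identity element as a product of two of its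
conjugates. -/
theorem tits_two_conj : ∃ x : Cfsg.Lie.TitsGroup, Odd (orderOf x) ∧
    ∀ g : Cfsg.Lie.TitsGroup, g ≠ 1 → ∃ u v, g = (u * x * u⁻¹) * (v * x * v⁻¹) := by
  refine ⟨titsEquiv.symm xK, by rw [MulEquiv.orderOf_eq]; exact odd_xK, fun g hg => ?_⟩
  obtain ⟨u, v, e⟩ := two_conj_K (titsEquiv g) fun h => hg (titsEquiv.injective (h.trans (map_one titsEquiv).symm))
  refine ⟨titsEquiv.symm u, titsEquiv.symm v, ?_⟩
  apply titsEquiv.injective
  simp only [map_mul, map_inv, MulEquiv.apply_symm_apply, e]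

end Cfsg.Agent.TwoFourCC
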