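import Cfsg.Agent.CentralExt.TwCells.F4Torus

/-!
# Parameters of the torus of ²F₄(q): root values, halves, rank one parts
-/

set_option autoImplicit false
set_option linter.unusedSectionVars false

namespace Cfsg.Agent.TwoFourCC

open Cfsg.Lie Cfsg.Agent.ChevGrp Cfsg.Agent.ChevTw Cfsg.Agent.CentralExt.TwCells

/-- The orbit other than the given one. -/
def oth (J : Fin twF4.nOrb) : Fin twF4.nOrb :=
  if J.val = 0 then ⟨1, by decide⟩ else ⟨0, by decide⟩

/-- A root centralised by the rank one part. -/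
def centRoot (J : Fin twF4.nOrb) : ℕ := if J.val = 0 then 45 else 47

/-- A positive root of the orbit. -/
def testRoot (J : Fin twF4.nOrb) : ℕ := if J.val = 0 then 24 else 28

theorem root_facts : ∀ J : Fin twF4.nOrb,
    centRoot J < chevF4.nroots ∧ testRoot J < chevF4.nroots ∧ chevF4.IsPosRoot (testRoot J) ∧
    act chevF4 (twF4.wJ chevF4 J) (chevF4.neg (testRoot J)) = testRoot J ∧
    ∀ r ∈ twF4.posList J ++ (twF4.posList J).map chevF4.neg, r < chevF4.nroots ∧
      centRoot J ≠ r ∧ centRoot J ≠ chevF4.neg r ∧ chevF4.commTerms r (centRoot J) = [] := by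
  decide +kernel

theorem cartan_facts :
    (List.range 4).map (fun j => chevF4.cartan j 45) = [0, 2, -1, 0] ∧
    (List.range 4).map (fun j => chevF4.cartan j 47) = [0, 0, 0, 1] ∧
    (List.range 4).map (fun j => chevF4.cartan j 24) = [0, 0, -1, 2] ∧
    (List.range 4).map (fun j => chevF4.cartan j (chevF4.neg 24)) = [0, 0, 1, -2] ∧
    (List.range 4).map (fun j => chevF4.cartan j 28) = [-1, 0, 1, -1] ∧
    (List.range 4).map (fun j => chevF4.cartan j (chevF4.neg 28)) = [1, 0, -1, 1] := by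
  decide +kernel

variable {K : Type*} [Field K] [Fintype K] {m : ℕ} (hK : Fintype.card K = 2 ^ (2 * m + 1))

/-- The value of a root on a parameter of the torus. -/
def rv (m : ℕ) (x : Kˣ × Kˣ) (r : ℕ) : Kˣ := ∏ j : Fin 4, parF4 m x j ^ chevF4.cartan j.val r

theorem rv_eq (x : Kˣ × Kˣ) (r : ℕ) {a b c d : ℤ}
    (h : (List.range 4).map (fun j => chevF4.cartan j r) = [a, b, c, d]) :
    rv m x r = (x.1 ^ 2 ^ m) ^ a * (x.2 ^ 2 ^ m) ^ b * x.2 ^ c * x.1 ^ d := by
  have e : [chevF4.cartan 0 r, chevF4.cartan 1 r, chevF4.cartan 2 r, chevF4.cartan 3 r] = [a, b, c, d] := h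
  simp only [List.cons.injEq, and_true] at e
  obtain ⟨rfl, rfl, rfl, rfl⟩ := e
  rw [rv, Fin.prod_univ_four]
  rfl

include hK in
theorem eq_one_of_sq {u : Kˣ} (h : u * u = 1) : u = 1 := by
  have := units_pow_twice hK u
  rw [mul_assoc, pow_mul, pow_two, h, one_pow] at this
  exact this.symm

include hK in
theorem coord_eq_one {y : Kˣ} (h : (y ^ 2 ^ m) * (y ^ 2 ^ m) = y) : y = 1 := by
  have h1 : y ^ (2 * 2 ^ m) = y := by rw [two_mul, pow_add]; exact h
  have h2 := units_pow_twice hK y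
  rw [pow_mul, h1] at h2
  rw [h2] at h
  exact mul_eq_left.1 h

theorem rv_zero_cent (x : Kˣ × Kˣ) : rv m x (centRoot ⟨0, by decide⟩) = x.2 ^ 2 ^ m * x.2 ^ 2 ^ m * x.2⁻¹ := by
  rw [show centRoot ⟨0, by decide⟩ = 45 from rfl, rv_eq x 45 cartan_facts.1]
  simp [zpow_ofNat, pow_two]

theorem rv_one_cent (x : Kˣ × Kˣ) : rv m x (centRoot ⟨1, by decide⟩) = x.1 := by
  rw [show centRoot ⟨1, by decide⟩ = 47 from rfl, rv_eq x 47 cartan_facts.2.1]
  simp

include hK in
/-- The parameters killed by the centralised root. -/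
theorem cent_iff (J : Fin twF4.nOrb) (x : Kˣ × Kˣ) :
    rv m x (centRoot J) = 1 ↔ (if J.val = 0 then x.2 else x.1) = 1 := by
  fin_cases J
  · rw [rv_zero_cent]
    simp only [↓reduceIte]
    exact ⟨fun h => coord_eq_one hK (mul_inv_eq_one.1 h), fun h => by simp [h]⟩
  · rw [rv_one_cent]
    simp

include hK in
/-- The test root detects the remaining parameter. -/
theorem test_eq (J : Fin twF4.nOrb) {x x' : Kˣ × Kˣ} (hx : rv m x (centRoot J) = 1)
    (hx' : rv m x' (centRoot J) = 1)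
    (h : rv m x' (testRoot J) = rv m x (chevF4.neg (testRoot J))) : x' = x⁻¹ := by
  rw [cent_iff hK] at hx hx'
  obtain ⟨-, -, c1, c2, c3, c4⟩ := cartan_facts
  fin_cases J
  · simp only [↓reduceIte] at hx hx'
    rw [show testRoot (⟨0, by decide⟩ : Fin twF4.nOrb) = 24 from rfl, rv_eq x' 24 c1,
      rv_eq x _ c2, hx, hx'] at h
    simp [zpow_ofNat, pow_two] at h
    refine Prod.ext ?_ (by simp [hx, hx'])
    refine eq_inv_of_mul_eq_one_left (eq_one_of_sq hK ?_)
    calc x'.1 * x.1 * (x'.1 * x.1) = x'.1 * x'.1 * (x.1 * x.1) := mul_mul_mul_comm _ _ _ _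
      _ = 1 := by rw [h, mul_mul_mul_comm]; simp
  · simp only [one_ne_zero, ↓reduceIte] at hx hx'
    rw [show testRoot (⟨1, by decide⟩ : Fin twF4.nOrb) = 28 from rfl, rv_eq x' 28 c3,
      rv_eq x _ c4, hx, hx'] at h
    simp at h
    exact Prod.ext (by simp [hx, hx']) h

/-- The factors of a parameter. -/
def projPar (J : Fin twF4.nOrb) (x : Kˣ × Kˣ) : Kˣ × Kˣ := if J.val = 0 then (x.1, 1) else (1, x.2)

theorem projPar_mul (J : Fin twF4.nOrb) (x : Kˣ × Kˣ) : projPar J x * projPar (oth J) x = x := by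
  fin_cases J <;> simp [projPar, oth]

include hK in
theorem projPar_cent (J : Fin twF4.nOrb) (x : Kˣ × Kˣ) : rv m (projPar J x) (centRoot J) = 1 := by
  rw [cent_iff hK]
  fin_cases J <;> simp [projPar]

end Cfsg.Agent.TwoFourCC
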