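import Cfsg.Agent.TwoFourCC.Gauss
import Cfsg.Agent.TwoFourCC.Torus

/-!
# The rank one data of ²F₄(q)
-/

set_option autoImplicit false
set_option linter.unusedSectionVars false

namespace Cfsg.Agent.TwoFourCC

open Cfsg.Lie Cfsg.Agent.ChevGrp Cfsg.Agent.ChevTw Cfsg.Agent.CentralExt.TwCells

theorem orbit_tbl : ∀ A : Fin twF4.nOrb,
    (∀ r ∈ twF4.posList A, chevF4.IsPosRoot (act chevF4 (twF4.wJ chevF4 (oth A)).reverse r) ∧
      act chevF4 (twF4.wJ chevF4 (oth A)).reverse r ∉ twF4.posList A) ∧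
    (∀ r ∈ twF4.posList (oth A), chevF4.IsPosRoot (act chevF4 (twF4.wJ chevF4 A).reverse r) ∧
      act chevF4 (twF4.wJ chevF4 A).reverse r ∉ twF4.posList A) ∧
    ∀ r ∈ twF4.posList (oth A), r ∉ twF4.posList A := by
  decide +kernel

variable {K : Type*} [Field K] [Fintype K] {m : ℕ} (hK : Fintype.card K = 2 ^ (2 * m + 1))

/-- The ambient system. -/
noncomputable abbrev SF (K : Type*) [Field K] := glSys (rulesF4 K)

/-- The centraliser of the distinguished root element. -/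
noncomputable def centG (J : Fin twF4.nOrb) : Subgroup (GL chevF4.Idx K) :=
  Subgroup.centralizer {(SF K).x (centRoot J) 1}

theorem orb_sub_centG (J : Fin twF4.nOrb) :
    (SF K).US ((orbF4 hK).posJ J) ⊔ (SF K).US ((orbF4 hK).negJ J) ≤ centG J := by
  obtain ⟨len, hR⟩ := (rulesF4 K).root
  have ep := twF4_ok.enum_posJ (T := twistF4 hK) (fun _ => rfl) rfl J
  have en := twF4_ok.enum_negJ (T := twistF4 hK) (fun _ => rfl) rfl hR J
  obtain ⟨hc, -, -, -, htab⟩ := root_facts J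
  have key : ∀ A : Set ℕ, (∀ r ∈ A, r ∈ twF4.posList J ++ (twF4.posList J).map chevF4.neg) →
      (SF K).US A ≤ centG J := by
    intro A hA
    rw [Sys.US, Subgroup.closure_le]
    rintro _ ⟨r, hr, t, rfl⟩
    obtain ⟨h1, h2, h3, h4⟩ := htab r (hA r hr)
    rw [SetLike.mem_coe, centG, Subgroup.mem_centralizer_singleton_iff]
    exact (x_commute (SF K) h1 hc h2 h3 h4 t 1).eq
  exact sup_le (key _ fun r hr => List.mem_append_left _ ((ep.2 r).2 hr))
    (key _ fun r hr => List.mem_append_right _ ((en.2 r).2 hr))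

include hK in
theorem exists_nC (J : Fin twF4.nOrb) : ∃ n, n ∈ (SF K).Nbar ∧
    (SF K).ConjP n (twF4.wJ chevF4 J) ∧ n ∈ (grpF4 hK).Tw ∧ n ∈ centG J ∧
      n ∈ (SF K).LJ ((orbF4 hK).nodes J) := by
  obtain ⟨len, hR⟩ := (rulesF4 K).root
  obtain ⟨v, hv, hv1⟩ := (grpF4 hK).exNeg J
  obtain ⟨c, hc, u, hu, n, hn, hcj, hT, e⟩ := (grpF4 hK).neg_decomp (rulesF4 K) hR J hv hv1
  have e' : n = c⁻¹ * v * u⁻¹ := by rw [e]; group
  refine ⟨n, hn, hcj, hT, ?_, ?_⟩
  · rw [e']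
    refine mul_mem (mul_mem (inv_mem ?_) ?_) (inv_mem ?_) <;> apply orb_sub_centG hK J
    exacts [Subgroup.mem_sup_left hc.1, Subgroup.mem_sup_right hv.1, Subgroup.mem_sup_left hu.1]
  · rw [e']
    exact mul_mem (mul_mem (inv_mem (posJ_le_LJ _ J hc.1)) (negJ_le_LJ _ J hv.1))
      (inv_mem (posJ_le_LJ _ J hu.1))

/-- The representative inside the rank one part. -/
noncomputable def nC (J : Fin twF4.nOrb) : GL chevF4.Idx K := (exists_nC hK J).choose

theorem nC_spec (J : Fin twF4.nOrb) : nC hK J ∈ (SF K).Nbar ∧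
    (SF K).ConjP (nC hK J) (twF4.wJ chevF4 J) ∧ nC hK J ∈ (grpF4 hK).Tw ∧ nC hK J ∈ centG J ∧
      nC hK J ∈ (SF K).LJ ((orbF4 hK).nodes J) :=
  (exists_nC hK J).choose_spec

theorem oth_ne (J : Fin twF4.nOrb) : oth J ≠ J := by revert J; decide

theorem singleton_inj {len : ℕ → ℕ} (hR : RootTable chevF4 len) {r : ℕ} (hr : chevF4.IsPosRoot r)
    {a b : K} (h : (SF K).x r a = (SF K).x r b) : a = b := by
  have hB : UClosed chevF4 len (htHom chevF4) ({r} : Set ℕ) :=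
    hR.posSet_closed.subset_closed (fun s hs => by rw [Set.mem_singleton_iff.1 hs]; exact hr)
      fun s hs s' hs' hne => absurd ((Set.mem_singleton_iff.1 hs').trans (Set.mem_singleton_iff.1 hs).symm) hne
  exact (SF K).coef_unique hR hB (L := [r]) ⟨List.nodup_singleton _, fun s => List.mem_singleton⟩
    (t := fun _ => a) (t' := fun _ => b) (by simpa [Sys.P] using congrArg (SF K).θ h) r rfl

/-- Root values are read off by conjugation. -/
theorem tau_conj_rv {len : ℕ → ℕ} (hR : RootTable chevF4 len) (x : Kˣ × Kˣ) {r : ℕ}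
    (hr : r < chevF4.nroots) (t : K) :
    (SF K).tau (rulesF4 K) hR (glSys_HMul (rulesF4 K) hR) (parF4 m x) * (SF K).x r t *
      ((SF K).tau (rulesF4 K) hR (glSys_HMul (rulesF4 K) hR) (parF4 m x))⁻¹ =
      (SF K).x r ((rv m x r : Kˣ) * t) :=
  Cfsg.Agent.ChevTwOrd.tau_conj _ hR _ (parF4 m x) r hr t

include hK in
/-- Membership of a parameter in the centraliser. -/
theorem tau_mem_centG {len : ℕ → ℕ} (hR : RootTable chevF4 len) (J : Fin twF4.nOrb) (x : Kˣ × Kˣ) :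
    (SF K).tau (rulesF4 K) hR (glSys_HMul (rulesF4 K) hR) (parF4 m x) ∈ centG J ↔
      rv m x (centRoot J) = 1 := by
  obtain ⟨hc, -, -, -, -⟩ := root_facts J
  have hp : chevF4.IsPosRoot (centRoot J) := by revert J; decide +kernel
  rw [centG, Subgroup.mem_centralizer_singleton_iff, ← mul_inv_eq_iff_eq_mul, tau_conj_rv hR x hc,
    mul_one]
  exact ⟨fun h => Units.ext (singleton_inj hR hp h), fun h => by rw [h, Units.val_one]⟩

include hK in
/-- The representative inverts the torus part of its orbit. -/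
theorem inv_torus {len : ℕ → ℕ} (hR : RootTable chevF4 len) (J : Fin twF4.nOrb) {d : GL chevF4.Idx K}
    (hd : d ∈ (SF K).Hbar ⊓ (grpF4 hK).Tw) (hdc : d ∈ centG J) :
    nC hK J * d * (nC hK J)⁻¹ = d⁻¹ := by
  obtain ⟨hnN, hnc, hnT, hncen, -⟩ := nC_spec hK J
  obtain ⟨x, rfl⟩ := (mem_HT hK hR).1 hd
  set τ := (SF K).tau (rulesF4 K) hR (glSys_HMul (rulesF4 K) hR) with hτ
  set n := nC hK J
  have hd' : n * τ (parF4 m x) * n⁻¹ ∈ (SF K).Hbar ⊓ (grpF4 hK).Tw :=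
    Subgroup.mem_inf.2 ⟨Sys.conj_mem_Hbar (rulesF4 K) hR hnN (Subgroup.mem_inf.1 hd).1,
      mul_mem (mul_mem hnT (Subgroup.mem_inf.1 hd).2) (inv_mem hnT)⟩
  obtain ⟨x', hx'⟩ := (mem_HT hK hR).1 hd'
  have hdc' : τ (parF4 m x') ∈ centG J := by
    rw [hx']
    exact mul_mem (mul_mem hncen hdc) (inv_mem hncen)
  obtain ⟨-, hr, hrp, hact, -⟩ := root_facts J
  set r := testRoot J
  have hnr := hR.neg_lt r hr
  obtain ⟨a, ha, hna⟩ := hnc
  have ha0 : a (chevF4.neg r) ≠ 0 := right_ne_zero_of_mul_eq_one (ha _ hnr)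
  have e1 : τ (parF4 m x') * (n * (SF K).x (chevF4.neg r) 1 * n⁻¹) * (τ (parF4 m x'))⁻¹ =
      n * (τ (parF4 m x) * (SF K).x (chevF4.neg r) 1 * (τ (parF4 m x))⁻¹) * n⁻¹ := by
    rw [hx']; group
  rw [hna _ hnr, tau_conj_rv hR x hnr, hna _ hnr, hact, tau_conj_rv hR x' hr, mul_one, mul_one] at e1
  have e2 : ((rv m x' r : Kˣ) : K) = (rv m x (chevF4.neg r) : Kˣ) := by
    have := singleton_inj hR hrp e1
    exact mul_right_cancel₀ ha0 (by rw [this, mul_comm])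
  rw [← hx', test_eq hK J ((tau_mem_centG hK hR J x).1 hdc) ((tau_mem_centG hK hR J x').1 hdc')
    (Units.ext e2), map_inv, map_inv]

/-- The finite twisted group. -/
noncomputable abbrev GT : Type _ := ↥(grpF4 hK).Tw

/-- A subgroup of the twisted group. -/
noncomputable abbrev inT (A : Subgroup (GL chevF4.Idx K)) : Subgroup (GT hK) := A.subgroupOf (grpF4 hK).Tw

theorem mem_inT {A : Subgroup (GL chevF4.Idx K)} {g : GT hK} :
    g ∈ inT hK A ↔ (g : GL chevF4.Idx K) ∈ A := Subgroup.mem_subgroupOf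

theorem normalizer_inT {A : Subgroup (GL chevF4.Idx K)} {g : GT hK}
    (h : (g : GL chevF4.Idx K) ∈ Subgroup.normalizer (A : Set (GL chevF4.Idx K))) :
    g ∈ Subgroup.normalizer (inT hK A : Set (GT hK)) := by
  rw [Subgroup.mem_normalizer_iff] at h ⊢
  intro x
  simp only [mem_inT, Subgroup.coe_mul, Subgroup.coe_inv]
  exact h x

include hK in
theorem mem_posFix {len : ℕ → ℕ} (hR : RootTable chevF4 len) {A : Set ℕ} {g : GT hK}
    (h : (g : GL chevF4.Idx K) ∈ (SF K).US A) : (g : GL chevF4.Idx K) ∈ fixUS (twistF4 hK) A :=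
  ⟨h, (grpF4 hK).fixed g.2⟩

/-- The roots outside the orbit, negative ones. -/
noncomputable def negOut (J : Fin twF4.nOrb) (len : ℕ → ℕ) : Set ℕ :=
  degPos chevF4 len (-outJ chevF4 ((orbF4 hK).nodes J))

theorem negOut_sub {len : ℕ → ℕ} (hR : RootTable chevF4 len) (J : Fin twF4.nOrb) {r : ℕ}
    (hr : r ∈ negOut hK J len) : r ∈ negSet chevF4 := by
  rcases hR.sign r hr.1 with h | h
  · have h1 := hR.outJ_nonneg ((orbF4 hK).nodes J) h
    have h2 := hr.2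
    simp only [AddMonoidHom.neg_apply] at h2
    omega
  · exact h

theorem LJ_le_normalizer_negOut {len : ℕ → ℕ} (hR : RootTable chevF4 len) (J : Fin twF4.nOrb) :
    (SF K).LJ ((orbF4 hK).nodes J) ≤
      Subgroup.normalizer ((SF K).US (negOut hK J len) : Set (GL chevF4.Idx K)) := by
  refine sup_le ((SF K).Hbar_le_normalizer_US (rulesF4 K) hR fun r hr => hr.1) ?_
  rw [Sys.US, Subgroup.closure_le]
  rintro _ ⟨r, hr, t, rfl⟩
  refine (SF K).x_mem_normalizer_degPos hR hr.1 ?_ t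
  rw [AddMonoidHom.neg_apply, (hR.inRootSub_iff _ hr.1).1 hr, neg_zero]

/-- The subgroup of `T` attached to an orbit. -/
noncomputable def DT (J : Fin twF4.nOrb) : Subgroup (GT hK) := inT hK ((SF K).Hbar ⊓ centG J)

theorem mem_DT {J : Fin twF4.nOrb} {g : GT hK} :
    g ∈ DT hK J ↔ (g : GL chevF4.Idx K) ∈ (SF K).Hbar ∧ (g : GL chevF4.Idx K) ∈ centG J := by
  rw [DT, mem_inT, Subgroup.mem_inf]

include hK in
theorem U_split (J : Fin twF4.nOrb) {u : GT hK} (hu : u ∈ inT hK (SF K).Ubar) :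
    ∃ c ∈ inT hK ((SF K).US ((orbF4 hK).posJ J)), ∃ p ∈ inT hK ((SF K).UJ ((orbF4 hK).nodes J)),
      u = c * p := by
  obtain ⟨len, hR⟩ := (rulesF4 K).root
  set A : Set ℕ := {r | chevF4.IsPosRoot r ∧ ¬ chevF4.InRootSub ((orbF4 hK).nodes J) r} with hA
  have hAc : UClosed chevF4 len (htHom chevF4) A := by
    rw [hA, ← hR.degPos_outJ_eq]
    exact hR.posSet_closed.subset_closed (fun r hr => hR.pos_of_degPos _ hr)
      fun r hr s hs hne c hc => (hR.degPos_closed _).closed r hr s hs hne c hc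
  have hi : (u : GL chevF4.Idx K)⁻¹ ∈ (SF K).Ubar := inv_mem ((mem_inT hK).1 hu)
  obtain ⟨a, ha, c, hc, e⟩ := (SF K).US_eq_mul hR hR.posSet_closed hAc ((orbF4 hK).posJ_closed hR J)
    (Set.ext fun r => ⟨fun h => h.elim (fun h => h.1) fun h => h.1, fun h => by
      by_cases hJ : chevF4.InRootSub ((orbF4 hK).nodes J) r
      · exact Or.inr ⟨h, hJ⟩
      · exact Or.inl ⟨h, hJ⟩⟩)
    (Set.disjoint_left.2 fun r h1 h2 => h1.2 h2.2) hi
  have hfix : (twistF4 hK).sig (a * c) = a * c := by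
    rw [← e]
    exact (grpF4 hK).fixed (inv_mem u.2)
  have hAlt : ∀ r ∈ A, r < chevF4.nroots := fun r hr => hr.1.1
  have hAρ : ∀ r ∈ A, (twistF4 hK).ρ r ∈ A := fun r hr =>
    ⟨(twistF4 hK).ρ_pos r hr.1, fun hin => (orbF4 hK).ρ_out hR J hr.1 (fun h => hr.2 h.2)
      ⟨(twistF4 hK).ρ_pos r hr.1, hin⟩⟩
  rw [(twistF4 hK).sig_mul a (Twist.US_le_Gbar hAlt ha) c
    (Twist.US_le_Gbar (orbF4 hK).posJ_lt hc)] at hfix
  obtain ⟨-, ec⟩ := split_unique (rulesF4 K) hR (orbF4 hK) J ((twistF4 hK).sig_US hAlt hAρ ha) ha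
    (posJ_le_LJ _ J ((twistF4 hK).sig_US (orbF4 hK).posJ_lt
      (fun r hr => (orbF4 hK).ρ_posJ hR J hr) hc)) (posJ_le_LJ _ J hc) hfix
  have hcT := (grpF4 hK).fixPos_mem J ⟨hc, ec⟩
  refine ⟨⟨c⁻¹, inv_mem hcT⟩, inv_mem hc, ⟨c * (u : GL chevF4.Idx K), mul_mem hcT u.2⟩, ?_, ?_⟩
  · rw [mem_inT]
    show c * (u : GL chevF4.Idx K) ∈ _
    rw [show (u : GL chevF4.Idx K) = c⁻¹ * a⁻¹ by
      rw [← mul_inv_rev, ← e, inv_inv], mul_inv_cancel_left]
    exact inv_mem ha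
  · exact Subtype.ext (by simp)

include hK in
theorem DT_half (J : Fin twF4.nOrb) {d : GT hK} (hd : d ∈ DT hK J) :
    ∃ s ∈ DT hK J, s * s = d := by
  obtain ⟨len, hR⟩ := (rulesF4 K).root
  obtain ⟨x, hx⟩ := (mem_HT hK hR).1 (Subgroup.mem_inf.2 ⟨((mem_DT hK).1 hd).1, d.2⟩)
  refine ⟨d ^ (2 ^ (2 * m)), pow_mem hd _, Subtype.ext ?_⟩
  rw [← pow_add, show 2 ^ (2 * m) + 2 ^ (2 * m) = 2 * 2 ^ m * 2 ^ m by ring, SubmonoidClass.coe_pow,
    ← hx, ← map_pow, ← map_pow]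
  congr 2
  exact Prod.ext (units_pow_twice hK _) (units_pow_twice hK _)

include hK in
theorem H_split {len : ℕ → ℕ} (hR : RootTable chevF4 len) (J : Fin twF4.nOrb) {h : GT hK}
    (hh : h ∈ inT hK (SF K).Hbar) : ∃ a ∈ DT hK J, ∃ b ∈ DT hK (oth J), h = a * b := by
  obtain ⟨x, hx⟩ := (mem_HT hK hR).1 (Subgroup.mem_inf.2 ⟨(mem_inT hK).1 hh, h.2⟩)
  have h1 := (mem_HT hK hR).2 ⟨projPar J x, rfl⟩
  have h2 := (mem_HT hK hR).2 ⟨projPar (oth J) x, rfl⟩
  refine ⟨⟨_, h1.2⟩, (mem_DT hK).2 ⟨h1.1, (tau_mem_centG hK hR J _).2 (projPar_cent hK J x)⟩,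
    ⟨_, h2.2⟩, (mem_DT hK).2 ⟨h2.1, (tau_mem_centG hK hR _ _).2 (projPar_cent hK _ x)⟩, Subtype.ext ?_⟩
  rw [Subgroup.coe_mul, ← hx]
  simp only [← map_mul, projPar_mul]

include hK in
theorem decomp (J : Fin twF4.nOrb) {c : GT hK} (hc : c ∈ inT hK ((SF K).US ((orbF4 hK).posJ J)))
    (hc1 : c ≠ 1) {n : GT hK} (hn : (n : GL chevF4.Idx K) = nC hK J) :
    ∃ a ∈ inT hK ((SF K).US ((orbF4 hK).posJ J)), ∃ b ∈ inT hK ((SF K).US ((orbF4 hK).posJ J)),
      ∃ d ∈ DT hK J, n⁻¹ * c * n = a * n * d * b := by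
  obtain ⟨len, hR⟩ := (rulesF4 K).root
  obtain ⟨hnN, hnc, hnT, hncen, -⟩ := nC_spec hK J
  set ν := nC hK J
  have hv : (ν⁻¹ * (c : GL chevF4.Idx K) * ν⁻¹⁻¹) ∈ fixUS (twistF4 hK) ((orbF4 hK).negJ J) := by
    refine (grpF4 hK).conj_neg_fix (inv_mem hnT) (hnc.inv hR) (orbF4 hK).posJ_lt (fun r hr => ?_)
      (mem_posFix hK hR ((mem_inT hK).1 hc))
    have e : act chevF4 (twF4.wJ chevF4 J).reverse r = act chevF4 ((orbF4 hK).wJ J) r := by
      conv_lhs => rw [← (orbF4 hK).winv J r hr.1.1]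
      exact hR.act_reverse_act _ (hR.act_lt _ hr.1.1)
    rw [e]
    exact (orbF4 hK).act_wJ_mem hR J hr
  rw [inv_inv] at hv
  have hv1 : ν⁻¹ * (c : GL chevF4.Idx K) * ν ≠ 1 := by
    intro e
    refine hc1 (Subtype.ext ?_)
    calc (c : GL chevF4.Idx K) = ν * (ν⁻¹ * (c : GL chevF4.Idx K) * ν) * ν⁻¹ := by group
      _ = 1 := by rw [e]; group
  obtain ⟨a, ha, b, hb, n', hn', hc', hT', e⟩ := (grpF4 hK).neg_decomp (rulesF4 K) hR J hv hv1
  have hH : ν⁻¹ * n' ∈ (SF K).Hbar := by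
    refine TwGroup.mem_Hbar_of_conjP (rulesF4 K) hR (mul_mem (inv_mem hnN) hn') ((hnc.inv hR).mul hR hc')
      fun r hr => ?_
    rw [act_append]
    exact hR.act_reverse_act _ hr
  have hC : ν⁻¹ * n' ∈ centG J := by
    have e' : n' = a⁻¹ * (ν⁻¹ * (c : GL chevF4.Idx K) * ν) * b⁻¹ := by rw [e]; group
    refine mul_mem (inv_mem hncen) ?_
    rw [e']
    refine mul_mem (mul_mem (inv_mem ?_) ?_) (inv_mem ?_) <;> apply orb_sub_centG hK J
    exacts [Subgroup.mem_sup_left ha.1, Subgroup.mem_sup_right hv.1, Subgroup.mem_sup_left hb.1]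
  refine ⟨⟨a, (grpF4 hK).fixPos_mem J ha⟩, ha.1, ⟨b, (grpF4 hK).fixPos_mem J hb⟩, hb.1,
    ⟨ν⁻¹ * n', mul_mem (inv_mem hnT) hT'⟩, (mem_DT hK).2 ⟨hH, hC⟩, Subtype.ext ?_⟩
  simp only [Subgroup.coe_mul, Subgroup.coe_inv, hn, e]
  group

/-- The representative as an element of the twisted group. -/
noncomputable def nT (J : Fin twF4.nOrb) : GT hK := ⟨nC hK J, (nC_spec hK J).2.2.1⟩

include hK in
theorem conj_out {len : ℕ → ℕ} (hR : RootTable chevF4 len) (J A B : Fin twF4.nOrb)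
    (htab : ∀ r ∈ twF4.posList A, chevF4.IsPosRoot (act chevF4 (twF4.wJ chevF4 B).reverse r) ∧
      act chevF4 (twF4.wJ chevF4 B).reverse r ∉ twF4.posList J)
    {c : GT hK} (hc : c ∈ inT hK ((SF K).US ((orbF4 hK).posJ A))) :
    (nT hK B)⁻¹ * c * nT hK B ∈ inT hK ((SF K).UJ ((orbF4 hK).nodes J)) := by
  have eA := twF4_ok.enum_posJ (T := twistF4 hK) (fun _ => rfl) rfl A
  have eJ := twF4_ok.enum_posJ (T := twistF4 hK) (fun _ => rfl) rfl J
  have h := conjP_mem_US ((nC_spec hK B).2.1.inv hR) (orbF4 hK).posJ_lt ((mem_inT hK).1 hc)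
  rw [inv_inv] at h
  rw [mem_inT]
  refine (SF K).US_mono ?_ h
  rintro _ ⟨r, hr, rfl⟩
  obtain ⟨h1, h2⟩ := htab r ((eA.2 r).2 hr)
  exact ⟨h1, fun h => h2 ((eJ.2 _).2 ⟨h1, h⟩)⟩

/-- The rank one data of ²F₄(q). -/
noncomputable def cellData : CellData (GT hK) where
  U := inT hK (SF K).Ubar
  V := inT hK (SF K).Vbar
  H := inT hK (SF K).Hbar
  UJ J := inT hK ((SF K).US ((orbF4 hK).posJ J))
  VJ J := inT hK ((SF K).US ((orbF4 hK).negJ J))
  PJ J := inT hK ((SF K).UJ ((orbF4 hK).nodes J))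
  MJ J := inT hK ((SF K).US (negOut hK J (rulesF4 K).root.choose))
  DJ J := DT hK J
  n J := nT hK J
  other := oth
  UJ_le _ := Subgroup.comap_mono ((SF K).US_mono fun _ h => h.1)
  PJ_le _ := Subgroup.comap_mono ((SF K).US_mono fun _ h => h.1)
  VJ_le _ := Subgroup.comap_mono ((SF K).US_mono fun _ h => h.1)
  MJ_le J := Subgroup.comap_mono ((SF K).US_mono fun _ h => negOut_sub hK (rulesF4 K).root.choose_spec J h)
  U_split J _ hu := U_split hK J hu
  normU J h hh := normalizer_inT hK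
    ((SF K).Hbar_le_normalizer_US (rulesF4 K) (rulesF4 K).root.choose_spec (orbF4 hK).posJ_lt hh)
  normP J :=
    have hL := (SF K).LJ_le_normalizer (rulesF4 K) (rulesF4 K).root.choose_spec ((orbF4 hK).nodes J)
    ⟨fun _ hc => normalizer_inT hK (hL (posJ_le_LJ _ J hc)),
      fun _ hc => normalizer_inT hK (hL (Subgroup.mem_sup_left hc)),
      normalizer_inT hK (hL (nC_spec hK J).2.2.2.2)⟩
  normM J :=
    have hL := LJ_le_normalizer_negOut hK (rulesF4 K).root.choose_spec J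
    ⟨fun _ hc => normalizer_inT hK (hL (posJ_le_LJ _ J hc)),
      fun _ hc => normalizer_inT hK (hL (Subgroup.mem_sup_left hc)),
      normalizer_inT hK (hL (nC_spec hK J).2.2.2.2)⟩
  normH J := normalizer_inT hK
    ((SF K).Nbar_le_normalizer (rulesF4 K) (rulesF4 K).root.choose_spec (nC_spec hK J).1)
  normV J h hh := normalizer_inT hK
    ((SF K).Hbar_le_normalizer_US (rulesF4 K) (rulesF4 K).root.choose_spec (orbF4 hK).negJ_lt hh)
  comm a ha b hb := Subtype.ext ((SF K).Hbar_comm (rulesF4 K) (rulesF4 K).root.choose_spec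
    (glSys_HMul (rulesF4 K) (rulesF4 K).root.choose_spec) _ ha _ hb)
  DJ_le _ := Subgroup.comap_mono inf_le_left
  H_split J h hh := H_split hK (rulesF4 K).root.choose_spec J hh
  UJ_inf J c hc hh := by
    have h : (c : GL chevF4.Idx K) ∈ (SF K).Ubar ⊓ (SF K).Hbar :=
      Subgroup.mem_inf.2 ⟨(SF K).US_mono (fun _ h => h.1) hc, hh⟩
    rw [(SF K).Ubar_inf_Hbar (rulesF4 K) (rulesF4 K).root.choose_spec, Subgroup.mem_bot] at h
    exact Subtype.ext h
  swap J c hc := by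
    have hR := (rulesF4 K).root.choose_spec
    exact ((grpF4 hK).conj_neg_fix (nC_spec hK J).2.2.1 (nC_spec hK J).2.1 (orbF4 hK).posJ_lt
      (fun r hr => (orbF4 hK).act_wJ_mem hR J hr) (mem_posFix hK hR hc)).1
  inv J d hd := Subtype.ext (inv_torus hK (rulesF4 K).root.choose_spec J
    (Subgroup.mem_inf.2 ⟨((mem_DT hK).1 hd).1, d.2⟩) ((mem_DT hK).1 hd).2)
  half J _ hd := DT_half hK J hd
  sq J := by
    have hR := (rulesF4 K).root.choose_spec
    obtain ⟨hnN, hnc, -, hcen, -⟩ := nC_spec hK J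
    exact (mem_DT hK).2 ⟨TwGroup.mem_Hbar_of_conjP (rulesF4 K) hR (mul_mem hnN hnN) (hnc.mul hR hnc)
      fun r hr => by rw [act_append]; exact (orbF4 hK).winv J r hr, mul_mem hcen hcen⟩
  exists_ne J := by
    obtain ⟨u, hu, hu1⟩ := (grpF4 hK).exPos (rulesF4 K).root.choose_spec J
    exact ⟨⟨u, (grpF4 hK).fixPos_mem J hu⟩, hu.1, fun e => hu1 (congrArg Subtype.val e)⟩
  decomp J c hc hc1 := decomp hK J hc hc1 rfl
  UJ_other J := Subgroup.comap_mono ((SF K).US_mono fun r hr => ⟨hr.1, fun h =>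
    (orbit_tbl J).2.2 r (((twF4_ok.enum_posJ (T := twistF4 hK) (fun _ => rfl) rfl (oth J)).2 r).2 hr)
      (((twF4_ok.enum_posJ (T := twistF4 hK) (fun _ => rfl) rfl J).2 r).2 ⟨hr.1, h⟩)⟩)
  VJ_other J := by
    refine Subgroup.comap_mono ((SF K).US_mono fun r hr => ?_)
    have hR := (rulesF4 K).root.choose_spec
    have hlt : r < chevF4.nroots := hr.1.1
    refine ⟨hlt, ?_⟩
    set J' := (orbF4 hK).nodes J
    have hp := (hR.pos_neg_iff hlt).2 hr.1
    have h0 := hR.outJ_nonneg J' hp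
    have hne : outJ chevF4 J' (vec chevF4 (rulesF4 K).root.choose (chevF4.neg r)) ≠ 0 := by
      intro h
      refine (orbit_tbl J).2.2 (chevF4.neg r)
        (((twF4_ok.enum_posJ (T := twistF4 hK) (fun _ => rfl) rfl (oth J)).2 _).2 ⟨hp, ?_⟩)
        (((twF4_ok.enum_posJ (T := twistF4 hK) (fun _ => rfl) rfl J).2 _).2
          ⟨hp, (hR.inRootSub_iff J' hp.1).2 h⟩)
      rw [hR.inRootSub_iff _ hp.1, hR.deg_neg _ hlt, (hR.inRootSub_iff _ hlt).1 hr.2, neg_zero]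
    rw [hR.deg_neg _ hlt] at h0 hne
    rw [AddMonoidHom.neg_apply]
    omega
  move J _ hc := conj_out hK (rulesF4 K).root.choose_spec J J (oth J) (orbit_tbl J).1 hc
  move' J _ hc := conj_out hK (rulesF4 K).root.choose_spec J (oth J) J (orbit_tbl J).2.1 hc

end Cfsg.Agent.TwoFourCC
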