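import Cfsg.Agent.TwoFourCC.Hecke
import Cfsg.Agent.TwoFourCC.Twist

/-!
# Every nontrivial element of ²F₄(q) has a conjugate in a short cell
-/

set_option autoImplicit false
set_option linter.unusedSectionVars false

namespace Cfsg.Agent.TwoFourCC

open Cfsg.Lie Cfsg.Agent.ChevGrp Cfsg.Agent.ChevTw Cfsg.Agent.BNPair Cfsg.Agent.FeitHigman
  Cfsg.Agent.TriCC

/-- The word of the product of the two reflections, repeated. -/
def stWord8 : ℕ → List (Fin chevF4.rank)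
  | 0 => []
  | k + 1 => stWord8 k ++ (twF4.wJ chevF4 ⟨1, by decide⟩ ++ twF4.wJ chevF4 ⟨0, by decide⟩)

theorem order_tbl8 : (∀ r < chevF4.nroots, act chevF4 (stWord8 8) r = r) ∧
    ∀ k < 8, 0 < k → ∃ r < chevF4.nroots, act chevF4 (stWord8 k) r ≠ r := by
  refine ⟨by decide +kernel, ?_⟩
  decide +kernel

variable {K : Type*} [Field K] [Fintype K] {m : ℕ} (hK : Fintype.card K = 2 ^ (2 * m + 1))

include hK in
theorem card_Ubar : Nat.card ↥((SF K).Ubar ⊓ (grpF4 hK).Tw) = (2 ^ (2 * m + 1)) ^ 12 := by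
  have h := thm_S1090 hK
  rwa [posUnipotent_eq (rulesF4 K)] at h

/-- A conjugation invariant property of the short cells holds for every nontrivial element. -/
theorem exists_short_cell {Q : GT hK → Prop} (hQ : ∀ a g, Q (a * g * a⁻¹) → Q g)
    (h0 : ∀ h ∈ inT hK (SF K).Hbar, ∀ u ∈ inT hK (SF K).Ubar, Q (nT hK ⟨0, by decide⟩ * h * u))
    (h1 : ∀ h ∈ inT hK (SF K).Hbar, ∀ u ∈ inT hK (SF K).Ubar, Q (nT hK ⟨1, by decide⟩ * h * u))
    (h10 : ∀ h ∈ inT hK (SF K).Hbar, ∀ u ∈ inT hK (SF K).Ubar,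
      Q (nT hK ⟨1, by decide⟩ * nT hK ⟨0, by decide⟩ * h * u))
    {g : GT hK} (hg1 : g ≠ 1) : Q g := by
  classical
  obtain ⟨len, hR⟩ := (rulesF4 K).root
  have hl := twF4_ok.isLongest (T := twistF4 hK) (fun _ => rfl) rfl
  set Wt := grpF4 hK
  obtain ⟨P, hPB, hPN, hPS⟩ := Wt.exists_BNPair_gens (rulesF4 K) hR hl
  have memB : ∀ b : ↥Wt.Tw, b ∈ P.B ↔ (b : GL chevF4.Idx K) ∈ (SF K).Bbar := fun b => by
    rw [hPB]; simp [Subgroup.mem_subgroupOf]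
  have memN : ∀ b : ↥Wt.Tw, b ∈ P.N ↔ (b : GL chevF4.Idx K) ∈ (SF K).Nbar := fun b => by
    rw [hPN]; simp [Subgroup.mem_subgroupOf]
  obtain ⟨s0N, s0c, s0T⟩ := Wt.nJ_spec (rulesF4 K) hR ⟨0, by decide⟩
  obtain ⟨s1N, s1c, s1T⟩ := Wt.nJ_spec (rulesF4 K) hR ⟨1, by decide⟩
  set m0 := Wt.nJ (rulesF4 K) hR ⟨0, by decide⟩ with hm0
  set m1 := Wt.nJ (rulesF4 K) hR ⟨1, by decide⟩ with hm1
  let s : P.S := ⟨⟨m1, s1T⟩, by rw [hPS]; exact ⟨⟨1, by decide⟩, rfl⟩⟩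
  let t : P.S := ⟨⟨m0, s0T⟩, by rw [hPS]; exact ⟨⟨0, by decide⟩, rfl⟩⟩
  have hpair : IsPairGen P s t := by
    refine ⟨fun e => ?_, fun x => ?_⟩
    · have e1 : m1 = m0 := congrArg (fun y : P.S => ((y : ↥Wt.Tw) : GL chevF4.Idx K)) e
      have := Wt.inj_nJ (rulesF4 K) hR (J := ⟨0, by decide⟩) (K := ⟨1, by decide⟩)
        (by rw [← hm0, ← hm1, e1, inv_mul_cancel]; exact one_mem _)
      simp at this
    · obtain ⟨⟨J, hJ⟩, e⟩ := (Set.ext_iff.1 hPS (x : ↥Wt.Tw)).1 x.2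
      have hJ2 : J < 2 := hJ
      rcases (by omega : J = 0 ∨ J = 1) with rfl | rfl
      · exact Or.inr (Subtype.ext (Subtype.ext e))
      · exact Or.inl (Subtype.ext (Subtype.ext e))
  set n : P.N := ⟨(s : ↥Wt.Tw), P.subset s.2⟩ * ⟨(t : ↥Wt.Tw), P.subset t.2⟩ with hn
  have hnk : ∀ k : ℕ, (((n ^ k : P.N) : ↥Wt.Tw) : GL chevF4.Idx K) ∈ (SF K).Nbar ∧
      (SF K).ConjP (((n ^ k : P.N) : ↥Wt.Tw) : GL chevF4.Idx K) (stWord8 k) := by
    intro k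
    refine ⟨(memN _).1 (n ^ k).2, ?_⟩
    induction k with
    | zero => simpa [stWord8] using (SF K).conjP_one
    | succ k ih =>
      rw [pow_succ]
      simp only [stWord8]
      exact ih.mul hR (s1c.mul hR s0c)
  have hpow : ∀ k : ℕ, (σ P s * σ P t) ^ k = 1 ↔ ∀ r < chevF4.nroots, act chevF4 (stWord8 k) r = r := by
    intro k
    have e : (σ P s * σ P t) ^ k = π P (n ^ k) := by
      rw [map_pow, hn, map_mul]
      rfl
    rw [e, π_eq_one, memB]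
    obtain ⟨h1, h2⟩ := hnk k
    constructor
    · intro hB r hr
      have hH : (((n ^ k : P.N) : ↥Wt.Tw) : GL chevF4.Idx K) ∈ (SF K).Hbar := by
        rw [← (SF K).Bbar_inf_Nbar (rulesF4 K) hR]
        exact Subgroup.mem_inf.2 ⟨hB, h1⟩
      have := Sys.ConjP.act_unique (SF K) hR h2 ((SF K).conjP_Hbar (rulesF4 K) hR hH) r hr
      rwa [act_nil] at this
    · intro h
      exact (SF K).Hbar_le_Bbar (TwGroup.mem_Hbar_of_conjP (rulesF4 K) hR h1 h2 h)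
  have h8 : orderOf (σ P s * σ P t) = 8 := by
    rw [orderOf_eq_iff (by norm_num)]
    refine ⟨(hpow 8).2 order_tbl8.1, fun k hk hk0 e => ?_⟩
    obtain ⟨r, hr, hne⟩ := order_tbl8.2 k hk hk0
    exact hne ((hpow k).1 e r hr)
  -- the parameters are even
  have hFin : Fintype (↥Wt.Tw ⧸ P.B) := Fintype.ofFinite _
  have hdvd : PDvd P 2 := by
    intro u
    set U' : Subgroup ↥Wt.Tw := ((SF K).Ubar ⊓ Wt.Tw).subgroupOf Wt.Tw with hU'
    set x0 : ↥Wt.Tw ⧸ P.B := (((u : ↥Wt.Tw)) : ↥Wt.Tw ⧸ P.B) with hx0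
    have hUB : U' ≤ P.B := fun a ha => (memB a).2
      ((SF K).Ubar_le_Bbar (Subgroup.mem_inf.1 (Subgroup.mem_subgroupOf.1 ha)).1)
    have hset : (Finset.univ.filter fun y : ↥Wt.Tw ⧸ P.B =>
        rel P ((1 : ↥Wt.Tw) : ↥Wt.Tw ⧸ P.B) y = σ P u) =
        (MulAction.orbit U' x0).toFinset := by
      ext y
      simp only [Finset.mem_filter, Finset.mem_univ, true_and, Set.mem_toFinset]
      induction y using QuotientGroup.induction_on with
      | H a =>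
        rw [rel_mk, inv_one, one_mul]
        constructor
        · intro ha
          obtain ⟨b, hb, b', hb', e⟩ :=
            exists_eq_mul_mul' P (g := a) (n := ⟨(u : ↥Wt.Tw), P.subset u.2⟩) ha
          obtain ⟨c, hc, h, hh, eb⟩ := Wt.B_decomp (rulesF4 K) hR
            ((orbF4 hK).comm_word hR twF4.longSeq) (hl.invSet_eq hR) ((memB b).1 hb) b.2
          obtain ⟨hh1, hh2⟩ := Subgroup.mem_inf.1 hh
          refine ⟨⟨⟨c, (Subgroup.mem_inf.1 hc).2⟩, Subgroup.mem_subgroupOf.2 hc⟩, ?_⟩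
          show ((⟨c, (Subgroup.mem_inf.1 hc).2⟩ * (u : ↥Wt.Tw) : ↥Wt.Tw) : ↥Wt.Tw ⧸ P.B) = _
          rw [QuotientGroup.eq, e]
          set cc : ↥Wt.Tw := ⟨c, (Subgroup.mem_inf.1 hc).2⟩
          set hh' : ↥Wt.Tw := ⟨h, hh2⟩
          have eb' : b = cc * hh' := Subtype.ext eb
          rw [eb', show (cc * (u : ↥Wt.Tw))⁻¹ * (cc * hh' * (u : ↥Wt.Tw) * b') =
            (u : ↥Wt.Tw)⁻¹ * hh' * (u : ↥Wt.Tw) * b' by group]
          refine P.B.mul_mem ((memB _).2 ?_) hb'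
          push_cast
          have := Sys.conj_mem_Hbar (rulesF4 K) hR (inv_mem ((memN _).1 (P.subset u.2))) hh1
          rw [inv_inv] at this
          exact (SF K).Hbar_le_Bbar this
        · rintro ⟨⟨c, hc⟩, e⟩
          change ((c * (u : ↥Wt.Tw) : ↥Wt.Tw) : ↥Wt.Tw ⧸ P.B) = _ at e
          rw [QuotientGroup.eq] at e
          rw [show a = c * (u : ↥Wt.Tw) * ((c * (u : ↥Wt.Tw))⁻¹ * a) by group,
            bw_mul_B P e, bw_B_mul P (hUB hc), bw_coe_σ]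
    have h2 := two_le_cnt P u
    rw [cnt] at h2
    rw [hset] at h2 ⊢
    rw [Set.toFinset_card, ← Nat.card_eq_fintype_card] at h2 ⊢
    have hd : Nat.card (MulAction.orbit U' x0) ∣ Nat.card U' := by
      rw [Nat.card_congr (MulAction.orbitEquivQuotientStabilizer U' x0)]
      exact Subgroup.card_quotient_dvd_card _
    rw [Nat.card_congr (Subgroup.subgroupOfEquivOfLe inf_le_right).toEquiv, card_Ubar hK,
      ← pow_mul] at hd
    obtain ⟨i, -, hi⟩ := (Nat.dvd_prime_pow Nat.prime_two).1 hd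
    rw [hi] at h2 ⊢
    refine dvd_pow_self 2 fun h0 => ?_
    rw [h0, pow_zero, Nat.cast_one] at h2
    norm_num at h2
  have hcore : P.B.normalCore = ⊥ := by
    rw [hPB]
    exact Wt.core_eq_bot (rulesF4 K) hR hl (fun a b h => h)
  obtain ⟨a, ha⟩ := exists_cell8 hdvd hpair h8 hcore g hg1
  refine hQ a g ?_
  -- reduce to a single representative times a Borel element
  have key : ∀ (ν : P.N) (μ : GT hK),
      (μ : GL chevF4.Idx K)⁻¹ * ((ν : ↥Wt.Tw) : GL chevF4.Idx K) ∈ (SF K).Hbar →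
      bw P (a * g * a⁻¹) = π P ν →
      (∀ h ∈ inT hK (SF K).Hbar, ∀ u ∈ inT hK (SF K).Ubar, Q (μ * h * u)) →
      Q (a * g * a⁻¹) := by
    intro ν μ hH hν hcell
    obtain ⟨b, hb, b', hb', e⟩ := exists_eq_mul_mul' P (g := a * g * a⁻¹) hν
    refine hQ b⁻¹ _ ?_
    have e' : b⁻¹ * (a * g * a⁻¹) * b⁻¹⁻¹ = μ * (μ⁻¹ * (ν : ↥Wt.Tw) * (b' * b)) := by
      rw [e]; group
    rw [e']
    set β : GT hK := μ⁻¹ * (ν : ↥Wt.Tw) * (b' * b) with hβ
    have hβB : (β : GL chevF4.Idx K) ∈ (SF K).Bbar := by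
      rw [hβ]
      push_cast
      exact mul_mem ((SF K).Hbar_le_Bbar hH) (mul_mem ((memB _).1 hb') ((memB _).1 hb))
    obtain ⟨c, hc, h, hh, eb⟩ := Wt.B_decomp (rulesF4 K) hR
      ((orbF4 hK).comm_word hR twF4.longSeq) (hl.invSet_eq hR) hβB β.2
    obtain ⟨hh1, hh2⟩ := Subgroup.mem_inf.1 hh
    obtain ⟨hc1, hc2⟩ := Subgroup.mem_inf.1 hc
    have e2 : μ * β = μ * ⟨h, hh2⟩ * (⟨h, hh2⟩⁻¹ * ⟨c, hc2⟩ * ⟨h, hh2⟩) := by
      rw [show β = ⟨c, hc2⟩ * ⟨h, hh2⟩ from Subtype.ext eb]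
      group
    rw [e2]
    refine hcell _ ((mem_inT hK).2 hh1) _ ((mem_inT hK).2 ?_)
    push_cast
    exact (Subgroup.mem_normalizer_iff''.1
      ((SF K).Hbar_le_normalizer_Ubar (rulesF4 K) hR hh1) c).1 hc1
  have rep : ∀ (x : GL chevF4.Idx K) (J : Fin twF4.nOrb), x ∈ (SF K).Nbar →
      (SF K).ConjP x (twF4.wJ chevF4 J) →
      (nT hK J : GL chevF4.Idx K)⁻¹ * x ∈ (SF K).Hbar := by
    intro x J hx hc
    refine TwGroup.mem_Hbar_of_conjP (rulesF4 K) hR (mul_mem (inv_mem (nC_spec hK J).1) hx)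
      (((nC_spec hK J).2.1.inv hR).mul hR hc) fun r hr => ?_
    rw [act_append]
    exact hR.act_reverse_act _ hr
  rcases ha with e | e | e
  · exact key ⟨(s : ↥Wt.Tw), P.subset s.2⟩ (nT hK ⟨1, by decide⟩) (rep m1 _ s1N s1c) e h1
  · exact key ⟨(t : ↥Wt.Tw), P.subset t.2⟩ (nT hK ⟨0, by decide⟩) (rep m0 _ s0N s0c) e h0
  · refine key (⟨(s : ↥Wt.Tw), P.subset s.2⟩ * ⟨(t : ↥Wt.Tw), P.subset t.2⟩)
      (nT hK ⟨1, by decide⟩ * nT hK ⟨0, by decide⟩) ?_ (by rw [e, map_mul]; rfl) h10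
    obtain ⟨nN, -, -, -, -⟩ := nC_spec hK ⟨0, by decide⟩
    have r0 := rep m0 _ s0N s0c
    have r1 := rep m1 _ s1N s1c
    push_cast
    have r2 := Sys.conj_mem_Hbar (rulesF4 K) hR (inv_mem nN) r1
    rw [inv_inv] at r2
    have r3 := mul_mem r2 r0
    show ((nC hK ⟨1, by decide⟩ : GL chevF4.Idx K) * nC hK ⟨0, by decide⟩)⁻¹ * (m1 * m0) ∈ _
    convert r3 using 1
    simp only [nT]
    group

end Cfsg.Agent.TwoFourCC
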