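import Mathlib.Algebra.Group.Subgroup.Finite
import Mathlib.Tactic.Group

/-!
# Rank one relations in a group of rank two

The subgroups and relations of the two orbits of a group of rank two, and their consequences.
-/

set_option autoImplicit false

namespace Cfsg.Agent.TwoFourCC

variable {G : Type*} [Group G]

/-- Rank one data in a group of rank two, indexed by the two orbits of simple roots. -/
structure CellData (G : Type*) [Group G] where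
  U : Subgroup G
  V : Subgroup G
  H : Subgroup G
  UJ : Fin 2 → Subgroup G
  VJ : Fin 2 → Subgroup G
  PJ : Fin 2 → Subgroup G
  MJ : Fin 2 → Subgroup G
  DJ : Fin 2 → Subgroup G
  n : Fin 2 → G
  other : Fin 2 → Fin 2
  UJ_le : ∀ J, UJ J ≤ U
  PJ_le : ∀ J, PJ J ≤ U
  VJ_le : ∀ J, VJ J ≤ V
  MJ_le : ∀ J, MJ J ≤ V
  U_split : ∀ J, ∀ u ∈ U, ∃ c ∈ UJ J, ∃ p ∈ PJ J, u = c * p
  normU : ∀ J, H ≤ Subgroup.normalizer (UJ J : Set G)
  normP : ∀ J, UJ J ≤ Subgroup.normalizer (PJ J : Set G) ∧ H ≤ Subgroup.normalizer (PJ J : Set G) ∧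
    n J ∈ Subgroup.normalizer (PJ J : Set G)
  normM : ∀ J, UJ J ≤ Subgroup.normalizer (MJ J : Set G) ∧ H ≤ Subgroup.normalizer (MJ J : Set G) ∧
    n J ∈ Subgroup.normalizer (MJ J : Set G)
  normH : ∀ J, n J ∈ Subgroup.normalizer (H : Set G)
  normV : ∀ J, H ≤ Subgroup.normalizer (VJ J : Set G)
  comm : ∀ a ∈ H, ∀ b ∈ H, a * b = b * a
  DJ_le : ∀ J, DJ J ≤ H
  H_split : ∀ J, ∀ h ∈ H, ∃ a ∈ DJ J, ∃ b ∈ DJ (other J), h = a * b
  UJ_inf : ∀ J, ∀ c ∈ UJ J, c ∈ H → c = 1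
  swap : ∀ J, ∀ c ∈ UJ J, n J * c * (n J)⁻¹ ∈ VJ J
  inv : ∀ J, ∀ d ∈ DJ J, n J * d * (n J)⁻¹ = d⁻¹
  half : ∀ J, ∀ d ∈ DJ J, ∃ s ∈ DJ J, s * s = d
  sq : ∀ J, n J * n J ∈ DJ J
  exists_ne : ∀ J, ∃ c ∈ UJ J, c ≠ 1
  decomp : ∀ J, ∀ c ∈ UJ J, c ≠ 1 → ∃ a ∈ UJ J, ∃ b ∈ UJ J, ∃ d ∈ DJ J,
    (n J)⁻¹ * c * n J = a * n J * d * b
  UJ_other : ∀ J, UJ (other J) ≤ PJ J
  VJ_other : ∀ J, VJ (other J) ≤ MJ J
  move : ∀ J, ∀ c ∈ UJ J, (n (other J))⁻¹ * c * n (other J) ∈ PJ J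
  move' : ∀ J, ∀ c ∈ UJ (other J), (n J)⁻¹ * c * n J ∈ PJ J

namespace CellData

variable (C : CellData G)

variable {C}

theorem conj_PJ {J : Fin 2} {x p : G} (hx : x ∈ Subgroup.normalizer (C.PJ J : Set G))
    (hp : p ∈ C.PJ J) : x * p * x⁻¹ ∈ C.PJ J := (Subgroup.mem_normalizer_iff.1 hx p).1 hp

theorem conj_MJ {J : Fin 2} {x p : G} (hx : x ∈ Subgroup.normalizer (C.MJ J : Set G))
    (hp : p ∈ C.MJ J) : x * p * x⁻¹ ∈ C.MJ J := (Subgroup.mem_normalizer_iff.1 hx p).1 hp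

theorem conj_UJ {J : Fin 2} {x p : G} (hx : x ∈ C.H) (hp : p ∈ C.UJ J) : x * p * x⁻¹ ∈ C.UJ J :=
  (Subgroup.mem_normalizer_iff.1 (C.normU J hx) p).1 hp

/-- Every torus element inverted by the representative occurs in the rank one relation. -/
theorem scale {J : Fin 2} {d : G} (hd : d ∈ C.DJ J) :
    ∃ k ∈ C.UJ J, ∃ v ∈ C.VJ J, ∃ u ∈ C.UJ J, k * C.n J = v * d * u := by
  obtain ⟨k, hk, hk1⟩ := C.exists_ne J
  obtain ⟨a, ha, b, hb, t, ht, e⟩ := C.decomp J k hk hk1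
  set n := C.n J with hn
  set d0 := n * n * t with hd0
  have hd0m : d0 ∈ C.DJ J := mul_mem (C.sq J) ht
  have e0 : k * n = n * a * n⁻¹ * d0 * b := by
    calc k * n = n * (n⁻¹ * k * n) := by group
      _ = n * (a * n * t * b) := by rw [e]
      _ = n * a * n⁻¹ * (n * n * t) * b := by group
  obtain ⟨s, hs, es⟩ := C.half J (d * d0⁻¹) (mul_mem hd (inv_mem hd0m))
  have hsH := C.DJ_le J hs
  have hsn : n⁻¹ * s⁻¹ * n = s := by
    calc n⁻¹ * s⁻¹ * n = n⁻¹ * (n * s * n⁻¹) * n := by rw [C.inv J s hs]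
      _ = s := by group
  have hsd : s * d0 * s = d := by
    rw [mul_assoc, C.comm d0 (C.DJ_le J hd0m) s hsH, ← mul_assoc, es, inv_mul_cancel_right]
  refine ⟨s * k * s⁻¹, conj_UJ hsH hk, s * (n * a * n⁻¹) * s⁻¹,
    (Subgroup.mem_normalizer_iff.1 (C.normV J hsH) _).1 (C.swap J a ha), s⁻¹ * b * s,
    by simpa using conj_UJ (inv_mem hsH) hb, ?_⟩
  calc s * k * s⁻¹ * n = s * (k * n) * (n⁻¹ * s⁻¹ * n) := by group
    _ = s * (n * a * n⁻¹ * d0 * b) * s := by rw [hsn, e0]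
    _ = s * (n * a * n⁻¹) * s⁻¹ * (s * d0 * s) * (s⁻¹ * b * s) := by group
    _ = _ := by rw [hsd]

/-- A fixed point free conjugation is onto. -/
theorem exists_twist [Finite G] {A : Subgroup G} {x : G} (hN : ∀ v ∈ A, x * v * x⁻¹ ∈ A)
    (hfp : ∀ v ∈ A, v * x = x * v → v = 1) {a : G} (ha : a ∈ A) :
    ∃ v ∈ A, a * x = v * x * v⁻¹ := by
  let f : A → A := fun v => ⟨(v : G) * (x * (v : G)⁻¹ * x⁻¹), mul_mem v.2 (hN _ (inv_mem v.2))⟩
  have hf : Function.Injective f := by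
    intro v w e
    have e0 : (v : G) * (x * (v : G)⁻¹ * x⁻¹) = (w : G) * (x * (w : G)⁻¹ * x⁻¹) :=
      congrArg (fun y : A => (y : G)) e
    have e' : (v : G) * x * (v : G)⁻¹ = (w : G) * x * (w : G)⁻¹ := by
      have := congrArg (· * x) e0
      simpa [mul_assoc] using this
    have : (w : G)⁻¹ * (v : G) * x = x * ((w : G)⁻¹ * (v : G)) := by
      calc (w : G)⁻¹ * (v : G) * x = (w : G)⁻¹ * ((v : G) * x * (v : G)⁻¹) * (v : G) := by group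
        _ = _ := by rw [e']; group
    exact Subtype.ext (inv_mul_eq_one.1 (hfp _ (mul_mem (inv_mem w.2) v.2) this)).symm
  obtain ⟨v, hv⟩ := Finite.surjective_of_injective hf ⟨a, ha⟩
  refine ⟨v, v.2, ?_⟩
  rw [← show (v : G) * (x * (v : G)⁻¹ * x⁻¹) = a from congrArg Subtype.val hv]
  group

end CellData

end Cfsg.Agent.TwoFourCC
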