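import Cfsg.Agent.TriCC.Hecke

/-!
# Every class of a group with a BN-pair with dihedral Weyl group of order sixteen meets a short cell
-/

set_option autoImplicit false
set_option maxHeartbeats 1000000

namespace Cfsg.Agent.TwoFourCC

open Cfsg.Agent.BNPair Cfsg.Agent.FeitHigman Cfsg.Agent.TriCC Matrix

variable {G : Type*} [Group G] {P : Cfsg.BNPair G} [Fintype (G ⧸ P.B)] {p : ℕ} [Fact p.Prime]
variable [DecidableEq (G ⧸ P.B)] [DecidableEq (W P)]

section pair

variable [Finite G] {s t : P.S} (h : IsPairGen P s t) (h8 : orderOf (σ P s * σ P t) = 8)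
include h h8

theorem tz_alt8 {k : ℕ} (hk : k ≤ 8) :
    tz P p (aprod (σ P s) (σ P t) k) = aprod (tz P p (σ P s)) (tz P p (σ P t)) k ∧
    tz P p (aprod (σ P t) (σ P s) k) = aprod (tz P p (σ P t)) (tz P p (σ P s)) k := by
  induction k with
  | zero => exact ⟨tz_one P p, tz_one P p⟩
  | succ k ih =>
    obtain ⟨i1, i2⟩ := ih (by omega)
    have key : ∀ a b : P.S, IsPairGen P a b → orderOf (σ P a * σ P b) = 8 →
        tz P p (aprod (σ P b) (σ P a) k) = aprod (tz P p (σ P b)) (tz P p (σ P a)) k →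
        tz P p (aprod (σ P a) (σ P b) (k + 1)) =
          aprod (tz P p (σ P a)) (tz P p (σ P b)) (k + 1) := by
      intro a b hab hord hi
      show tz P p (σ P a * aprod (σ P b) (σ P a) k) = tz P p (σ P a) * aprod _ _ k
      rw [← hi]
      refine tz_mul_left P p a _ ?_
      rw [← wprod_altList, ← wprod_cons,
        hab.symm.len_alt (by rw [IsPairGen.order_comm, hord]; omega),
        show a :: altList b a k = altList a b (k + 1) from rfl, hab.len_alt (by omega)]
      omega
    exact ⟨key s t h h8 i2, key t s h.symm (by rw [IsPairGen.order_comm, h8]) i1⟩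

/-- The product of the idempotents is the all-ones matrix. -/
theorem quad_eq (hp : PDvd P p) :
    ((1 + tz P p (σ P s)) * (1 + tz P p (σ P t))) ^ 4 = Matrix.of fun _ _ => (1 : ZMod p) := by
  classical
  have : Finite (W P) := inferInstance
  have : Fintype (W P) := Fintype.ofFinite _
  have hJ : (Matrix.of fun _ _ => (1 : ZMod p)) = ∑ w : W P, tz P p w := by
    ext x y
    rw [Matrix.sum_apply]
    simp [tz_apply]
  rw [hJ, h.sum_W (fun w => tz P p w), h8]
  simp only [Finset.sum_range_succ, Finset.sum_range_zero, zero_add, pow_zero, one_mul, tz_one]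
  set a := σ P s
  set b := σ P t
  have haa : a * a = 1 := σ_mul_self P s
  have hbb : b * b = 1 := σ_mul_self P t
  have h8' : (a * b) ^ 8 = 1 := by rw [← h8]; exact pow_orderOf_eq_one _
  have hpw : ∀ i j, i + j = 8 → (a * b) ^ i = (b * a) ^ j := by
    intro i j hij
    rw [← IsPairGen.inv_pow_eq s t j]
    exact eq_inv_of_mul_eq_one_left (by rw [← pow_add, hij]; exact h8')
  have hodd : ∀ i j, i + j = 7 → (a * b) ^ i * a = (b * a) ^ j * b := by
    intro i j hij
    rw [hpw i (j + 1) (by omega), pow_succ, mul_assoc, mul_assoc, haa, mul_one]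
  have T := fun (k : ℕ) (hk : k ≤ 8) => tz_alt8 (p := p) h h8 hk
  have f2 : tz P p ((a * b) ^ 1) = aprod (tz P p a) (tz P p b) 2 := by
    rw [← (T 2 (by omega)).1, ← aprod_two_mul]
  have f3 : tz P p ((a * b) ^ 1 * a) = aprod (tz P p a) (tz P p b) 3 := by
    rw [← (T 3 (by omega)).1, ← aprod_two_mul_add_one]
  have f4 : tz P p ((a * b) ^ 2) = aprod (tz P p a) (tz P p b) 4 := by
    rw [← (T 4 (by omega)).1, ← aprod_two_mul]
  have f5 : tz P p ((a * b) ^ 2 * a) = aprod (tz P p a) (tz P p b) 5 := by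
    rw [← (T 5 (by omega)).1, ← aprod_two_mul_add_one]
  have f6 : tz P p ((a * b) ^ 3) = aprod (tz P p a) (tz P p b) 6 := by
    rw [← (T 6 (by omega)).1, ← aprod_two_mul]
  have f7 : tz P p ((a * b) ^ 3 * a) = aprod (tz P p a) (tz P p b) 7 := by
    rw [← (T 7 (by omega)).1, ← aprod_two_mul_add_one]
  have f8 : tz P p ((a * b) ^ 4) = aprod (tz P p a) (tz P p b) 8 := by
    rw [← (T 8 (by omega)).1, ← aprod_two_mul]
  have g7 : tz P p ((a * b) ^ 4 * a) = aprod (tz P p b) (tz P p a) 7 := by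
    rw [← (T 7 (by omega)).2, hodd 4 3 rfl, ← aprod_two_mul_add_one]
  have g6 : tz P p ((a * b) ^ 5) = aprod (tz P p b) (tz P p a) 6 := by
    rw [← (T 6 (by omega)).2, hpw 5 3 rfl, ← aprod_two_mul]
  have g5 : tz P p ((a * b) ^ 5 * a) = aprod (tz P p b) (tz P p a) 5 := by
    rw [← (T 5 (by omega)).2, hodd 5 2 rfl, ← aprod_two_mul_add_one]
  have g4 : tz P p ((a * b) ^ 6) = aprod (tz P p b) (tz P p a) 4 := by
    rw [← (T 4 (by omega)).2, hpw 6 2 rfl, ← aprod_two_mul]
  have g3 : tz P p ((a * b) ^ 6 * a) = aprod (tz P p b) (tz P p a) 3 := by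
    rw [← (T 3 (by omega)).2, hodd 6 1 rfl, ← aprod_two_mul_add_one]
  have g2 : tz P p ((a * b) ^ 7) = aprod (tz P p b) (tz P p a) 2 := by
    rw [← (T 2 (by omega)).2, hpw 7 1 rfl, ← aprod_two_mul]
  have g1 : tz P p ((a * b) ^ 7 * a) = aprod (tz P p b) (tz P p a) 1 := by
    rw [← (T 1 (by omega)).2, hodd 7 0 rfl, ← aprod_two_mul_add_one]
  rw [f2, f3, f4, f5, f6, f7, f8, g7, g6, g5, g4, g3, g2, g1]
  clear f2 f3 f4 f5 f6 f7 f8 g7 g6 g5 g4 g3 g2 g1
  have hA := tz_quad hp s
  have hB := tz_quad hp t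
  set A := tz P p a with hAdef
  set B := tz P p b with hBdef
  have hA' : ∀ X, A * (A * X) = -(A * X) := fun X => by rw [← mul_assoc, hA, neg_mul]
  have hB' : ∀ X, B * (B * X) = -(B * X) := fun X => by rw [← mul_assoc, hB, neg_mul]
  simp only [aprod, pow_succ, pow_zero, one_mul, mul_one, mul_add, add_mul, mul_assoc, hA, hA',
    hB, hB', mul_neg, neg_mul, neg_neg]
  abel

end pair

section main

variable [Finite G] {s t : P.S}

/-- Every element has a conjugate in a short double coset. -/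
theorem exists_short8 (hp : PDvd P p) (h : IsPairGen P s t)
    (h8 : orderOf (σ P s * σ P t) = 8) (g : G) :
    ∃ a : G, bw P (a⁻¹ * g * a) = 1 ∨ bw P (a⁻¹ * g * a) = σ P s ∨ bw P (a⁻¹ * g * a) = σ P t ∨
      bw P (a⁻¹ * g * a) = σ P s * σ P t := by
  classical
  have hA1 := tz_mulVec_one hp s
  have hB1 := tz_mulVec_one hp t
  have h1A := tz_vecMul_one hp s
  have h1B := tz_vecMul_one hp t
  set A := tz P p (σ P s) with hA
  set B := tz P p (σ P t) with hB
  set X := (1 + A) * (1 + B) with hX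
  set J : Matrix (G ⧸ P.B) (G ⧸ P.B) (ZMod p) := Matrix.of fun _ _ => (1 : ZMod p) with hJ
  have hX4 : X ^ 4 = J := quad_eq h h8 hp
  have hX1 : X *ᵥ (fun _ => (1 : ZMod p)) = fun _ => (1 : ZMod p) := by
    rw [hX, ← Matrix.mulVec_mulVec, Matrix.add_mulVec 1 B, Matrix.one_mulVec, hB1, add_zero,
      Matrix.add_mulVec, Matrix.one_mulVec, hA1, add_zero]
  have h1X : (fun _ => (1 : ZMod p)) ᵥ* X = fun _ => (1 : ZMod p) := by
    rw [hX, ← Matrix.vecMul_vecMul, Matrix.vecMul_add 1 A, Matrix.vecMul_one, h1A, add_zero,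
      Matrix.vecMul_add, Matrix.vecMul_one, h1B, add_zero]
  have hJX : J * X = J := by
    ext x y
    exact congrFun h1X y
  have hPJ : permZ P p g⁻¹ * J = J := by
    ext x y
    rw [permZ_mul_apply]
    rfl
  -- the number of cosets is one modulo `p`
  have hn : (Fintype.card (G ⧸ P.B) : ZMod p) = 1 := by
    have e : (X ^ 4) *ᵥ (fun _ => (1 : ZMod p)) = fun _ => (1 : ZMod p) := by
      generalize X = Z at hX1 ⊢
      rw [show Z ^ 4 = Z * (Z * (Z * Z)) by simp [pow_succ, mul_assoc], ← Matrix.mulVec_mulVec,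
        ← Matrix.mulVec_mulVec, ← Matrix.mulVec_mulVec, hX1, hX1, hX1, hX1]
    rw [hX4] at e
    have := congrFun e ((1 : G) : G ⧸ P.B)
    simpa [J, Matrix.mulVec, dotProduct] using this
  have hXge : ∀ k, 4 ≤ k → X ^ k = J := by
    intro k hk
    induction k, hk using Nat.le_induction with
    | base => exact hX4
    | succ k _ ih => rw [pow_succ, ih, hJX]
  have hPpow : ∀ k, permZ P p g⁻¹ ^ k * J = J := by
    intro k
    induction k with
    | zero => rw [pow_zero, one_mul]
    | succ k ih => rw [pow_succ, mul_assoc, hPJ, ih]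
  have hc : Commute (permZ P p g⁻¹) X :=
    ((Commute.one_right _).add_right (permZ_commute g⁻¹ (σ P s))).mul_right
      ((Commute.one_right _).add_right (permZ_commute g⁻¹ (σ P t)))
  set Y := permZ P p g⁻¹ * X with hY
  have hp4 : 4 ≤ p * p := le_trans (by norm_num) (Nat.mul_le_mul (Fact.out : p.Prime).two_le (Fact.out : p.Prime).two_le)
  have hYp : Y ^ (p * p) = J := by rw [hY, hc.mul_pow, hXge _ hp4, hPpow]
  have htr : Y.trace ≠ 0 := by
    intro h0
    have e : (Y ^ (p * p)).trace = 0 := by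
      rw [pow_mul, ZMod.trace_pow_card, ZMod.trace_pow_card, h0, zero_pow (Fact.out : p.Prime).ne_zero,
        zero_pow (Fact.out : p.Prime).ne_zero]
    rw [hYp] at e
    simp [J, Matrix.trace, hn] at e
  obtain ⟨x, hx⟩ : ∃ x, Y x x ≠ 0 := by
    by_contra hne
    push Not at hne
    exact htr (Finset.sum_eq_zero fun x _ => hne x)
  obtain ⟨a, rfl⟩ := QuotientGroup.mk_surjective x
  refine ⟨a, ?_⟩
  by_contra hne
  push Not at hne
  refine hx ?_
  rw [hY, permZ_mul_apply, hX, show (1 + A) * (1 + B) = 1 + A + B + A * B by noncomm_ring]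
  have eAB : A * B = tz P p (σ P s * σ P t) := by
    refine (tz_mul_left P p s (σ P t) ?_).symm
    rw [len_σ]
    have := h.len_alt (k := 2) (by omega)
    rw [wprod_altList] at this
    simp only [aprod, mul_one] at this
    omega
  have hrel : rel P (g⁻¹ • (a : G ⧸ P.B)) (a : G ⧸ P.B) = bw P (a⁻¹ * g * a) := by
    show rel P ((g⁻¹ * a : G) : G ⧸ P.B) (a : G ⧸ P.B) = _
    rw [rel_mk]
    congr 1
    group
  rw [eAB, Matrix.add_apply, Matrix.add_apply, Matrix.add_apply, ← tz_one P p, hA, hB, tz_apply,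
    tz_apply, tz_apply, tz_apply, hrel, if_neg hne.1, if_neg hne.2.1, if_neg hne.2.2.1, if_neg hne.2.2.2]
  simp

/-- Every nontrivial element has a conjugate in `BsB`, `BtB` or `BstB`. -/
theorem exists_cell8 (hp : PDvd P p) (h : IsPairGen P s t) (h8 : orderOf (σ P s * σ P t) = 8)
    (hcore : P.B.normalCore = ⊥) (g : G) (hg : g ≠ 1) :
    ∃ a : G, bw P (a * g * a⁻¹) = σ P s ∨ bw P (a * g * a⁻¹) = σ P t ∨
      bw P (a * g * a⁻¹) = σ P s * σ P t := by
  classical
  obtain ⟨a, ha⟩ := exists_short8 hp h h8 g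
  rcases ha with ha | ha
  swap
  · exact ⟨a⁻¹, by simpa using ha⟩
  by_contra hne
  push Not at hne
  set Y : Set G := {y | y * g * y⁻¹ ∈ P.B} with hY
  have haY : a⁻¹ ∈ Y := by
    show a⁻¹ * g * a⁻¹⁻¹ ∈ P.B
    rw [inv_inv, ← bw_eq_one_iff P]
    exact ha
  let M : Submonoid G :=
    { carrier := {b | ∀ y ∈ Y, b * y ∈ Y}
      one_mem' := fun y hy => by rwa [one_mul]
      mul_mem' := fun {b c} hb hc y hy => by rw [mul_assoc]; exact hb _ (hc y hy) }
  have hB : ∀ b ∈ P.B, b ∈ M := by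
    intro b hb y hy
    show b * y * g * (b * y)⁻¹ ∈ P.B
    rw [show b * y * g * (b * y)⁻¹ = b * (y * g * y⁻¹) * b⁻¹ by group]
    exact P.B.mul_mem (P.B.mul_mem hb hy) (P.B.inv_mem hb)
  have hS : ∀ u : P.S, (u : G) ∈ M := by
    intro u y hy
    show (u : G) * y * g * ((u : G) * y)⁻¹ ∈ P.B
    have hu2 : (u : G) * (u : G) ∈ P.B := P.sq_mem u u.2
    have e : (u : G) * y * g * ((u : G) * y)⁻¹ =
        (u : G) * (y * g * y⁻¹) * (u : G) * ((u : G) * (u : G))⁻¹ := by group
    rw [e]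
    refine P.B.mul_mem ?_ (P.B.inv_mem hu2)
    have hcase : bw P ((u : G) * (y * g * y⁻¹) * (u : G)) = 1 ∨
        bw P ((u : G) * (y * g * y⁻¹) * (u : G)) = σ P u := by
      have h1 : bw P ((u : G) * (y * g * y⁻¹)) = σ P u := by
        rw [bw_mul_B P hy, bw_coe_σ]
      rcases bw_mul_σ_cases P u (c := (u : G)) h1 with e | e <;> rw [bw_coe_σ] at e
      · exact Or.inl (by rw [e, σ_mul_self])
      · exact Or.inr e
    rcases hcase with e1 | e1
    · exact (bw_eq_one_iff P).1 e1
    · exfalso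
      have e2 : bw P (((u : G) * y) * g * ((u : G) * y)⁻¹) = σ P u := by
        rw [e, bw_mul_B P (P.B.inv_mem hu2), e1]
      rcases h.cover u with rfl | rfl
      · exact (hne _).1 e2
      · exact (hne _).2.1 e2
  let M' : Subgroup G :=
    { toSubmonoid := M
      inv_mem' := fun {b} hb => by
        have hb' : b ^ (orderOf b - 1) ∈ M := pow_mem (show b ∈ M from hb) _
        have e : b ^ (orderOf b - 1) = b⁻¹ := by
          refine eq_inv_of_mul_eq_one_left ?_
          rw [← pow_succ, Nat.sub_add_cancel (orderOf_pos b), pow_orderOf_eq_one]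
        rwa [e] at hb' }
  have hBM : P.B ≤ M' := fun b hb => hB b hb
  have hSM : Subgroup.closure P.S ≤ M' := (Subgroup.closure_le _).2 fun u hu => hS ⟨u, hu⟩
  have htop : ∀ b : G, b ∈ M' := by
    intro b
    have hle : P.B ⊔ P.N ≤ M' := by
      rw [← P.closure_sup]
      exact sup_le hBM (sup_le hSM (inf_le_left.trans hBM))
    exact hle (P.sup_eq_top ▸ Subgroup.mem_top b)
  refine hg ?_
  rw [← Subgroup.mem_bot, ← hcore]
  intro b
  have := htop (b * a) a⁻¹ haY
  rwa [mul_inv_cancel_right] at this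

end main

end Cfsg.Agent.TwoFourCC
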