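import Cfsg.Agent.TwoFourCC.Gauss

/-!
# Short cells meet `M · (allowed) · P` up to conjugation: the abstract Levi argument

The cells of a group of rank two are moved into `M_J μ P_J` with `μ` a commutator of the chosen
element with the Levi subgroup of the first orbit.
-/

set_option autoImplicit false

namespace Cfsg.Agent.TwoFourCC

variable {G : Type*} [Group G]

namespace CellData

variable (C : CellData G)

/-- The common normaliser of the two radicals. -/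
def Nrm (J : Fin 2) : Subgroup G :=
  Subgroup.normalizer (C.PJ J : Set G) ⊓ Subgroup.normalizer (C.MJ J : Set G)

end CellData

/-- The data around the Levi subgroup of one orbit and an element `x` acting on it as `n * c1`. -/
structure LeviData (C : CellData G) where
  j0 : Fin 2
  j1 : Fin 2
  oth0 : C.other j0 = j1
  oth1 : C.other j1 = j0
  V_split : ∀ A ∈ C.V, ∃ m ∈ C.MJ j0, ∃ v ∈ C.VJ j0, A = m * v
  abel : ∀ a ∈ C.UJ j0, ∀ b ∈ C.UJ j0, a * b = b * a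
  two : ∀ a ∈ C.UJ j0, a * a = 1
  free : ∀ d ∈ C.DJ j0, d ≠ 1 → ∀ c ∈ C.UJ j0, c * d = d * c → c = 1
  nY : G
  nY_mem : nY ∈ C.Nrm j0
  invY : ∀ d ∈ C.DJ j0, nY * d * nY⁻¹ = d⁻¹
  swapY : ∀ c ∈ C.UJ j0, nY * c * nY⁻¹ ∈ C.VJ j0
  back : ∀ v ∈ C.VJ j0, nY⁻¹ * v * nY ∈ C.UJ j0
  trans : ∀ c ∈ C.UJ j0, ∀ c' ∈ C.UJ j0, c ≠ 1 → c' ≠ 1 → ∃ s ∈ C.DJ j0, s * c * s⁻¹ = c'
  R : Subgroup G
  R_conj : ∀ c ∈ C.UJ j1, ∀ r ∈ R, c * r * c⁻¹ ∈ R
  R_le : R ≤ C.PJ j1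
  R_move : ∀ r ∈ R, (C.n j1)⁻¹ * r * C.n j1 ∈ C.PJ j0
  top_le : ∀ c ∈ C.UJ j0, C.n j1 * c * (C.n j1)⁻¹ ∈ C.PJ j1
  top_move : ∀ c ∈ C.UJ j0, ∀ h ∈ C.H,
    h⁻¹ * ((C.n j0)⁻¹ * (C.n j1 * c * (C.n j1)⁻¹) * C.n j0) * h ∈ R
  x : G
  c1 : G
  c1_mem : c1 ∈ C.UJ j0
  x_act : ∀ σ ∈ C.UJ j0 ⊔ C.DJ j0, x * σ * x⁻¹ = nY * c1 * σ * (nY * c1)⁻¹

namespace LeviData

open CellData (conj_UJ conj_PJ conj_MJ)

variable {C : CellData G} (L : LeviData C)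

/-- The middle parts which are commutators with `x` up to conjugation. -/
def Allowed (μ : G) : Prop :=
  ∃ ν ∈ C.Nrm L.j0, ∃ σ ∈ C.Nrm L.j0, ν * μ * ν⁻¹ = L.x * σ * L.x⁻¹ * σ⁻¹

/-- A conjugate lies in `M μ P` with an allowed middle part. -/
def Good0 (g : G) : Prop :=
  ∃ y : G, ∃ A ∈ C.MJ L.j0, ∃ μ, L.Allowed μ ∧ ∃ B ∈ C.PJ L.j0, y * g * y⁻¹ = A * μ * B

variable {L}

theorem Good0.of_conj {g : G} (y : G) (h : L.Good0 (y * g * y⁻¹)) : L.Good0 g := by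
  obtain ⟨z, A, hA, μ, hμ, B, hB, e⟩ := h
  exact ⟨z * y, A, hA, μ, hμ, B, hB, by rw [← e]; group⟩

theorem UJ_Nrm (J : Fin 2) {c : G} (hc : c ∈ C.UJ J) : c ∈ C.Nrm J :=
  Subgroup.mem_inf.2 ⟨(C.normP J).1 hc, (C.normM J).1 hc⟩

theorem H_Nrm (J : Fin 2) {c : G} (hc : c ∈ C.H) : c ∈ C.Nrm J :=
  Subgroup.mem_inf.2 ⟨(C.normP J).2.1 hc, (C.normM J).2.1 hc⟩

theorem n_Nrm (J : Fin 2) : C.n J ∈ C.Nrm J :=
  Subgroup.mem_inf.2 ⟨(C.normP J).2.2, (C.normM J).2.2⟩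

theorem VJ_Nrm {v : G} (hb : L.nY⁻¹ * v * L.nY ∈ C.UJ L.j0) : v ∈ C.Nrm L.j0 := by
  have := mul_mem (mul_mem L.nY_mem (UJ_Nrm L.j0 hb)) (inv_mem L.nY_mem)
  simpa [mul_assoc] using this

variable (L)

/-- Torus elements inverted by the representative are allowed. -/
theorem allowed_torus [Finite G] {d : G} (hd : d ∈ C.DJ L.j0) : L.Allowed d := by
  by_cases hd1 : d = 1
  · exact ⟨1, one_mem _, 1, one_mem _, by simp [hd1]⟩
  obtain ⟨s, hs, es⟩ := C.half L.j0 d⁻¹ (inv_mem hd)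
  have hsH := C.DJ_le _ hs
  set n := L.nY with hn
  set w := n * (s⁻¹ * L.c1 * s * L.c1⁻¹) * n⁻¹ with hw
  have hwV : w ∈ C.VJ L.j0 := L.swapY _
    (mul_mem (by simpa using conj_UJ (inv_mem hsH) L.c1_mem) (inv_mem L.c1_mem))
  have e1 : L.x * s * L.x⁻¹ * s⁻¹ = d * (s * w * s⁻¹) := by
    have hd' : d = s⁻¹ * s⁻¹ := by rw [← mul_inv_rev, es, inv_inv]
    rw [L.x_act s (Subgroup.mem_sup_right hs), hd', ← hn]
    calc n * L.c1 * s * (n * L.c1)⁻¹ * s⁻¹ = (n * s * n⁻¹) * w * s⁻¹ := by rw [hw]; group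
      _ = s⁻¹ * w * s⁻¹ := by rw [L.invY s hs]
      _ = _ := by group
  have hw' : s * w * s⁻¹ ∈ C.VJ L.j0 := (Subgroup.mem_normalizer_iff.1 (C.normV _ hsH) w).1 hwV
  have hnd : n⁻¹ * d * n = d⁻¹ := by
    calc n⁻¹ * d * n = n⁻¹ * (n * d⁻¹ * n⁻¹) * n := by rw [L.invY _ (inv_mem hd), inv_inv]
      _ = d⁻¹ := by group
  -- conjugate away the unipotent part
  have hfp : ∀ v ∈ C.VJ L.j0, v * d = d * v → v = 1 := by
    intro v hv hcm
    have hu := L.back v hv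
    have e : (n⁻¹ * v * n) * d⁻¹ = d⁻¹ * (n⁻¹ * v * n) := by
      calc (n⁻¹ * v * n) * d⁻¹ = (n⁻¹ * v * n) * (n⁻¹ * d * n) := by rw [hnd]
        _ = n⁻¹ * (v * d) * n := by group
        _ = n⁻¹ * (d * v) * n := by rw [hcm]
        _ = (n⁻¹ * d * n) * (n⁻¹ * v * n) := by group
        _ = _ := by rw [hnd]
    have h1 := L.free d⁻¹ (inv_mem hd) (inv_ne_one.2 hd1) _ hu e
    calc v = n * (n⁻¹ * v * n) * n⁻¹ := by group
      _ = 1 := by rw [h1]; group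
  obtain ⟨r, hr, er⟩ := CellData.exists_twist (A := C.VJ L.j0) (x := d)
    (fun v hv => (Subgroup.mem_normalizer_iff.1 (C.normV _ (C.DJ_le _ hd)) v).1 hv)
    hfp (a := d * (s * w * s⁻¹) * d⁻¹)
    ((Subgroup.mem_normalizer_iff.1 (C.normV _ (C.DJ_le _ hd)) _).1 hw')
  refine ⟨r, VJ_Nrm (L.back r hr), s, H_Nrm _ hsH, ?_⟩
  rw [← er, e1]
  group

/-- A product of two nontrivial opposite unipotent elements is allowed. -/
theorem allowed_pair {v c : G} (hv : v ∈ C.VJ L.j0) (hv1 : v ≠ 1) (hc : c ∈ C.UJ L.j0)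
    (hc1 : c ≠ 1) : L.Allowed (v * c) := by
  set n := L.nY with hn
  have hq : n⁻¹ * v * n ∈ C.UJ L.j0 := L.back v hv
  have hq1 : n⁻¹ * v * n ≠ 1 := fun e => hv1 (by
    calc v = n * (n⁻¹ * v * n) * n⁻¹ := by group
      _ = 1 := by rw [e]; group)
  obtain ⟨r, hr, er⟩ := L.trans c hc _ hq hc1 hq1
  obtain ⟨s, hs, es⟩ := C.half L.j0 r hr
  have hsH := C.DJ_le _ hs
  set u := s * c * s⁻¹ with hu
  have huU : u ∈ C.UJ L.j0 := conj_UJ hsH hc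
  refine ⟨s, H_Nrm _ hsH, u, UJ_Nrm _ huU, ?_⟩
  rw [L.x_act u (Subgroup.mem_sup_left huU), ← hn,
    show u⁻¹ = u from inv_eq_of_mul_eq_one_left (L.two u huU)]
  have ev : s * v * s⁻¹ = n * u * n⁻¹ := by
    have e1 : n⁻¹ * (s * v * s⁻¹) * n = u := by
      calc n⁻¹ * (s * v * s⁻¹) * n = (n⁻¹ * s * n) * (n⁻¹ * v * n) * (n⁻¹ * s * n)⁻¹ := by group
        _ = s⁻¹ * (n⁻¹ * v * n) * s := by
          rw [show n⁻¹ * s * n = s⁻¹ by
            calc n⁻¹ * s * n = n⁻¹ * (n * s⁻¹ * n⁻¹) * n := by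
                  rw [L.invY _ (inv_mem hs), inv_inv]
              _ = s⁻¹ := by group, inv_inv]
        _ = s⁻¹ * ((s * s) * c * (s * s)⁻¹) * s := by rw [es, er]
        _ = u := by rw [hu]; group
    rw [← e1]
    group
  calc s * (v * c) * s⁻¹ = (s * v * s⁻¹) * (s * c * s⁻¹) := by group
    _ = n * u * n⁻¹ * u := by rw [ev]
    _ = n * (L.c1 * u * L.c1⁻¹) * n⁻¹ * u := by
      rw [L.abel _ L.c1_mem _ huU, mul_inv_cancel_right]
    _ = _ := by group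

/-- An element `M · V_J U_J · P` which is good. -/
theorem good_of_pair [Finite G] {m v c p : G} (hm : m ∈ C.MJ L.j0) (hv : v ∈ C.VJ L.j0)
    (hc : c ∈ C.UJ L.j0) (hp : p ∈ C.PJ L.j0) (hvc : v = 1 ∧ c = 1 ∨ v ≠ 1 ∧ c ≠ 1) :
    L.Good0 (m * (v * c) * p) := by
  refine ⟨1, m, hm, v * c, ?_, p, hp, by group⟩
  rcases hvc with ⟨rfl, rfl⟩ | ⟨h1, h2⟩
  · rw [one_mul]
    exact L.allowed_torus (one_mem _)
  · exact L.allowed_pair hv h1 hc h2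

/-- A target for the unipotent part. -/
theorem exists_target (v : G) :
    ∃ c ∈ C.UJ L.j0, v = 1 ∧ c = 1 ∨ v ≠ 1 ∧ c ≠ 1 := by
  by_cases hv : v = 1
  · exact ⟨1, one_mem _, Or.inl ⟨hv, rfl⟩⟩
  · obtain ⟨c, hc, hc1⟩ := C.exists_ne L.j0
    exact ⟨c, hc, Or.inr ⟨hv, hc1⟩⟩

theorem UJ1_le : C.UJ L.j1 ≤ C.PJ L.j0 := by
  have := C.UJ_other L.j0
  rwa [L.oth0] at this

theorem UJ0_le : C.UJ L.j0 ≤ C.PJ L.j1 := by
  have := C.UJ_other L.j1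
  rwa [L.oth1] at this

theorem VJ1_le : C.VJ L.j1 ≤ C.MJ L.j0 := by
  have := C.VJ_other L.j0
  rwa [L.oth0] at this

/-- The cell of the other reflection: the middle part is a torus element. -/
theorem cell_far [Finite G] {h u : G} (hh : h ∈ C.H) (hu : u ∈ C.U) :
    L.Good0 (C.n L.j1 * h * u) := by
  obtain ⟨c, hc, p, hp, rfl⟩ := C.U_split L.j0 u hu
  refine Good0.of_conj c ?_
  set K := L.j1 with hK
  set p' := h⁻¹ * ((C.n K)⁻¹ * c * C.n K) * h * (c * p * c⁻¹) with hp'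
  have hp'm : p' ∈ C.PJ L.j0 := by
    refine mul_mem ?_ (conj_PJ ((C.normP L.j0).1 hc) hp)
    have hm := C.move L.j0 c hc
    rw [L.oth0] at hm
    have := conj_PJ ((C.normP L.j0).2.1 (inv_mem hh)) hm
    simpa using this
  rw [show c * (C.n K * h * (c * p)) * c⁻¹ = C.n K * h * p' by rw [hp']; group]
  obtain ⟨a, ha, b, hb, e⟩ := C.H_split L.j0 h hh
  rw [L.oth0] at hb
  obtain ⟨k, hk, w, hw, u', hu', ek⟩ := CellData.scale (C := C) (inv_mem hb)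
  refine Good0.of_conj k ?_
  have hab : b⁻¹ * h = a := by
    rw [e, C.comm a (C.DJ_le _ ha) b (C.DJ_le K hb), inv_mul_cancel_left]
  have e1 : k * (C.n K * h * p') * k⁻¹ = w * a * (h⁻¹ * u' * h * p' * k⁻¹) := by
    calc k * (C.n K * h * p') * k⁻¹ = k * C.n K * h * p' * k⁻¹ := by group
      _ = w * b⁻¹ * u' * h * p' * k⁻¹ := by rw [ek]
      _ = _ := by rw [← hab]; group
  rw [e1]
  refine ⟨1, w, L.VJ1_le hw, a, L.allowed_torus ha, h⁻¹ * u' * h * p' * k⁻¹,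
    mul_mem (mul_mem ?_ hp'm) (inv_mem (L.UJ1_le hk)), by group⟩
  exact L.UJ1_le (by simpa using conj_UJ (inv_mem hh) hu')

/-- The cell of two reflections. -/
theorem cell_pair [Finite G] {h u : G} (hh : h ∈ C.H) (hu : u ∈ C.U) :
    L.Good0 (C.n L.j1 * C.n L.j0 * h * u) := by
  set K := L.j1 with hK
  set J := L.j0 with hJ
  obtain ⟨c, hc, p, hp, rfl⟩ := C.U_split J u hu
  obtain ⟨a, ha, b, hb, e⟩ := C.H_split J h hh
  rw [hJ, L.oth0] at hb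
  set n := C.n J with hn
  have hbH : b ∈ C.H := C.DJ_le K hb
  obtain ⟨a2, ha2, b2, hb2, e2⟩ := C.H_split J (n * b⁻¹ * n⁻¹)
    ((Subgroup.mem_normalizer_iff.1 (C.normH J) _).1 (inv_mem hbH))
  rw [hJ, L.oth0] at hb2
  obtain ⟨k, hk, w, hw, u', hu', ek⟩ := CellData.scale (C := C) hb2
  have hd : a2 * a ∈ C.DJ J := mul_mem ha2 ha
  obtain ⟨k2, hk2, w2, hw2, u2, hu2, ek2⟩ := CellData.scale (C := C) (inv_mem hd)
  obtain ⟨γ, hγ, hγc⟩ := L.exists_target w2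
  -- adjust the component
  set d := a2 * a with hdd
  set X := γ⁻¹ * (d⁻¹ * u2 * d) * c * k2⁻¹ with hX
  have hud : d⁻¹ * u2 * d ∈ C.UJ J := by simpa using conj_UJ (inv_mem (C.DJ_le J hd)) hu2
  have hXm : X ∈ C.UJ J := mul_mem (mul_mem (mul_mem (inv_mem hγ) hud) hc) (inv_mem hk2)
  refine Good0.of_conj X ?_
  set e0 := n⁻¹ * ((C.n K)⁻¹ * X * C.n K) * n with he0
  have he0m : e0 ∈ C.PJ J := by
    have hm := C.move J X hXm
    rw [show C.other J = K from L.oth0] at hm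
    have := conj_PJ (inv_mem (C.normP J).2.2) hm
    simpa [he0, hn] using this
  set p1 := X * (c⁻¹ * (h⁻¹ * e0 * h) * c * p) * X⁻¹ with hp1
  have hp1m : p1 ∈ C.PJ J := by
    refine conj_PJ ((C.normP J).1 hXm) (mul_mem ?_ hp)
    have := conj_PJ ((C.normP J).1 (inv_mem hc)) (conj_PJ ((C.normP J).2.1 (inv_mem hh)) he0m)
    simpa using this
  rw [show X * (C.n K * n * h * (c * p)) * X⁻¹ = C.n K * n * h * ((c * X⁻¹) * p1) by
    rw [hp1, he0]; group]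
  set c' := c * X⁻¹ with hc'
  have hc'm : c' ∈ C.UJ J := mul_mem hc (inv_mem hXm)
  refine Good0.of_conj k ?_
  have hb2e : n⁻¹ * b2 * n * h = d := by
    have e3 : b2 = a2⁻¹ * (n * b⁻¹ * n⁻¹) := by rw [e2]; group
    have e4 : n⁻¹ * a2⁻¹ * n = a2 := by
      calc n⁻¹ * a2⁻¹ * n = n⁻¹ * (n * a2 * n⁻¹) * n := by rw [C.inv J a2 ha2]
        _ = a2 := by group
    calc n⁻¹ * b2 * n * h = (n⁻¹ * a2⁻¹ * n) * (b⁻¹ * h) := by rw [e3]; group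
      _ = d := by
        rw [e4, e, C.comm a (C.DJ_le J ha) b hbH, inv_mul_cancel_left]
  set q := c'⁻¹ * (h⁻¹ * (n⁻¹ * u' * n) * h) * c' * p1 * k⁻¹ with hq
  have hqm : q ∈ C.PJ J := by
    refine mul_mem (mul_mem ?_ hp1m) (inv_mem (L.UJ1_le hk))
    have hm := C.move' J u' (by rw [hJ, L.oth0]; exact hu')
    have h1 := conj_PJ ((C.normP J).2.1 (inv_mem hh)) hm
    have h2 := conj_PJ ((C.normP J).1 (inv_mem hc'm)) h1
    simpa [hn] using h2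
  have e1 : k * (C.n K * n * h * (c' * p1)) * k⁻¹ = w * (n * d * c') * q := by
    calc k * (C.n K * n * h * (c' * p1)) * k⁻¹ = (k * C.n K) * n * h * c' * p1 * k⁻¹ := by group
      _ = w * b2 * u' * n * h * c' * p1 * k⁻¹ := by rw [ek]
      _ = w * (n * (n⁻¹ * b2 * n * h) * c') * q := by rw [hq]; group
      _ = _ := by rw [hb2e]
  rw [e1]
  refine Good0.of_conj k2 ?_
  have e5 : k2 * (w * (n * d * c') * q) * k2⁻¹ = k2 * w * k2⁻¹ * (w2 * γ) * (k2 * q * k2⁻¹) := by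
    have hg : d⁻¹ * u2 * d * c' * k2⁻¹ = γ := by
      have hab := L.abel
      rw [hc', hX]
      calc d⁻¹ * u2 * d * (c * (γ⁻¹ * (d⁻¹ * u2 * d) * c * k2⁻¹)⁻¹) * k2⁻¹
          = d⁻¹ * u2 * d * (c * (k2 * c⁻¹)) * (d⁻¹ * u2 * d)⁻¹ * γ * k2⁻¹ := by group
        _ = d⁻¹ * u2 * d * (k2 * c⁻¹ * c) * (d⁻¹ * u2 * d)⁻¹ * γ * k2⁻¹ := by
            rw [hab c hc _ (mul_mem hk2 (inv_mem hc))]
        _ = k2 * (d⁻¹ * u2 * d) * (d⁻¹ * u2 * d)⁻¹ * γ * k2⁻¹ := by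
            rw [inv_mul_cancel_right, hab _ hud _ hk2]
        _ = k2 * γ * k2⁻¹ := by group
        _ = γ := by rw [hab _ hk2 _ hγ, mul_inv_cancel_right]
    calc k2 * (w * (n * d * c') * q) * k2⁻¹
        = k2 * w * k2⁻¹ * (k2 * n) * d * c' * q * k2⁻¹ := by group
      _ = k2 * w * k2⁻¹ * w2 * (d⁻¹ * u2 * d * c' * k2⁻¹) * (k2 * q * k2⁻¹) := by rw [ek2]; group
      _ = _ := by rw [hg]; group
  rw [e5]
  exact L.good_of_pair (conj_MJ ((C.normM J).1 hk2) (L.VJ1_le hw)) hw2 hγ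
    (conj_PJ ((C.normP J).1 hk2) hqm) hγc

theorem U_norm {u : G} (hu : u ∈ C.U) : u ∈ Subgroup.normalizer (C.PJ L.j0 : Set G) := by
  obtain ⟨c, hc, p, hp, rfl⟩ := C.U_split L.j0 u hu
  exact mul_mem ((C.normP L.j0).1 hc) (Subgroup.le_normalizer hp)

/-- The class of an element of `U` in `U_J`. -/
def InC (α b : G) : Prop := α ∈ C.UJ L.j0 ∧ ∃ p ∈ C.PJ L.j0, b = α * p

variable {L}

theorem InC.mul {α β a b : G} (ha : L.InC α a) (hb : L.InC β b) : L.InC (α * β) (a * b) := by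
  obtain ⟨hα, p, hp, rfl⟩ := ha
  obtain ⟨hβ, q, hq, rfl⟩ := hb
  refine ⟨mul_mem hα hβ, β⁻¹ * p * β * q, mul_mem ?_ hq, by group⟩
  simpa using conj_PJ ((C.normP L.j0).1 (inv_mem hβ)) hp

theorem InC.of_mem {p : G} (hp : p ∈ C.PJ L.j0) : L.InC 1 p := ⟨one_mem _, p, hp, by group⟩

theorem InC.self {c : G} (hc : c ∈ C.UJ L.j0) : L.InC c c := ⟨hc, 1, one_mem _, by group⟩

variable (L)

theorem exists_InC {b : G} (hb : b ∈ C.U) : ∃ α, L.InC α b := by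
  obtain ⟨c, hc, p, hp, rfl⟩ := C.U_split L.j0 b hb
  exact ⟨c, hc, p, hp, rfl⟩

/-- The cell of the reflection of the orbit. -/
theorem cell_near [Finite G] {h u : G} (hh : h ∈ C.H) (hu : u ∈ C.U) :
    L.Good0 (C.n L.j0 * h * u) := by
  set K := L.j0 with hK
  set J := L.j1 with hJ
  have hoJ : C.other J = K := L.oth1
  -- a nontrivial component
  suffices key : ∀ c p : G, c ∈ C.UJ J → c ≠ 1 → p ∈ C.PJ J →
      L.Good0 (C.n K * h * (c * p)) by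
    obtain ⟨c, hc, p, hp, rfl⟩ := C.U_split J u hu
    by_cases hc1 : c = 1
    · subst hc1
      obtain ⟨X, hX, hX1⟩ := C.exists_ne J
      refine Good0.of_conj X ?_
      set e := h⁻¹ * ((C.n K)⁻¹ * X * C.n K) * h with he
      have hem : e ∈ C.PJ J := by
        have hm := C.move J X hX
        rw [hoJ] at hm
        have := conj_PJ ((C.normP J).2.1 (inv_mem hh)) hm
        simpa [he] using this
      rw [show X * (C.n K * h * (1 * p)) * X⁻¹ = C.n K * h * (X⁻¹ * (X * (e * p) * X⁻¹)) by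
        rw [he]; group]
      exact key _ _ (inv_mem hX) (by simpa using hX1)
        (conj_PJ ((C.normP J).1 hX) (mul_mem hem hp))
    · exact key c p hc hc1 hp
  intro c p hc hc1 hp
  set n1 := C.n J with hn1
  obtain ⟨a, ha, b, hb, e⟩ := C.H_split J h hh
  rw [hoJ] at hb
  obtain ⟨k, hk, w, hw, u', hu', ek⟩ := CellData.scale (C := C) (inv_mem hb)
  have hab : b⁻¹ * h = a := by
    rw [e, C.comm a (C.DJ_le _ ha) b (C.DJ_le K hb), inv_mul_cancel_left]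
  have haH := C.DJ_le J ha
  obtain ⟨a1, ha1, b1, hb1, t, ht, e3⟩ := C.decomp J c hc hc1
  rw [← hn1] at e3
  set a' := a⁻¹ * a1 * a with ha'
  have ha'm : a' ∈ C.UJ J := by simpa using conj_UJ (inv_mem haH) ha1
  obtain ⟨k2, hk2, w2, hw2, u2, hu2, ek2⟩ := CellData.scale (C := C) (inv_mem (mul_mem ha ht))
  rw [← hn1] at ek2
  set y := a'⁻¹ * n1⁻¹ with hy
  have hyM : y ∈ Subgroup.normalizer (C.MJ J : Set G) :=
    mul_mem ((C.normM J).1 (inv_mem ha'm)) (inv_mem (C.normM J).2.2)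
  set A := k2 * (y * w * y⁻¹) * k2⁻¹ * w2 with hAdef
  have hwM : w ∈ C.MJ J := by
    have := C.VJ_other J
    rw [hoJ] at this
    exact this hw
  have hA : A ∈ C.V :=
    mul_mem (C.MJ_le J (conj_MJ ((C.normM J).1 hk2) (conj_MJ hyM hwM))) (C.VJ_le J hw2)
  -- the element after conjugating by the two rank one elements
  set z := k2 * a'⁻¹ with hz
  have hzm : z ∈ C.PJ K := L.UJ1_le (mul_mem hk2 (inv_mem ha'm))
  set r := (a * t)⁻¹ * u2 * (a * t) * (b1 * a') * k2⁻¹ with hr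
  have hrm : r ∈ C.PJ K := by
    refine L.UJ1_le (mul_mem (mul_mem ?_ (mul_mem hb1 ha'm)) (inv_mem hk2))
    have := conj_UJ (inv_mem (C.DJ_le J (mul_mem ha ht))) hu2
    simpa using this
  have main : ∀ q : G, (k2 * y) * (w * (a * c) * q) * (k2 * y)⁻¹ =
      A * (r * (z * (n1⁻¹ * q * n1) * z⁻¹)) := by
    intro q
    have hdn : n1⁻¹ * a * n1 = a⁻¹ := by
      calc n1⁻¹ * a * n1 = n1⁻¹ * (n1 * a⁻¹ * n1⁻¹) * n1 := by rw [C.inv J _ (inv_mem ha), inv_inv]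
        _ = a⁻¹ := by group
    have hdn' : a⁻¹ * n1 = n1 * a := by
      rw [← C.inv J a ha, ← hn1]
      group
    have e2 : y * (a * c) * y⁻¹ = n1 * (a * t) * (b1 * a') := by
      calc y * (a * c) * y⁻¹ = a'⁻¹ * ((n1⁻¹ * a * n1) * (n1⁻¹ * c * n1)) * a' := by
            rw [hy]; group
        _ = a'⁻¹ * (a⁻¹ * (a1 * n1 * t * b1)) * a' := by rw [hdn, e3]
        _ = a'⁻¹ * a' * (a⁻¹ * n1) * t * b1 * a' := by rw [ha']; group
        _ = _ := by rw [hdn']; group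
    calc (k2 * y) * (w * (a * c) * q) * (k2 * y)⁻¹
        = k2 * (y * w * y⁻¹) * k2⁻¹ * (k2 * (y * (a * c) * y⁻¹)) * (y * q * y⁻¹) * k2⁻¹ := by group
      _ = k2 * (y * w * y⁻¹) * k2⁻¹ * ((k2 * n1) * (a * t) * (b1 * a')) * (y * q * y⁻¹) * k2⁻¹ := by
          rw [e2]; group
      _ = _ := by rw [ek2, hAdef, hr, hz, hy]; group
  -- choose the component
  obtain ⟨m, hm, v, hv, eA⟩ := L.V_split A hA
  obtain ⟨γ, hγ, hγc⟩ := L.exists_target v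
  set e2' := c⁻¹ * (h⁻¹ * u' * h) * c with he2'
  have hnP : ∀ q ∈ C.PJ J, n1⁻¹ * q * n1 ∈ C.PJ J := fun q hq => by
    have := conj_PJ (inv_mem (C.normP J).2.2) hq
    simpa [hn1] using this
  have he2m : e2' ∈ C.PJ J := by
    have := conj_PJ ((C.normP J).1 (inv_mem hc))
      (L.UJ0_le (by simpa using conj_UJ (inv_mem hh) hu' : h⁻¹ * u' * h ∈ C.UJ K))
    simpa [he2'] using this
  obtain ⟨α, hα⟩ := L.exists_InC (C.PJ_le J (hnP _ he2m))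
  obtain ⟨β, hβ⟩ := L.exists_InC (C.PJ_le J (hnP _ hp))
  obtain ⟨κ, hκ⟩ := L.exists_InC (C.PJ_le J (hnP _ (inv_mem (L.UJ0_le hk))))
  set δ := γ⁻¹ * (α * β * κ) with hδ
  have hδm : δ ∈ C.UJ K := mul_mem (inv_mem hγ) (mul_mem (mul_mem hα.1 hβ.1) hκ.1)
  set z0 := n1 * δ * n1⁻¹ with hz0
  refine Good0.of_conj z0 ?_
  set e' := h⁻¹ * ((C.n K)⁻¹ * z0 * C.n K) * h with he'
  set e'' := c⁻¹ * e' * c with he''
  have he''m : e'' ∈ L.R := by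
    have := L.R_conj c⁻¹ (inv_mem hc) e' (L.top_move δ hδm h hh)
    simpa [he''] using this
  set q := e2' * e'' * p * z0⁻¹ * k⁻¹ with hq
  refine Good0.of_conj (k2 * y * k) ?_
  have e4 : (k2 * y * k) * (z0 * (C.n K * h * (c * p)) * z0⁻¹) * (k2 * y * k)⁻¹ =
      A * (r * (z * (n1⁻¹ * q * n1) * z⁻¹)) := by
    rw [← main q]
    have e1 : k * (z0 * (C.n K * h * (c * p)) * z0⁻¹) * k⁻¹ = w * (a * c) * q := by
      calc k * (z0 * (C.n K * h * (c * p)) * z0⁻¹) * k⁻¹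
          = (k * C.n K) * h * c * (e'' * p * z0⁻¹) * k⁻¹ := by rw [he'', he']; group
        _ = w * b⁻¹ * u' * h * c * (e'' * p * z0⁻¹) * k⁻¹ := by rw [ek]
        _ = _ := by rw [← hab, hq, he2']; group
    rw [← e1]
    group
  rw [e4]
  have hC : L.InC γ (r * (z * (n1⁻¹ * q * n1) * z⁻¹)) := by
    have h1 : n1⁻¹ * q * n1 = (n1⁻¹ * e2' * n1) * (n1⁻¹ * e'' * n1) * (n1⁻¹ * p * n1) * δ⁻¹ *
        (n1⁻¹ * k⁻¹ * n1) := by rw [hq, hz0]; group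
    have h2 := (((hα.mul (InC.of_mem (L := L) (L.R_move e'' he''m))).mul hβ).mul
      (InC.self (L := L) (inv_mem hδm))).mul hκ
    rw [← h1] at h2
    have h3 := (InC.of_mem (L := L) hrm).mul
      (((InC.of_mem (L := L) hzm).mul h2).mul (InC.of_mem (L := L) (inv_mem hzm)))
    have h4 : (1 : G) * (1 * (α * 1 * β * δ⁻¹ * κ) * 1) = γ := by
      rw [one_mul, one_mul, mul_one, mul_one]
      calc α * β * δ⁻¹ * κ = α * β * (δ⁻¹ * κ) := by group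
        _ = α * β * (κ * δ⁻¹) := by rw [L.abel δ⁻¹ (inv_mem hδm) κ hκ.1]
        _ = α * β * κ * ((α * β * κ)⁻¹ * γ) := by rw [hδ]; group
        _ = γ := by group
    rwa [h4] at h3
  obtain ⟨-, π, hπ, eB⟩ := hC
  rw [eB, eA, show m * v * (γ * π) = m * (v * γ) * π by group]
  exact L.good_of_pair hm hv hγ hπ hγc

variable {L}

/-- A good element is a product of two conjugates of `x`. -/
theorem Good0.two_conj [Finite G] {g n0 : G} (hg : L.Good0 g)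
    (hx : L.x ∈ C.Nrm L.j0) (hfP : ∀ v ∈ C.PJ L.j0, v * L.x = L.x * v → v = 1)
    (hfM : ∀ v ∈ C.MJ L.j0, v * L.x = L.x * v → v = 1)
    (hinv : n0 * L.x * n0⁻¹ = L.x⁻¹) :
    ∃ u v : G, g = (u * L.x * u⁻¹) * (v * L.x * v⁻¹) := by
  obtain ⟨y, A, hA, μ, ⟨ν, hν, σ, hσ, eμ⟩, B, hB, e⟩ := hg
  obtain ⟨hνP, hνM⟩ := Subgroup.mem_inf.1 hν
  obtain ⟨hxP, hxM⟩ := Subgroup.mem_inf.1 hx
  set x := L.x with hxdef
  obtain ⟨v1, -, e1⟩ := CellData.exists_twist (A := C.MJ L.j0) (x := x)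
    (fun v hv => conj_MJ hxM hv) hfM (conj_MJ hνM hA)
  have hB' : σ⁻¹ * (ν * B * ν⁻¹) * σ ∈ C.PJ L.j0 := by
    simpa using conj_PJ (inv_mem (Subgroup.mem_inf.1 hσ).1) (conj_PJ hνP hB)
  obtain ⟨v2, -, e2⟩ := CellData.exists_twist (A := C.PJ L.j0) (x := x)
    (fun v hv => conj_PJ hxP hv) hfP (inv_mem hB')
  have e2' : x⁻¹ * (σ⁻¹ * (ν * B * ν⁻¹) * σ) = v2 * x⁻¹ * v2⁻¹ := by
    calc x⁻¹ * (σ⁻¹ * (ν * B * ν⁻¹) * σ)
        = ((σ⁻¹ * (ν * B * ν⁻¹) * σ)⁻¹ * x)⁻¹ := by group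
      _ = (v2 * x * v2⁻¹)⁻¹ := by rw [e2]
      _ = _ := by group
  refine ⟨y⁻¹ * ν⁻¹ * v1, y⁻¹ * ν⁻¹ * (σ * v2 * n0), ?_⟩
  calc g = y⁻¹ * ν⁻¹ * (ν * (y * g * y⁻¹) * ν⁻¹) * ν * y := by group
    _ = y⁻¹ * ν⁻¹ * ((ν * A * ν⁻¹) * (ν * μ * ν⁻¹) * (ν * B * ν⁻¹)) * ν * y := by rw [e]; group
    _ = y⁻¹ * ν⁻¹ * ((ν * A * ν⁻¹ * x) * σ * (x⁻¹ * (σ⁻¹ * (ν * B * ν⁻¹) * σ)) * σ⁻¹) * ν * y := by
        rw [eμ]; group
    _ = _ := by rw [e1, e2', ← hinv]; group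

end LeviData

end Cfsg.Agent.TwoFourCC
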