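import Cfsg.Agent.TwoFourCC.Levi
import Cfsg.Agent.TwoFourCC.Classify

/-!
# The Levi data of ²F₄(q): explicit rank one elements and the tables
-/

set_option autoImplicit false
set_option linter.unusedSectionVars false

namespace Cfsg.Agent.TwoFourCC

open Cfsg.Lie Cfsg.Agent.ChevGrp Cfsg.Agent.ChevTw Cfsg.Agent.CentralExt.TwCells

/-- The orbit with two orthogonal roots. -/
abbrev o0 : Fin twF4.nOrb := ⟨0, by decide⟩

/-- The orbit of type B2. -/
abbrev o1 : Fin twF4.nOrb := ⟨1, by decide⟩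

/-- The roots used for shifting the component. -/
def listR : List ℕ := [38, 43, 44, 47, 39, 45, 40, 46]

theorem tbl0 : chevF4.simple 0 = 33 ∧ chevF4.simple 3 = 24 ∧ chevF4.neg 33 = 14 ∧ chevF4.neg 24 = 23 ∧
    twF4.wJ chevF4 o0 = [⟨0, by decide⟩] ++ [⟨3, by decide⟩] ∧
    twF4.posList o0 = [33, 24] ∧ act chevF4 (twF4.wJ chevF4 o0) 33 = 14 ∧
    act chevF4 (twF4.wJ chevF4 o0) 24 = 23 := by decide +kernel

theorem tblR :
    (∀ r ∈ twF4.posList o1, r < chevF4.nroots ∧ ∀ s ∈ listR, s ≠ r ∧ s ≠ chevF4.neg r ∧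
      ∀ c ∈ chevF4.commTerms r s, c.1 < chevF4.nroots ∧ (c.2.1 % 2 = 0 ∨ c.1 ∈ listR)) ∧
    (∀ s ∈ listR, s < chevF4.nroots ∧ chevF4.IsPosRoot s ∧ s ∉ twF4.posList o1 ∧
      chevF4.IsPosRoot (act chevF4 (twF4.wJ chevF4 o1).reverse s) ∧
      act chevF4 (twF4.wJ chevF4 o1).reverse s ∉ twF4.posList o0) ∧
    (∀ r ∈ twF4.posList o0, chevF4.IsPosRoot (act chevF4 (twF4.wJ chevF4 o1) r) ∧
      act chevF4 (twF4.wJ chevF4 o1) r ∉ twF4.posList o1 ∧
      act chevF4 (twF4.wJ chevF4 o0).reverse (act chevF4 (twF4.wJ chevF4 o1) r) ∈ listR) ∧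
    (∀ r < chevF4.nroots,
      act chevF4 (twF4.longSeq.flatMap (twF4.wJ chevF4)).reverse r = chevF4.neg r) := by
  decide +kernel

variable {K : Type*} [Field K] [Fintype K] {m : ℕ} (hK : Fintype.card K = 2 ^ (2 * m + 1))

/-- An element of the positive part of the first orbit. -/
noncomputable def P0 (m : ℕ) (t : K) : GL chevF4.Idx K :=
  (SF K).x 33 (t ^ 2 ^ m) * (SF K).x 24 t

/-- An element of the negative part of the first orbit. -/
noncomputable def N0 (m : ℕ) (t : K) : GL chevF4.Idx K :=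
  (SF K).x 14 (t ^ 2 ^ m) * (SF K).x 23 t

include hK in
theorem mem_P0 (g : GL chevF4.Idx K) :
    g ∈ fixUS (twistF4 hK) ((orbF4 hK).posJ o0) ↔ ∃ t, g = P0 m t := by
  have h := fixF4 hK o0 false g
  simp only [cond_false] at h
  rw [h]
  constructor
  · rintro ⟨t, u, rfl⟩
    exact ⟨t, by simp [wordsF4, f4PairWord, P0, f4p1, f4p4]; rfl⟩
  · rintro ⟨t, rfl⟩
    exact ⟨t, 0, by simp [wordsF4, f4PairWord, P0, f4p1, f4p4]; rfl⟩

include hK in
theorem mem_N0 (g : GL chevF4.Idx K) :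
    g ∈ fixUS (twistF4 hK) ((orbF4 hK).negJ o0) ↔ ∃ t, g = N0 m t := by
  have h := fixF4 hK o0 true g
  simp only [cond_true] at h
  rw [h]
  constructor
  · rintro ⟨t, u, rfl⟩
    exact ⟨t, by simp [wordsF4, f4PairWord, N0, f4m1, f4m4]; rfl⟩
  · rintro ⟨t, rfl⟩
    exact ⟨t, 0, by simp [wordsF4, f4PairWord, N0, f4m1, f4m4]; rfl⟩

include hK in
theorem P0_mul (t u : K) : P0 m t * P0 m u = P0 m (t + u) := by
  haveI := charTwo_of_card hK
  obtain ⟨-, h2, -⟩ := tbl0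
  have l33 : 33 < chevF4.nroots := by decide +kernel
  have l24 : 24 < chevF4.nroots := by decide +kernel
  have e : Commute ((SF K).x 33 (u ^ 2 ^ m)) ((SF K).x 24 t) := x_commuteF4 (by simp) _ _
  rw [P0, P0, P0, add_pow_char_pow, ← (SF K).x_add 33 l33, ← (SF K).x_add 24 l24]
  rw [mul_assoc, mul_assoc, ← mul_assoc ((SF K).x 24 t), ← e.eq]
  simp only [mul_assoc]

include hK in
theorem P0_inj {t u : K} (h : P0 m t = P0 m u) : t = u := by
  obtain ⟨len, hR⟩ := (rulesF4 K).root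
  have hp := (orbF4 hK).posJ_closed hR o0
  have ep := twF4_ok.enum_posJ (T := twistF4 hK) (fun _ => rfl) rfl o0
  rw [tbl0.2.2.2.2.2.1] at ep
  have e := zip_unique (S := SF K) hR hp ep (v := [t ^ 2 ^ m, t]) (v' := [u ^ 2 ^ m, u]) rfl rfl
    (by simpa [P0] using h)
  simp at e
  exact e.2

/-- The representative built from the root elements with parameter one. -/
noncomputable def nY0 (K : Type*) [Field K] : GL chevF4.Idx K :=
  (SF K).nI (⟨0, by decide⟩ : Fin chevF4.rank) * (SF K).nI (⟨3, by decide⟩ : Fin chevF4.rank)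

include hK in
theorem nY0_eq : nY0 K = P0 m (1 : K) * N0 m 1 * P0 m 1 := by
  haveI := charTwo_of_card hK
  obtain ⟨h1, h2, h3, h4, -⟩ := tbl0
  have e : ∀ i : Fin chevF4.rank, (SF K).nI i =
      (SF K).x (chevF4.simple i) 1 * (SF K).x (chevF4.neg (chevF4.simple i)) 1 *
        (SF K).x (chevF4.simple i) 1 := fun i => by
    rw [Sys.nI, Sys.nEl, inv_one, CharTwo.neg_eq]
  rw [nY0, e, e, h1, h2, h3, h4]
  have c1 : Commute ((SF K).x 24 (1 : K)) ((SF K).x 14 1) := x_commuteF4 (by simp) _ _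
  have c2 : Commute ((SF K).x 23 (1 : K)) ((SF K).x 33 1) := x_commuteF4 (by simp) _ _
  have c3 : Commute ((SF K).x 33 (1 : K)) ((SF K).x 24 1) := x_commuteF4 (by simp) _ _
  have c4 : Commute ((SF K).x 14 (1 : K)) ((SF K).x 23 1) := x_commuteF4 (by simp) _ _
  simp only [P0, N0, one_pow]
  set a := (SF K).x 33 (1 : K)
  set b := (SF K).x 24 (1 : K)
  set a' := (SF K).x 14 (1 : K)
  set b' := (SF K).x 23 (1 : K)
  calc a * a' * a * (b * b' * b) = a * a' * (a * b) * b' * b := by group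
    _ = a * a' * (b * a) * b' * b := by rw [c3.eq]
    _ = a * (a' * b) * (a * b') * b := by group
    _ = a * (b * a') * (b' * a) * b := by rw [c1.eq, c2.eq]
    _ = a * b * (a' * b') * (a * b) := by group

include hK in
theorem nY0_spec {len : ℕ → ℕ} (hR : RootTable chevF4 len) :
    nY0 K ∈ (SF K).Nbar ∧ (SF K).ConjP (nY0 K) (twF4.wJ chevF4 o0) ∧ nY0 K ∈ (grpF4 hK).Tw ∧
      nY0 K ∈ centG o0 ∧ nY0 K ∈ (SF K).LJ ((orbF4 hK).nodes o0) := by
  have hP := (mem_P0 hK (P0 m (1 : K))).2 ⟨1, rfl⟩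
  have hN := (mem_N0 hK (N0 m (1 : K))).2 ⟨1, rfl⟩
  refine ⟨mul_mem ((SF K).nI_mem_Nbar _) ((SF K).nI_mem_Nbar _), ?_, ?_, ?_, ?_⟩
  · rw [tbl0.2.2.2.2.1]
    exact ((SF K).conjP_nI (rulesF4 K) hR _).mul hR ((SF K).conjP_nI (rulesF4 K) hR _)
  all_goals rw [nY0_eq hK]
  · exact mul_mem (mul_mem ((grpF4 hK).fixPos_mem _ hP) ((grpF4 hK).fixNeg_mem _ hN))
      ((grpF4 hK).fixPos_mem _ hP)
  · refine mul_mem (mul_mem ?_ ?_) ?_ <;> apply orb_sub_centG hK o0
    exacts [Subgroup.mem_sup_left hP.1, Subgroup.mem_sup_right hN.1, Subgroup.mem_sup_left hP.1]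
  · exact mul_mem (mul_mem (posJ_le_LJ _ _ hP.1) (negJ_le_LJ _ _ hN.1)) (posJ_le_LJ _ _ hP.1)

include hK in
theorem nY0_conj {len : ℕ → ℕ} (hR : RootTable chevF4 len) :
    nY0 K * P0 m (1 : K) * (nY0 K)⁻¹ = N0 m 1 := by
  haveI := charTwo_of_card hK
  obtain ⟨-, -, -, -, -, -, h33, h24⟩ := tbl0
  have hs : ∀ (i : Fin chevF4.rank) (s : ℕ), s < chevF4.nroots →
      (SF K).nI i * (SF K).x s 1 * ((SF K).nI i)⁻¹ = (SF K).x (chevF4.reflectRoot i.val s) 1 := by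
    intro i s hs
    have h1 := (SF K).conj_all (rulesF4 K) hR i ((SF K).nEl_mem_rankOne i 1) (Or.inr rfl) _
      fun s hs t => (SF K).θ_nI_conj (rulesF4 K) hR i hs t
    show (SF K).nEl (chevF4.simple i) 1 * _ * ((SF K).nEl (chevF4.simple i) 1)⁻¹ = _
    rw [h1 s hs 1, mul_one, act_singleton]
    rcases (rulesF4 K).eta_sq i hs with e | e <;> simp [e, CharTwo.neg_eq]
  have key : ∀ s, s < chevF4.nroots → nY0 K * (SF K).x s 1 * (nY0 K)⁻¹ =
      (SF K).x (act chevF4 (twF4.wJ chevF4 o0) s) 1 := by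
    intro s hlt
    have e1 := hs (⟨3, by decide⟩ : Fin chevF4.rank) s hlt
    have e2 := hs (⟨0, by decide⟩ : Fin chevF4.rank) _
      (by simpa [act_singleton] using hR.act_lt [(⟨3, by decide⟩ : Fin chevF4.rank)] hlt)
    rw [tbl0.2.2.2.2.1, act_append, act_singleton, act_singleton, nY0, ← e2, ← e1]
    group
  rw [P0, N0, one_pow]
  calc nY0 K * ((SF K).x 33 1 * (SF K).x 24 1) * (nY0 K)⁻¹ =
      (nY0 K * (SF K).x 33 1 * (nY0 K)⁻¹) * (nY0 K * (SF K).x 24 1 * (nY0 K)⁻¹) := by group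
    _ = _ := by rw [key 33 (by decide +kernel), key 24 (by decide +kernel), h33, h24]

/-- The element of order three. -/
noncomputable def yEl (K : Type*) [Field K] (m : ℕ) : GL chevF4.Idx K := P0 m (1 : K) * N0 m 1

include hK in
theorem yEl_facts {len : ℕ → ℕ} (hR : RootTable chevF4 len) :
    nY0 K * P0 m (1 : K) = yEl K m ∧ yEl K m ^ 3 = 1 ∧
      P0 m (1 : K) * yEl K m * (P0 m (1 : K))⁻¹ = (yEl K m)⁻¹ := by
  haveI := charTwo_of_card hK
  have hc : P0 m (1 : K) * P0 m 1 = 1 := by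
    rw [P0_mul hK, CharTwo.add_self_eq_zero]
    simp [P0, (SF K).x_zero (show 33 < chevF4.nroots by decide +kernel),
      (SF K).x_zero (show 24 < chevF4.nroots by decide +kernel)]
  have hci : (P0 m (1 : K))⁻¹ = P0 m 1 := inv_eq_of_mul_eq_one_right hc
  have hn := nY0_eq hK
  have hv := nY0_conj hK hR
  unfold yEl
  set c := P0 m (1 : K) with hcdef
  set v := N0 m (1 : K) with hvdef
  have h1 : nY0 K * c = c * v := by rw [hn, mul_assoc, hc, mul_one]
  have h2 : c * v = v * (c * v * c) := by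
    calc c * v = nY0 K * c := h1.symm
      _ = v * nY0 K := by rw [← hv]; group
      _ = _ := by rw [hn]
  have hvv : v * v = 1 := by
    have e : v * v = nY0 K * (c * c) * (nY0 K)⁻¹ := by rw [← hv]; group
    rw [e, hc]
    group
  have hvi : v⁻¹ = v := inv_eq_of_mul_eq_one_right hvv
  refine ⟨h1, ?_, ?_⟩
  · have h3 : v * c * (v * c) = c * v := by rw [h2]; group
    have h4 : (c * v)⁻¹ = v * c := by rw [mul_inv_rev, hci, hvi]
    have h5 : (v * c) ^ 3 = 1 := by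
      rw [pow_succ, pow_two, h3, ← h4, mul_inv_cancel]
    rw [← h4, inv_pow, inv_eq_one] at h5
    exact h5
  · rw [mul_inv_rev, hvi, hci]
    calc c * (c * v) * c = c * c * (v * c) := by group
      _ = v * c := by rw [hc, one_mul]

include hK in
theorem tau_P0 {len : ℕ → ℕ} (hR : RootTable chevF4 len) (x : Kˣ × Kˣ) (t : K) :
    (SF K).tau (rulesF4 K) hR (glSys_HMul (rulesF4 K) hR) (parF4 m x) * P0 m t *
      ((SF K).tau (rulesF4 K) hR (glSys_HMul (rulesF4 K) hR) (parF4 m x))⁻¹ =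
      (SF K).x 33 ((rv m x 33 : Kˣ) * t ^ 2 ^ m) * (SF K).x 24 ((rv m x 24 : Kˣ) * t) := by
  rw [P0, ← tau_conj_rv hR x (show 33 < chevF4.nroots by decide +kernel),
    ← tau_conj_rv hR x (show 24 < chevF4.nroots by decide +kernel)]
  group

theorem rv_zero_orbit (a : Kˣ) :
    rv m (a, 1) 33 = (a * a) ^ 2 ^ m ∧ rv m (a, 1) 24 = a * a := by
  have h : (List.range 4).map (fun j => chevF4.cartan j 33) = [2, -1, 0, 0] := by decide +kernel
  rw [rv_eq _ 33 h, rv_eq _ 24 cartan_facts.2.2.1]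
  simp [zpow_ofNat, pow_two, mul_pow]

include hK in
theorem DT_zero_param {len : ℕ → ℕ} (hR : RootTable chevF4 len) {d : GT hK} (hd : d ∈ DT hK o0) :
    ∃ a : Kˣ, (d : GL chevF4.Idx K) =
      (SF K).tau (rulesF4 K) hR (glSys_HMul (rulesF4 K) hR) (parF4 m (a, 1)) := by
  obtain ⟨x, hx⟩ := (mem_HT hK hR).1 (Subgroup.mem_inf.2 ⟨((mem_DT hK).1 hd).1, d.2⟩)
  have h := (cent_iff hK o0 x).1 ((tau_mem_centG hK hR o0 x).1 (by rw [hx]; exact ((mem_DT hK).1 hd).2))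
  exact ⟨x.1, by rw [← hx, show x = (x.1, 1) from Prod.ext rfl h]⟩

include hK in
theorem free0 {d c : GT hK} (hd : d ∈ DT hK o0) (hd1 : d ≠ 1)
    (hc : c ∈ inT hK ((SF K).US ((orbF4 hK).posJ o0))) (hcd : c * d = d * c) : c = 1 := by
  obtain ⟨len, hR⟩ := (rulesF4 K).root
  obtain ⟨a, ha⟩ := DT_zero_param hK hR hd
  obtain ⟨t, ht⟩ := (mem_P0 hK _).1 (mem_posFix hK hR ((mem_inT hK).1 hc))
  have e : (d : GL chevF4.Idx K) * c * (d : GL chevF4.Idx K)⁻¹ = c := by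
    have := congrArg Subtype.val hcd
    push_cast at this
    rw [← this, mul_inv_cancel_right]
  obtain ⟨r33, r24⟩ := rv_zero_orbit (m := m) a
  rw [ha, ht, tau_P0 hK hR, r33, r24,
    show (((a * a) ^ 2 ^ m : Kˣ) : K) * t ^ 2 ^ m = (((a * a : Kˣ) : K) * t) ^ 2 ^ m by
      rw [Units.val_pow_eq_pow_val, ← mul_pow]] at e
  have e1 : ((a * a : Kˣ) : K) * t = t := P0_inj hK e
  by_cases ht0 : t = 0
  · refine Subtype.ext ?_
    rw [ht, ht0, P0, zero_pow (by positivity), (SF K).x_zero (show 33 < chevF4.nroots by decide +kernel),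
      (SF K).x_zero (show 24 < chevF4.nroots by decide +kernel), one_mul]
    rfl
  · have e2 : ((a * a : Kˣ) : K) = 1 := (mul_eq_right₀ ht0).1 e1
    exact absurd (Subtype.ext (by
      rw [ha, eq_one_of_sq hK (Units.ext e2), show ((1 : Kˣ), (1 : Kˣ)) = 1 from rfl, map_one, map_one]
      rfl)) hd1

include hK in
theorem trans0 {c c' : GT hK} (hc : c ∈ inT hK ((SF K).US ((orbF4 hK).posJ o0)))
    (hc' : c' ∈ inT hK ((SF K).US ((orbF4 hK).posJ o0))) (hne : c ≠ 1) (hne' : c' ≠ 1) :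
    ∃ s ∈ DT hK o0, s * c * s⁻¹ = c' := by
  obtain ⟨len, hR⟩ := (rulesF4 K).root
  obtain ⟨t, ht⟩ := (mem_P0 hK _).1 (mem_posFix hK hR ((mem_inT hK).1 hc))
  obtain ⟨t', ht'⟩ := (mem_P0 hK _).1 (mem_posFix hK hR ((mem_inT hK).1 hc'))
  have hz : ∀ {g : GT hK} {u : K}, (g : GL chevF4.Idx K) = P0 m u → g ≠ 1 → u ≠ 0 := by
    intro g u hg hg1 hu
    refine hg1 (Subtype.ext ?_)
    rw [hg, hu, P0, zero_pow (by positivity), (SF K).x_zero (show 33 < chevF4.nroots by decide +kernel),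
      (SF K).x_zero (show 24 < chevF4.nroots by decide +kernel), one_mul]
    rfl
  have t0 := hz ht hne
  set r : Kˣ := Units.mk0 (t' / t) (div_ne_zero (hz ht' hne') t0) with hr
  set a := r ^ (2 ^ (2 * m)) with ha
  have haa : a * a = r := by
    rw [ha, ← pow_add, show 2 ^ (2 * m) + 2 ^ (2 * m) = 2 * 2 ^ m * 2 ^ m by ring, units_pow_twice hK]
  have hmem := (mem_HT hK hR).2 ⟨(a, 1), rfl⟩
  refine ⟨⟨_, hmem.2⟩, (mem_DT hK).2 ⟨hmem.1, (tau_mem_centG hK hR o0 _).2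
    ((cent_iff hK o0 _).2 rfl)⟩, Subtype.ext ?_⟩
  obtain ⟨r33, r24⟩ := rv_zero_orbit (m := m) a
  push_cast
  rw [ht, ht', tau_P0 hK hR, r33, r24, haa, P0, Units.val_pow_eq_pow_val, ← mul_pow, hr, Units.val_mk0,
    div_mul_cancel₀ _ t0]

include hK in
theorem R_conj0 {c r : GT hK} (hc : c ∈ inT hK ((SF K).US ((orbF4 hK).posJ o1)))
    (hr : r ∈ inT hK ((SF K).US {s | s ∈ listR})) :
    c * r * c⁻¹ ∈ inT hK ((SF K).US {s | s ∈ listR}) := by
  haveI := charTwo_of_card hK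
  obtain ⟨hA, hB, -, -⟩ := tblR
  have ep := twF4_ok.enum_posJ (T := twistF4 hK) (fun _ => rfl) rfl o1
  have key : (SF K).US ((orbF4 hK).posJ o1) ≤
      Subgroup.normalizer ((SF K).US {s | s ∈ listR} : Set (GL chevF4.Idx K)) := by
    rw [Sys.US, Subgroup.closure_le]
    rintro _ ⟨q, hq, a, rfl⟩
    obtain ⟨hlt, hq'⟩ := hA q ((ep.2 q).2 hq)
    have step : ∀ b : K, ∀ s ∈ listR, ∀ u : K,
        (SF K).x q b * (SF K).x s u * ((SF K).x q b)⁻¹ ∈ (SF K).US {s | s ∈ listR} := by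
      intro b s hs u
      obtain ⟨h1, h2, h3⟩ := hq' s hs
      have e := (SF K).comm q hlt s (hB s hs).1 h1 h2 (-b) u
      rw [← (SF K).x_inv hlt b] at e
      have e2 : (SF K).x q b * (SF K).x s u * ((SF K).x q b)⁻¹ =
          (SF K).x s u * ((chevF4.commWord K q s (-b) u).map fun p => (SF K).x p.1 p.2).prod := by
        rw [mul_assoc, e]
        group
      rw [e2]
      refine mul_mem ((SF K).x_mem_US (T := {s | s ∈ listR}) hs u) (list_prod_mem fun g hg => ?_)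
      obtain ⟨p, hp, rfl⟩ := List.mem_map.1 hg
      rw [ChevalleyDatum.commWord, List.mem_map] at hp
      obtain ⟨cc, hcc, rfl⟩ := hp
      obtain ⟨h4, h5 | h5⟩ := h3 cc hcc
      · have : ((cc.2.1 : ℤ) : K) = 0 := (CharP.intCast_eq_zero_iff K 2 _).2 (by omega)
        simp [this, (SF K).x_zero h4]
      · exact (SF K).x_mem_US (T := {s | s ∈ listR}) h5 _
    refine (SF K).mem_normalizer_US (fun s hs u => step a s hs u) fun s hs u => ?_
    have := step (-a) s hs u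
    rwa [← (SF K).x_inv hlt a, inv_inv] at this
  exact (Subgroup.mem_normalizer_iff.1 (key ((mem_inT hK).1 hc)) _).1 ((mem_inT hK).1 hr)

include hK in
theorem V_split0 {A : GT hK} (hA : A ∈ inT hK (SF K).Vbar) :
    ∃ a ∈ inT hK ((SF K).US (negOut hK o0 (rulesF4 K).root.choose)),
      ∃ v ∈ inT hK ((SF K).US ((orbF4 hK).negJ o0)), A = a * v := by
  set len := (rulesF4 K).root.choose with hlen
  have hR : RootTable chevF4 len := (rulesF4 K).root.choose_spec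
  obtain ⟨hnN, hnc, hnT⟩ := (grpF4 hK).prod_nJ (rulesF4 K) hR twF4.longSeq
  set n := (twF4.longSeq.map ((grpF4 hK).nJ (rulesF4 K) hR)).prod with hn
  set ν : GT hK := ⟨n, hnT⟩ with hν
  have h1 : ν⁻¹ * A⁻¹ * ν ∈ inT hK (SF K).Ubar := by
    rw [mem_inT]
    push_cast
    have := conjP_mem_US (hnc.inv hR) (fun r hr => hr.1) (inv_mem ((mem_inT hK).1 hA))
    rw [inv_inv] at this
    refine (SF K).US_mono ?_ this
    rintro _ ⟨r, hr, rfl⟩
    show chevF4.IsPosRoot _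
    rw [show (orbF4 hK).word twF4.longSeq = twF4.longSeq.flatMap (twF4.wJ chevF4) from rfl,
      tblR.2.2.2 r hr.1]
    exact (hR.pos_neg_iff hr.1).2 hr
  obtain ⟨c, hc, p, hp, e⟩ := U_split hK o0 h1
  have hc' : ν * c * ν⁻¹ ∈ inT hK ((SF K).US ((orbF4 hK).negJ o0)) := by
    rw [mem_inT]
    push_cast
    refine (SF K).US_mono ?_ (conjP_mem_US hnc (orbF4 hK).posJ_lt ((mem_inT hK).1 hc))
    rintro _ ⟨r, hr, rfl⟩
    rw [show (orbF4 hK).word twF4.longSeq = twF4.longSeq.flatMap (twF4.wJ chevF4) from rfl,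
      hminusF4 r hr.1.1]
    refine ⟨(hR.pos_neg_iff (hR.neg_lt _ hr.1.1)).1 (by rw [hR.neg_neg_root hr.1.1]; exact hr.1), ?_⟩
    rw [hR.inRootSub_iff _ (hR.neg_lt _ hr.1.1), hR.deg_neg _ hr.1.1,
      (hR.inRootSub_iff _ hr.1.1).1 hr.2, neg_zero]
  have hp' : ν * p * ν⁻¹ ∈ inT hK ((SF K).US (negOut hK o0 len)) := by
    rw [mem_inT]
    push_cast
    refine (SF K).US_mono ?_ (conjP_mem_US hnc (fun r hr => hr.1.1) ((mem_inT hK).1 hp))
    rintro _ ⟨r, hr, rfl⟩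
    rw [show (orbF4 hK).word twF4.longSeq = twF4.longSeq.flatMap (twF4.wJ chevF4) from rfl,
      hminusF4 r hr.1.1]
    refine ⟨hR.neg_lt _ hr.1.1, ?_⟩
    rw [AddMonoidHom.neg_apply, hR.deg_neg _ hr.1.1, neg_neg]
    exact (hR.degPos_outJ_eq ((orbF4 hK).nodes o0) ▸ hr :
      r ∈ degPos chevF4 len (outJ chevF4 ((orbF4 hK).nodes o0))).2
  refine ⟨(ν * p * ν⁻¹)⁻¹, inv_mem hp', (ν * c * ν⁻¹)⁻¹, inv_mem hc', ?_⟩
  calc A = (ν * (ν⁻¹ * A⁻¹ * ν) * ν⁻¹)⁻¹ := by group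
    _ = _ := by rw [e]; group

end Cfsg.Agent.TwoFourCC
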