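import Cfsg.Agent.TwoFourCC.LeviF4

/-!
# ²F₄(q): every nontrivial element is a product of two conjugates of an element of odd order
-/

set_option autoImplicit false
set_option linter.unusedSectionVars false

namespace Cfsg.Agent.TwoFourCC

open Cfsg.Lie Cfsg.Agent.ChevGrp Cfsg.Agent.ChevTw Cfsg.Agent.CentralExt.TwCells

/-- The exponents of the roots outside the first orbit on the centre of its Levi subgroup. -/
def expPairs : List (ℤ × ℤ) :=
  [(-4, 2), (-4, 3), (-3, 2), (-2, 1), (-2, 2), (-1, 0), (-1, 1), (0, -1), (0, 1), (1, -1), (1, 0),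
    (2, -2), (2, -1), (3, -2), (4, -3), (4, -2)]

theorem exp_tbl : ∀ r < chevF4.nroots, r ∈ [33, 24, 14, 23] ∨
    ∀ a b c d, [a, b, c, d] = (List.range 4).map (fun j => chevF4.cartan j r) →
      (a + 2 * b, 2 * c + d) ∈ expPairs := by
  have key : ∀ r < chevF4.nroots, r ∈ [33, 24, 14, 23] ∨
      (chevF4.cartan 0 r + 2 * chevF4.cartan 1 r, 2 * chevF4.cartan 2 r + chevF4.cartan 3 r) ∈ expPairs := by
    decide +kernel
  intro r hr
  refine (key r hr).imp id fun h a b c d e => ?_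
  have e' : [a, b, c, d] = [chevF4.cartan 0 r, chevF4.cartan 1 r, chevF4.cartan 2 r, chevF4.cartan 3 r] := e
  simp only [List.cons.injEq, and_true] at e'
  obtain ⟨rfl, rfl, rfl, rfl⟩ := e'
  exact h

theorem orbit0_vals : ∀ r ∈ [33, 24, 14, 23], r < chevF4.nroots ∧
    (List.range 4).map (fun j => chevF4.cartan j r) ∈
      ([[2, -1, 0, 0], [-2, 1, 0, 0], [0, 0, -1, 2], [0, 0, 1, -2]] : List (List ℤ)) := by decide +kernel

theorem out_tbl : ∀ r < chevF4.nroots, r ∈ twF4.posList o0 ∨ ¬ chevF4.IsPosRoot r ∨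
    (r ∉ [33, 24, 14, 23] ∧ chevF4.neg r ∉ [33, 24, 14, 23]) := by decide +kernel

variable {K : Type*} [Field K] [Fintype K] {m : ℕ} (hK : Fintype.card K = 2 ^ (2 * m + 1))

include hK in
/-- A central element of the Levi subgroup moving every outer root. -/
theorem exists_central (hm : 1 ≤ m) : ∃ x : Kˣ × Kˣ,
    (∀ r ∈ [33, 24, 14, 23], rv m x r = 1) ∧
      ∀ r < chevF4.nroots, r ∉ [33, 24, 14, 23] → rv m x r ≠ 1 := by
  obtain ⟨w, hw⟩ := exists_unit_zpow_ne_one K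
  refine ⟨(w, w * w), fun r hr => ?_, fun r hr hout e => ?_⟩
  · obtain ⟨-, h⟩ := orbit0_vals r hr
    simp only [List.mem_cons, List.not_mem_nil, or_false] at h
    rcases h with h | h | h | h <;> rw [rv_eq _ r h] <;> simp [zpow_ofNat, pow_two, mul_pow]
  · set a := chevF4.cartan 0 r with ha
    set b := chevF4.cartan 1 r with hb
    set c := chevF4.cartan 2 r with hc
    set d := chevF4.cartan 3 r with hd
    have hP := ((exp_tbl r hr).resolve_left hout) a b c d rfl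
    rw [rv_eq (w, w * w) r (a := a) (b := b) (c := c) (d := d) rfl] at e
    have e1 : w ^ (((2 ^ m : ℕ) : ℤ) * (a + 2 * b) + (2 * c + d)) = 1 := by
      rw [← e]
      simp only [← zpow_natCast, mul_zpow, ← zpow_mul]
      simp only [← zpow_add]
      congr 1
      ring
    have hdiv := hw _ e1
    have hq : ((Fintype.card K - 1 : ℕ) : ℤ) = 2 * ((2 ^ m : ℕ) : ℤ) * ((2 ^ m : ℕ) : ℤ) - 1 := by
      rw [hK, Nat.cast_sub Nat.one_le_two_pow]
      push_cast
      ring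
    rw [hq] at hdiv
    have hE : (2 ^ m : ℕ) = 2 ∨ 4 ≤ (2 ^ m : ℕ) := by
      rcases eq_or_lt_of_le hm with h | h
      · exact Or.inl (by rw [← h]; rfl)
      · exact Or.inr (le_trans (by norm_num) (Nat.pow_le_pow_right (by norm_num) h))
    generalize (2 ^ m : ℕ) = E at hE hdiv
    rcases hE with rfl | hE
    · generalize a + 2 * b = A at hP hdiv
      generalize 2 * c + d = B at hP hdiv
      simp only [expPairs, List.mem_cons, List.not_mem_nil, or_false, Prod.mk.injEq] at hP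
      rcases hP with ⟨rfl, rfl⟩ | ⟨rfl, rfl⟩ | ⟨rfl, rfl⟩ | ⟨rfl, rfl⟩ | ⟨rfl, rfl⟩ | ⟨rfl, rfl⟩ |
        ⟨rfl, rfl⟩ | ⟨rfl, rfl⟩ | ⟨rfl, rfl⟩ | ⟨rfl, rfl⟩ | ⟨rfl, rfl⟩ | ⟨rfl, rfl⟩ | ⟨rfl, rfl⟩ |
        ⟨rfl, rfl⟩ | ⟨rfl, rfl⟩ | ⟨rfl, rfl⟩ <;> norm_num at hdiv
    · generalize a + 2 * b = A at hP hdiv
      generalize 2 * c + d = B at hP hdiv
      have hN : 8 * (E : ℤ) - 1 ≤ 2 * (E : ℤ) * E - 1 := by
        have : (4 : ℤ) ≤ E := by exact_mod_cast hE
        nlinarith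
      have hE' : (4 : ℤ) ≤ E := by exact_mod_cast hE
      generalize 2 * (E : ℤ) * E - 1 = N at hdiv hN
      generalize (E : ℤ) = e at hdiv hN hE'
      have h2 : e * A + B = 0 := Int.eq_zero_of_abs_lt_dvd hdiv (by
        simp only [expPairs, List.mem_cons, List.not_mem_nil, or_false, Prod.mk.injEq] at hP
        rw [abs_lt]
        rcases hP with ⟨rfl, rfl⟩ | ⟨rfl, rfl⟩ | ⟨rfl, rfl⟩ | ⟨rfl, rfl⟩ | ⟨rfl, rfl⟩ | ⟨rfl, rfl⟩ |
          ⟨rfl, rfl⟩ | ⟨rfl, rfl⟩ | ⟨rfl, rfl⟩ | ⟨rfl, rfl⟩ | ⟨rfl, rfl⟩ | ⟨rfl, rfl⟩ | ⟨rfl, rfl⟩ |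
          ⟨rfl, rfl⟩ | ⟨rfl, rfl⟩ | ⟨rfl, rfl⟩ <;> omega)
      simp only [expPairs, List.mem_cons, List.not_mem_nil, or_false, Prod.mk.injEq] at hP
      rcases hP with ⟨rfl, rfl⟩ | ⟨rfl, rfl⟩ | ⟨rfl, rfl⟩ | ⟨rfl, rfl⟩ | ⟨rfl, rfl⟩ | ⟨rfl, rfl⟩ |
        ⟨rfl, rfl⟩ | ⟨rfl, rfl⟩ | ⟨rfl, rfl⟩ | ⟨rfl, rfl⟩ | ⟨rfl, rfl⟩ | ⟨rfl, rfl⟩ | ⟨rfl, rfl⟩ |
        ⟨rfl, rfl⟩ | ⟨rfl, rfl⟩ | ⟨rfl, rfl⟩ <;> omega

theorem rv_pow (x : Kˣ × Kˣ) (k r : ℕ) : rv m (x ^ k) r = rv m x r ^ k := by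
  simp only [rv, map_pow]
  rw [← Finset.prod_pow]
  refine Finset.prod_congr rfl fun j _ => ?_
  show (parF4 m x j ^ k) ^ chevF4.cartan j.val r = (parF4 m x j ^ chevF4.cartan j.val r) ^ k
  rw [← zpow_natCast, ← zpow_natCast, ← zpow_mul, ← zpow_mul, mul_comm]

/-- A torus element moving all roots of a closed set fixes nothing in its subgroup. -/
theorem eq_one_of_moved {len : ℕ → ℕ} (hR : RootTable chevF4 len)
    {φ : (Fin chevF4.rank → ℤ) →+ ℤ} {A : Set ℕ} (hA : UClosed chevF4 len φ A) (x : Kˣ × Kˣ)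
    (hx : ∀ r ∈ A, rv m x r ≠ 1) {g : GL chevF4.Idx K} (hg : g ∈ (SF K).US A)
    (hc : (SF K).tau (rulesF4 K) hR (glSys_HMul (rulesF4 K) hR) (parF4 m x) * g *
      ((SF K).tau (rulesF4 K) hR (glSys_HMul (rulesF4 K) hR) (parF4 m x))⁻¹ = g) : g = 1 := by
  obtain ⟨L, hL⟩ := hA.exists_enum
  obtain ⟨t, rfl⟩ := (SF K).exists_coef hR hA hL hg
  have hLlt : ∀ r ∈ L, r < chevF4.nroots := fun r hr => hA.lt r ((hL.2 r).1 hr)
  set τ := (SF K).tau (rulesF4 K) hR (glSys_HMul (rulesF4 K) hR) (parF4 m x)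
  have key : ∀ L : List ℕ, (∀ r ∈ L, r < chevF4.nroots) →
      τ * (SF K).P L t * τ⁻¹ = (SF K).P L (fun r => (rv m x r : Kˣ) * t r) := by
    intro L hlt
    induction L with
    | nil => simp [Sys.P_nil]
    | cons r L ih =>
      rw [Sys.P_cons, Sys.P_cons, ← ih (fun s hs => hlt s (List.mem_cons_of_mem _ hs)),
        ← tau_conj_rv hR x (hlt r List.mem_cons_self) (t r)]
      simp only [τ]
      group
  rw [key L hLlt] at hc
  have h := (SF K).coef_unique hR hA hL (congrArg (SF K).θ hc)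
  refine (SF K).P_zero hLlt fun r hr => ?_
  by_contra h0
  exact hx r ((hL.2 r).1 hr) (Units.ext ((mul_eq_right₀ h0).1 (h r ((hL.2 r).1 hr))))

/-- The longest word inverts the torus. -/
theorem long_inv {len : ℕ → ℕ} (hR : RootTable chevF4 len) {n : GL chevF4.Idx K} (hn : n ∈ (SF K).Nbar)
    (hc : (SF K).ConjP n (twF4.longSeq.flatMap (twF4.wJ chevF4))) (x : Kˣ × Kˣ) :
    n * (SF K).tau (rulesF4 K) hR (glSys_HMul (rulesF4 K) hR) (parF4 m x) * n⁻¹ =
      ((SF K).tau (rulesF4 K) hR (glSys_HMul (rulesF4 K) hR) (parF4 m x))⁻¹ := by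
  have hfH : (SF K).tau (rulesF4 K) hR (glSys_HMul (rulesF4 K) hR) (parF4 m x) ∈ (SF K).Hbar := by
    rw [← (SF K).tau_range (rulesF4 K) hR (glSys_HMul (rulesF4 K) hR)]
    exact ⟨_, rfl⟩
  have hrvn : ∀ r < chevF4.nroots, rv m x (chevF4.neg r) * rv m x r = 1 := fun r hr => by
    simp only [rv, ← Finset.prod_mul_distrib, ← zpow_add]
    refine Finset.prod_eq_one fun j _ => ?_
    rw [hR.cartan_neg (show (j : ℕ) < chevF4.rank from j.2) hr, neg_add_cancel, zpow_zero]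
  have htc := fun r (hr : r < chevF4.nroots) => tau_conj_rv (m := m) hR x hr
  generalize (SF K).tau (rulesF4 K) hR (glSys_HMul (rulesF4 K) hR) (parF4 m x) = f at hfH htc ⊢
  rw [eq_inv_iff_mul_eq_one]
  refine (SF K).θ_eq_one_of_fix (rulesF4 K) hR
    (mul_mem (Sys.conj_mem_Hbar (rulesF4 K) hR hn hfH) hfH) fun r hr => ?_
  obtain ⟨a, ha, hla⟩ := hc
  have hr' := hR.neg_lt r hr
  have hw : act chevF4 (twF4.longSeq.flatMap (twF4.wJ chevF4)) (chevF4.neg r) = r := by
    rw [hminusF4 _ hr', hR.neg_neg_root hr]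
  have ha0 : a (chevF4.neg r) ≠ 0 := right_ne_zero_of_mul_eq_one (ha _ hr')
  have e3 := hla _ hr' ((a (chevF4.neg r))⁻¹ * (rv m x r : Kˣ))
  rw [hw, mul_inv_cancel_left₀ ha0] at e3
  have e4 := hla _ hr' ((rv m x (chevF4.neg r) : Kˣ) * ((a (chevF4.neg r))⁻¹ * (rv m x r : Kˣ)))
  rw [hw, ← htc _ hr'] at e4
  calc (n * f * n⁻¹ * f) * (SF K).x r 1 * (n * f * n⁻¹ * f)⁻¹
      = n * (f * (n⁻¹ * (f * (SF K).x r 1 * f⁻¹) * n) * f⁻¹) * n⁻¹ := by group
    _ = n * (f * (SF K).x (chevF4.neg r) ((a (chevF4.neg r))⁻¹ * (rv m x r : Kˣ)) * f⁻¹) * n⁻¹ := by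
        rw [htc r hr 1, mul_one, ← e3]
        group
    _ = _ := by
        rw [e4, mul_left_comm (a (chevF4.neg r)), mul_inv_cancel_left₀ ha0, ← Units.val_mul, hrvn r hr,
          Units.val_one]

include hK in
/-- An element centralising the rank one elements and inverting the torus elements commuting with them. -/
theorem exists_inverter {len : ℕ → ℕ} (hR : RootTable chevF4 len) : ∃ z ∈ (grpF4 hK).Tw,
    z * P0 m (1 : K) * z⁻¹ = P0 m 1 ∧ z * nY0 K * z⁻¹ = nY0 K ∧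
      ∀ x : Kˣ × Kˣ, Commute (nY0 K) ((SF K).tau (rulesF4 K) hR (glSys_HMul (rulesF4 K) hR) (parF4 m x)) →
        z * (SF K).tau (rulesF4 K) hR (glSys_HMul (rulesF4 K) hR) (parF4 m x) * z⁻¹ =
          ((SF K).tau (rulesF4 K) hR (glSys_HMul (rulesF4 K) hR) (parF4 m x))⁻¹ := by
  obtain ⟨hYN, hYc, hYT, -, -⟩ := nY0_spec hK hR
  obtain ⟨hLN, hLc, hLT⟩ := (grpF4 hK).prod_nJ (rulesF4 K) hR twF4.longSeq
  generalize (twF4.longSeq.map ((grpF4 hK).nJ (rulesF4 K) hR)).prod = n0 at hLN hLc hLT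
  change (SF K).ConjP n0 (twF4.longSeq.flatMap (twF4.wJ chevF4)) at hLc
  have hcomm := (SF K).Hbar_comm (rulesF4 K) hR (glSys_HMul (rulesF4 K) hR)
  have hzc : ∀ r ∈ [33, 24, 14, 23],
      act chevF4 (twF4.wJ chevF4 o0 ++ twF4.longSeq.flatMap (twF4.wJ chevF4)) r = r := by decide +kernel
  have ep : Enum ((orbF4 hK).posJ o0) [33, 24] := by
    have := twF4_ok.enum_posJ (T := twistF4 hK) (fun _ => rfl) rfl o0
    rwa [tbl0.2.2.2.2.2.1] at this
  have hpos := (orbF4 hK).posJ_closed hR o0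
  set Z := nY0 K * n0 with hZ
  have hZT : Z ∈ (grpF4 hK).Tw := mul_mem hYT hLT
  obtain ⟨a, ha, hza⟩ := hYc.mul hR hLc
  have h33 := hza 33 (orbit0_vals 33 (by simp)).1 1
  have h24 := hza 24 (orbit0_vals 24 (by simp)).1 1
  rw [hzc 33 (by simp), mul_one] at h33
  rw [hzc 24 (by simp), mul_one] at h24
  have e1 : Z * P0 m (1 : K) * Z⁻¹ = (SF K).x 33 (a 33) * (SF K).x 24 (a 24) := by
    rw [← h33, ← h24, P0, one_pow, hZ]
    group
  -- the conjugate is fixed
  have hfix : Z * P0 m (1 : K) * Z⁻¹ ∈ fixUS (twistF4 hK) ((orbF4 hK).posJ o0) := by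
    refine ⟨?_, (grpF4 hK).fixed (mul_mem (mul_mem hZT ((grpF4 hK).fixPos_mem _
      ((mem_P0 hK _).2 ⟨1, rfl⟩))) (inv_mem hZT))⟩
    rw [e1]
    exact mul_mem ((SF K).x_mem_US ((ep.2 33).1 (by simp)) _) ((SF K).x_mem_US ((ep.2 24).1 (by simp)) _)
  obtain ⟨t, ht⟩ := (mem_P0 hK _).1 hfix
  have e2 := zip_unique (S := SF K) hR hpos ep (v := [a 33, a 24]) (v' := [t ^ 2 ^ m, t]) rfl rfl
    (by simpa [P0] using e1.symm.trans ht)
  simp at e2
  have hz24 : t ≠ 0 := e2.2 ▸ right_ne_zero_of_mul_eq_one (ha 24 (orbit0_vals 24 (by simp)).1)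
  set r : Kˣ := (Units.mk0 t hz24)⁻¹ with hrdef
  set d := r ^ (2 ^ (2 * m)) with hddef
  have hdd : d * d = r := by
    rw [hddef, ← pow_add, show 2 ^ (2 * m) + 2 ^ (2 * m) = 2 * 2 ^ m * 2 ^ m by ring, units_pow_twice hK]
  obtain ⟨r33, r24⟩ := rv_zero_orbit (m := m) d
  have hD := (mem_HT hK hR).2 ⟨(d, 1), rfl⟩
  have e6 := tau_P0 hK hR (d, 1) t
  rw [r33, r24, Units.val_pow_eq_pow_val, ← mul_pow, hdd, hrdef, Units.val_inv_eq_inv_val, Units.val_mk0,
    inv_mul_cancel₀ hz24] at e6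
  generalize (SF K).tau (rulesF4 K) hR (glSys_HMul (rulesF4 K) hR) (parF4 m (d, 1)) = D at hD e6
  have hzP : D * Z * P0 m (1 : K) * (D * Z)⁻¹ = P0 m 1 := by
    calc D * Z * P0 m (1 : K) * (D * Z)⁻¹ = D * (Z * P0 m (1 : K) * Z⁻¹) * D⁻¹ := by group
      _ = _ := by rw [ht]; exact e6
  refine ⟨D * Z, mul_mem hD.2 hZT, hzP, ?_, fun x hx => ?_⟩
  · -- the coefficients on the negative roots are the inverses
    obtain ⟨b, hb, hzb⟩ := ((SF K).conjP_Hbar (rulesF4 K) hR hD.1).mul hR (hYc.mul hR hLc)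
    have hzb' : ∀ s ∈ [33, 24, 14, 23], D * Z * (SF K).x s 1 * (D * Z)⁻¹ = (SF K).x s (b s) := by
      intro s hs
      have := hzb s (orbit0_vals s hs).1 1
      rw [List.nil_append, hzc s hs, mul_one] at this
      exact this
    have e3 : (SF K).x 33 (b 33) * (SF K).x 24 (b 24) = (SF K).x 33 1 * (SF K).x 24 1 := by
      have h := hzP
      rw [P0, one_pow] at h
      rw [← hzb' 33 (by simp), ← hzb' 24 (by simp)]
      calc D * Z * (SF K).x 33 1 * (D * Z)⁻¹ * (D * Z * (SF K).x 24 1 * (D * Z)⁻¹)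
          = D * Z * ((SF K).x 33 1 * (SF K).x 24 1) * (D * Z)⁻¹ := by group
        _ = _ := h
    have e4 := zip_unique (S := SF K) hR hpos ep (v := [b 33, b 24]) (v' := [1, 1]) rfl rfl
      (by simpa using e3)
    simp at e4
    obtain ⟨-, -, n33, n24, -⟩ := tbl0
    have b14 : b 14 = 1 := by have := hb 33 (orbit0_vals 33 (by simp)).1; rwa [n33, e4.1, mul_one] at this
    have b23 : b 23 = 1 := by have := hb 24 (orbit0_vals 24 (by simp)).1; rwa [n24, e4.2, mul_one] at this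
    have h14 := hzb' 14 (by simp)
    have h23 := hzb' 23 (by simp)
    rw [b14] at h14
    rw [b23] at h23
    have hN : D * Z * N0 m (1 : K) * (D * Z)⁻¹ = N0 m 1 := by
      rw [N0, one_pow]
      calc D * Z * ((SF K).x 14 1 * (SF K).x 23 1) * (D * Z)⁻¹
          = D * Z * (SF K).x 14 1 * (D * Z)⁻¹ * (D * Z * (SF K).x 23 1 * (D * Z)⁻¹) := by group
        _ = _ := by rw [h14, h23]
    rw [nY0_eq hK]
    calc D * Z * (P0 m (1 : K) * N0 m 1 * P0 m 1) * (D * Z)⁻¹
        = D * Z * P0 m (1 : K) * (D * Z)⁻¹ * (D * Z * N0 m (1 : K) * (D * Z)⁻¹) *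
            (D * Z * P0 m (1 : K) * (D * Z)⁻¹) := by group
      _ = _ := by rw [hzP, hN]
  · have e0 := long_inv (m := m) hR hLN hLc x
    have hfH := ((mem_HT hK hR).2 ⟨x, rfl⟩).1
    generalize (SF K).tau (rulesF4 K) hR (glSys_HMul (rulesF4 K) hR) (parF4 m x) = f at hx e0 hfH
    calc D * Z * f * (D * Z)⁻¹ = D * (nY0 K * (n0 * f * n0⁻¹) * (nY0 K)⁻¹) * D⁻¹ := by rw [hZ]; group
      _ = D * f⁻¹ * D⁻¹ := by rw [e0, hx.inv_right.eq, mul_inv_cancel_right]
      _ = f⁻¹ := by rw [hcomm D hD.1 _ (inv_mem hfH), mul_inv_cancel_right]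

include hK in
/-- Every nontrivial element of ²F₄(q) is a product of two conjugates of one element of odd order. -/
theorem twisted_two_conj (hm : 1 ≤ m) :
    ∃ x : GT hK, Odd (orderOf x) ∧ ∀ g : GT hK, g ≠ 1 → ∃ u v, g = (u * x * u⁻¹) * (v * x * v⁻¹) := by
  haveI := charTwo_of_card hK
  set len := (rulesF4 K).root.choose with hlen
  have hR : RootTable chevF4 len := (rulesF4 K).root.choose_spec
  obtain ⟨px, hcen, hout⟩ := exists_central hK hm
  set τ := (SF K).tau (rulesF4 K) hR (glSys_HMul (rulesF4 K) hR) with hτ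
  have hfm := (mem_HT hK hR).2 ⟨px, rfl⟩
  set f : GT hK := ⟨τ (parF4 m px), hfm.2⟩ with hf
  have hfH : (f : GL chevF4.Idx K) ∈ (SF K).Hbar := hfm.1
  -- the rank one elements
  have hcP := (mem_P0 hK (P0 m (1 : K))).2 ⟨1, rfl⟩
  set c : GT hK := ⟨P0 m (1 : K), (grpF4 hK).fixPos_mem _ hcP⟩ with hcdef
  obtain ⟨hYN, hYc, hYT, hYcen, hYL⟩ := nY0_spec hK hR
  set nY : GT hK := ⟨nY0 K, hYT⟩ with hnY
  obtain ⟨ey, ey3, eyi⟩ := yEl_facts hK hR
  set y : GT hK := nY * c with hy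
  have hy3 : y ^ 3 = 1 := Subtype.ext (by rw [SubmonoidClass.coe_pow]; show (nY0 K * P0 m (1 : K)) ^ 3 = 1
                                          rw [ey, ey3])
  have hyi : c * y * c⁻¹ = y⁻¹ := Subtype.ext (by
    show P0 m (1 : K) * (nY0 K * P0 m 1) * (P0 m (1 : K))⁻¹ = (nY0 K * P0 m 1)⁻¹
    rw [ey, eyi])
  -- `f` is central in the Levi subgroup
  have hfc : ∀ A : Set ℕ, (∀ r ∈ A, r ∈ [33, 24, 14, 23]) →
      ∀ g ∈ (SF K).US A, (f : GL chevF4.Idx K) * g = g * (f : GL chevF4.Idx K) := by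
    intro A hA g hg
    have hle : (SF K).US A ≤ Subgroup.centralizer {(f : GL chevF4.Idx K)} := by
      rw [Sys.US, Subgroup.closure_le]
      rintro _ ⟨r, hr, t, rfl⟩
      rw [SetLike.mem_coe, Subgroup.mem_centralizer_singleton_iff]
      have e := tau_conj_rv (m := m) hR px (orbit0_vals r (hA r hr)).1 t
      rw [hcen r (hA r hr), Units.val_one, one_mul, mul_inv_eq_iff_eq_mul] at e
      exact e.symm
    exact (Subgroup.mem_centralizer_singleton_iff.1 (hle hg)).symm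
  have ep0 := twF4_ok.enum_posJ (T := twistF4 hK) (fun _ => rfl) rfl o0
  have en0 := twF4_ok.enum_negJ (T := twistF4 hK) (fun _ => rfl) rfl hR o0
  have hposA : ∀ r ∈ (orbF4 hK).posJ o0, r ∈ [33, 24, 14, 23] := fun r hr => by
    have := (ep0.2 r).2 hr
    rw [tbl0.2.2.2.2.2.1] at this
    simp at this ⊢
    tauto
  have hnegA : ∀ r ∈ (orbF4 hK).negJ o0, r ∈ [33, 24, 14, 23] := fun r hr => by
    have := (en0.2 r).2 hr
    rw [tbl0.2.2.2.2.2.1] at this
    simp [tbl0.2.2.1, tbl0.2.2.2.1] at this ⊢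
    tauto
  have hfU : ∀ g ∈ inT hK ((SF K).US ((orbF4 hK).posJ o0)), f * g = g * f := fun g hg =>
    Subtype.ext (hfc _ hposA _ ((mem_inT hK).1 hg))
  have hfV : ∀ g ∈ inT hK ((SF K).US ((orbF4 hK).negJ o0)), f * g = g * f := fun g hg =>
    Subtype.ext (hfc _ hnegA _ ((mem_inT hK).1 hg))
  have hcU : c ∈ inT hK ((SF K).US ((orbF4 hK).posJ o0)) := (mem_inT hK).2 hcP.1
  have hfn : f * nY = nY * f := by
    refine Subtype.ext ?_
    show (f : GL chevF4.Idx K) * nY0 K = nY0 K * (f : GL chevF4.Idx K)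
    rw [nY0_eq hK]
    have h1 := hfc _ hposA _ hcP.1
    have h2 := hfc _ hnegA _ ((mem_N0 hK (N0 m (1 : K))).2 ⟨1, rfl⟩).1
    exact (Commute.mul_right (Commute.mul_right h1 h2) h1).eq
  have hfy : f * y = y * f := by
    rw [hy]
    exact (Commute.mul_right hfn (hfU c hcU)).eq
  have hcomm := (SF K).Hbar_comm (rulesF4 K) hR (glSys_HMul (rulesF4 K) hR)
  have hfD : ∀ g ∈ DT hK o0, f * g = g * f := fun g hg =>
    Subtype.ext (hcomm _ hfH _ ((mem_DT hK).1 hg).1)
  -- the data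
  let L : LeviData (cellData hK) :=
    { j0 := o0
      j1 := o1
      oth0 := rfl
      oth1 := rfl
      V_split := fun A hA => V_split0 hK hA
      abel := fun a ha b hb => Subtype.ext (by
        obtain ⟨t, ht⟩ := (mem_P0 hK _).1 (mem_posFix hK hR ((mem_inT hK).1 ha))
        obtain ⟨u, hu⟩ := (mem_P0 hK _).1 (mem_posFix hK hR ((mem_inT hK).1 hb))
        push_cast
        rw [ht, hu, P0_mul hK, P0_mul hK, add_comm])
      two := fun a ha => Subtype.ext (by
        obtain ⟨t, ht⟩ := (mem_P0 hK _).1 (mem_posFix hK hR ((mem_inT hK).1 ha))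
        push_cast
        rw [ht, P0_mul hK, CharTwo.add_self_eq_zero, P0, zero_pow (by positivity),
          (SF K).x_zero (show 33 < chevF4.nroots by decide +kernel),
          (SF K).x_zero (show 24 < chevF4.nroots by decide +kernel), one_mul])
      free := fun d hd hd1 a ha e => free0 hK hd hd1 ha e
      nY := nY
      nY_mem := Subgroup.mem_inf.2
        ⟨normalizer_inT hK ((SF K).LJ_le_normalizer (rulesF4 K) hR _ hYL),
          normalizer_inT hK (LJ_le_normalizer_negOut hK hR o0 hYL)⟩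
      invY := fun d hd => by
        have hD : (nT hK o0)⁻¹ * nY ∈ DT hK o0 := by
          obtain ⟨hnN, hnc, -, hncen, -⟩ := nC_spec hK o0
          refine (mem_DT hK).2 ⟨?_, mul_mem (inv_mem hncen) hYcen⟩
          refine TwGroup.mem_Hbar_of_conjP (rulesF4 K) hR (mul_mem (inv_mem hnN) hYN)
            ((hnc.inv hR).mul hR hYc) fun r hr => ?_
          rw [act_append]
          exact hR.act_reverse_act _ hr
        have e1 := (cellData hK).inv o0 d hd
        have e2 : ((nT hK o0)⁻¹ * nY) * d = d * ((nT hK o0)⁻¹ * nY) :=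
          Subtype.ext (hcomm _ ((mem_DT hK).1 hD).1 _ ((mem_DT hK).1 hd).1)
        calc nY * d * nY⁻¹ = nT hK o0 * (((nT hK o0)⁻¹ * nY) * d) * nY⁻¹ := by group
          _ = nT hK o0 * d * (nT hK o0)⁻¹ := by rw [e2]; group
          _ = d⁻¹ := e1
      swapY := fun a ha => (mem_inT hK).2 ((grpF4 hK).conj_neg_fix hYT hYc (orbF4 hK).posJ_lt
        (fun r hr => (orbF4 hK).act_wJ_mem hR o0 hr) (mem_posFix hK hR ((mem_inT hK).1 ha))).1
      back := fun v hv => by
        show _ ∈ inT hK ((SF K).US ((orbF4 hK).posJ o0))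
        rw [mem_inT]
        push_cast
        have h := ((grpF4 hK).conj_neg_fix (inv_mem hYT) (hYc.inv hR) (B := (orbF4 hK).posJ o0)
          (orbF4 hK).negJ_lt (fun r hr => by
            have e : act chevF4 (twF4.wJ chevF4 o0).reverse r = act chevF4 ((orbF4 hK).wJ o0) r := by
              conv_lhs => rw [← (orbF4 hK).winv o0 r hr.1.1]
              exact hR.act_reverse_act _ (hR.act_lt _ hr.1.1)
            rw [e]
            exact (orbF4 hK).act_wJ_mem' hR o0 hr) (mem_posFix hK hR ((mem_inT hK).1 hv))).1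
        rwa [inv_inv] at h
      trans := fun a ha a' ha' h1 h2 => trans0 hK ha ha' h1 h2
      R := inT hK ((SF K).US {s | s ∈ listR})
      R_conj := fun a ha r hr => R_conj0 hK ha hr
      R_le := Subgroup.comap_mono ((SF K).US_mono fun r hr =>
        ⟨(tblR.2.1 r hr).2.1, fun h => (tblR.2.1 r hr).2.2.1
          (((twF4_ok.enum_posJ (T := twistF4 hK) (fun _ => rfl) rfl o1).2 r).2 ⟨(tblR.2.1 r hr).2.1, h⟩)⟩)
      R_move := fun r hr => by
        show _ ∈ inT hK _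
        rw [mem_inT]
        push_cast
        have h := conjP_mem_US ((nC_spec hK o1).2.1.inv hR) (fun s hs => (tblR.2.1 s hs).1)
          ((mem_inT hK).1 hr)
        rw [inv_inv] at h
        refine (SF K).US_mono ?_ h
        rintro _ ⟨s, hs, rfl⟩
        exact ⟨(tblR.2.1 s hs).2.2.2.1, fun h => (tblR.2.1 s hs).2.2.2.2
          ((ep0.2 _).2 ⟨(tblR.2.1 s hs).2.2.2.1, h⟩)⟩
      top_le := fun a ha => by
        show _ ∈ inT hK _
        rw [mem_inT]
        push_cast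
        refine (SF K).US_mono ?_
          (conjP_mem_US (nC_spec hK o1).2.1 (orbF4 hK).posJ_lt ((mem_inT hK).1 ha))
        rintro _ ⟨s, hs, rfl⟩
        have ht := tblR.2.2.1 s ((ep0.2 s).2 hs)
        exact ⟨ht.1, fun h => ht.2.1
          (((twF4_ok.enum_posJ (T := twistF4 hK) (fun _ => rfl) rfl o1).2 _).2 ⟨ht.1, h⟩)⟩
      top_move := fun a ha h hh => by
        show _ ∈ inT hK _
        rw [mem_inT]
        push_cast
        have h2 : (nC hK o0)⁻¹ * (nC hK o1 * (a : GL chevF4.Idx K) * (nC hK o1)⁻¹) * nC hK o0 ∈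
            (SF K).US {s | s ∈ listR} := by
          have h1 := conjP_mem_US (((nC_spec hK o0).2.1.inv hR).mul hR (nC_spec hK o1).2.1)
            (orbF4 hK).posJ_lt ((mem_inT hK).1 ha)
          refine (SF K).US_mono ?_ (by simpa [mul_assoc] using h1)
          rintro _ ⟨s, hs, rfl⟩
          show _ ∈ listR
          rw [act_append]
          exact (tblR.2.2.1 s ((ep0.2 s).2 hs)).2.2
        exact (Subgroup.mem_normalizer_iff''.1
          ((SF K).Hbar_le_normalizer_US (rulesF4 K) hR (fun s hs => (tblR.2.1 s hs).1) hh) _).1 h2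
      x := f * y
      c1 := c
      c1_mem := hcU
      x_act := fun σ hσ => by
        have hfs : f * σ = σ * f := by
          have hle : (cellData hK).UJ o0 ⊔ (cellData hK).DJ o0 ≤ Subgroup.centralizer {f} := by
            refine sup_le (fun g hg => ?_) (fun g hg => ?_) <;>
              rw [Subgroup.mem_centralizer_singleton_iff]
            exacts [(hfU g hg).symm, (hfD g hg).symm]
          exact (Subgroup.mem_centralizer_singleton_iff.1 (hle hσ)).symm
        rw [← hy]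
        have e : f * (y * σ * y⁻¹) = y * σ * y⁻¹ * f :=
          (Commute.mul_right (Commute.mul_right hfy hfs) (Commute.inv_right hfy)).eq
        calc f * y * σ * (f * y)⁻¹ = f * (y * σ * y⁻¹) * f⁻¹ := by group
          _ = y * σ * y⁻¹ := by rw [e, mul_inv_cancel_right] }
  -- the order
  have hxodd : Odd (orderOf (f * y)) := by
    have hfq : f ^ (2 ^ (2 * m + 1) - 1) = 1 := Subtype.ext (by
      rw [SubmonoidClass.coe_pow]
      show τ (parF4 m px) ^ _ = 1
      rw [← map_pow, ← map_pow, ← map_one τ, ← map_one (parF4 (K := K) m)]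
      congr 2
      have hu : ∀ u : Kˣ, u ^ (2 ^ (2 * m + 1) - 1) = 1 := fun u => by
        rw [← hK]
        exact Units.ext (by rw [Units.val_pow_eq_pow_val, Units.val_one,
          FiniteField.pow_card_sub_one_eq_one _ u.ne_zero])
      exact Prod.ext (hu _) (hu _))
    have h1 : (f * y) ^ (3 * (2 ^ (2 * m + 1) - 1)) = 1 := by
      rw [(show Commute f y from hfy).mul_pow, mul_comm 3, pow_mul, hfq, one_pow, mul_comm, pow_mul,
        hy3, one_pow, one_mul]
    refine Odd.of_dvd_nat ((show Odd 3 by decide).mul ?_) (orderOf_dvd_of_pow_eq_one h1)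
    exact Nat.Even.sub_odd Nat.one_le_two_pow (Nat.even_pow.2 ⟨even_two, by omega⟩) odd_one
  -- fixed point freeness
  have hfix : ∀ (φ : (Fin chevF4.rank → ℤ) →+ ℤ) (A : Set ℕ), UClosed chevF4 len φ A →
      (∀ r ∈ A, r ∉ [33, 24, 14, 23]) → ∀ v ∈ inT hK ((SF K).US A), v * (f * y) = f * y * v → v = 1 := by
    intro φ A hA hAout v hv hcm
    have h3 : (f * y) ^ 3 = f ^ 3 := by rw [(show Commute f y from hfy).mul_pow, hy3, mul_one]
    have hc3 : Commute v (f ^ 3) := h3 ▸ (show Commute v (f * y) from hcm).pow_right 3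
    refine Subtype.ext (eq_one_of_moved (m := m) hR hA (px ^ 3) (fun r hr e => ?_) ((mem_inT hK).1 hv) ?_)
    · have e3 : rv m px r ^ 3 = 1 := by
        rw [← rv_pow, e]
      refine hout r (hA.lt r hr) (hAout r hr) ?_
      set u := rv m px r with hu
      have hq := units_pow_twice hK u
      have h2 : ∀ k : ℕ, (2 * 2 ^ k * 2 ^ k) % 3 = 2 := by
        intro k
        have e4 : (4 : ℕ) ^ k = 2 ^ k * 2 ^ k := mul_pow 2 2 k
        rw [mul_assoc, ← e4, Nat.mul_mod, Nat.pow_mod]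
        norm_num
      rw [← Nat.div_add_mod (2 * 2 ^ m * 2 ^ m) 3, h2 m, pow_add, pow_mul, e3, one_pow, one_mul,
        pow_two] at hq
      exact mul_eq_left.1 hq
    · rw [map_pow, map_pow]
      have h := congrArg Subtype.val hc3.eq
      push_cast at h
      show τ (parF4 m px) ^ 3 * (v : GL chevF4.Idx K) * (τ (parF4 m px) ^ 3)⁻¹ = v
      rw [show (τ (parF4 m px) ^ 3 * (v : GL chevF4.Idx K)) = v * τ (parF4 m px) ^ 3 from h.symm,
        mul_inv_cancel_right]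
  have hfP : ∀ v ∈ (cellData hK).PJ o0, v * (f * y) = f * y * v → v = 1 := by
    refine hfix (htHom chevF4) _ ?_ fun r hr => ?_
    · rw [← hR.degPos_outJ_eq]
      exact hR.posSet_closed.subset_closed (fun r hr => hR.pos_of_degPos _ hr)
        fun r hr s hs hne c hc => (hR.degPos_closed _).closed r hr s hs hne c hc
    · exact (((out_tbl r hr.1.1).resolve_left fun h => hr.2 ((ep0.2 r).1 h).2).resolve_left (not_not.2 hr.1)).1
  have hfM : ∀ v ∈ (cellData hK).MJ o0, v * (f * y) = f * y * v → v = 1 := by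
    refine hfix (-outJ chevF4 ((orbF4 hK).nodes o0)) (negOut hK o0 len) (hR.degPos_closed _) fun r hr => ?_
    have hneg := negOut_sub hK hR o0 hr
    have hp := (hR.pos_neg_iff hr.1).2 hneg
    have hnot : chevF4.neg r ∉ twF4.posList o0 := fun h => by
      have h0 : outJ chevF4 ((orbF4 hK).nodes o0) (vec chevF4 len (chevF4.neg r)) = 0 :=
        (hR.inRootSub_iff _ hp.1).1 ((ep0.2 _).1 h).2
      have h1 := hr.2
      rw [hR.deg_neg _ hr.1] at h0
      simp only [AddMonoidHom.neg_apply] at h1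
      omega
    have := (((out_tbl _ hp.1).resolve_left hnot).resolve_left (not_not.2 hp)).2
    rwa [hR.neg_neg_root hr.1] at this
  -- an element inverting `x`
  obtain ⟨z, hzT, hzP, hzY, hzf⟩ := exists_inverter hK hR
  set z' : GT hK := ⟨z, hzT⟩
  have hz'c : z' * c * z'⁻¹ = c := Subtype.ext hzP
  have hz'n : z' * nY * z'⁻¹ = nY := Subtype.ext hzY
  have hz'f : z' * f * z'⁻¹ = f⁻¹ := Subtype.ext (hzf px (congrArg Subtype.val hfn).symm)
  have hxinv : (c * z') * (f * y) * (c * z')⁻¹ = (f * y)⁻¹ := by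
    have e1 : z' * y * z'⁻¹ = y := by
      rw [hy]
      calc z' * (nY * c) * z'⁻¹ = (z' * nY * z'⁻¹) * (z' * c * z'⁻¹) := by group
        _ = _ := by rw [hz'n, hz'c]
    calc (c * z') * (f * y) * (c * z')⁻¹ = (c * (z' * f * z'⁻¹) * c⁻¹) * (c * (z' * y * z'⁻¹) * c⁻¹) := by
          group
      _ = f⁻¹ * y⁻¹ := by
        rw [hz'f, e1, hyi, (show Commute c f⁻¹ from (show Commute c f from (hfU c hcU).symm).inv_right).eq,
          mul_inv_cancel_right]
      _ = (f * y)⁻¹ := by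
        rw [mul_inv_rev]
        exact (show Commute f y from hfy).inv_inv.eq
  have hxN : f * y ∈ (cellData hK).Nrm o0 :=
    mul_mem (LeviData.H_Nrm (C := cellData hK) o0 ((mem_inT hK).2 hfH))
      (mul_mem L.nY_mem (LeviData.UJ_Nrm (C := cellData hK) o0 hcU))
  refine ⟨f * y, hxodd, fun g hg => ?_⟩
  have hgood : L.Good0 g := by
    refine exists_short_cell hK (Q := L.Good0) (fun a g h => LeviData.Good0.of_conj a h) ?_ ?_ ?_ hg
    · exact fun h hh u hu => L.cell_near hh hu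
    · exact fun h hh u hu => L.cell_far hh hu
    · exact fun h hh u hu => L.cell_pair hh hu
  exact hgood.two_conj hxN hfP hfM hxinv

end Cfsg.Agent.TwoFourCC
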