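import Cfsg.Agent.TwoFourCC.TitsPerm

/-!
Every element of the Tits group as a product along a chain of three points, with certified searches
(owner: helper51).
-/

set_option autoImplicit false
set_option maxRecDepth 20000

namespace Cfsg.Agent.TwoFourCC

open Cfsg.Agent.CosetCert Cfsg.Agent.SporOut

/-- A word of the first level. -/
noncomputable def w0 (y : ℕ) : ℕ := lev0Tree.get 160 y

/-- A word of the second level. -/
noncomputable def w1 (y : ℕ) : ℕ := lev1Tree.get 160 y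

/-- A word of the third level. -/
noncomputable def w2 (r : ℕ) : ℕ :=
  List.rec (motive := fun _ => ℕ → ℕ) (fun _ => 1)
    (fun a _ ih i => cond (Nat.beq i 0) a (ih (Nat.pred i))) pairStab r

/-- The first coordinate of a code. -/
noncomputable def cY0 (n : ℕ) : ℕ := Nat.mod n 2048

/-- The second coordinate of a code. -/
noncomputable def cY1 (n : ℕ) : ℕ := Nat.mod (Nat.div n 2048) 2048

/-- The third coordinate of a code. -/
noncomputable def cR (n : ℕ) : ℕ := Nat.div n 4194304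

/-- The code of three coordinates. -/
noncomputable def cMk (y0 y1 r : ℕ) : ℕ := Nat.add y0 (Nat.add (Nat.mul 2048 y1) (Nat.mul 4194304 r))

/-- A valid code. -/
noncomputable def cOK (n : ℕ) : Bool :=
  Nat.blt (cY0 n) 1755 && (Nat.blt (cY1 n) 1755 && (!Nat.beq (w1 (cY1 n)) 0 && Nat.blt (cR n) 10))

/-- The image of a point under the element of a code. -/
noncomputable def cImg (n q : ℕ) : ℕ :=
  titsFrame.run (w0 (cY0 n)) (titsFrame.run (w1 (cY1 n)) (titsFrame.run (w2 (cR n)) q))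

/-- The element of a code. -/
noncomputable def cElt (n : ℕ) : Equiv.Perm (Fin 1755) :=
  titsFrame.val (w0 (cY0 n)) * (titsFrame.val (w1 (cY1 n)) * titsFrame.val (w2 (cR n)))

/-- The checks of the first two levels at a point. -/
noncomputable def levelsOK (y : ℕ) : Bool :=
  Nat.ble 1755 y ||
    ((titsFrame.ok (w0 y) && Nat.beq (titsFrame.run (w0 y) p0) y) &&
      (Nat.beq (w1 y) 0 ||
        (titsFrame.ok (w1 y) && (Nat.beq (titsFrame.run (w1 y) p1) y && Nat.beq (titsFrame.run (w1 y) p0) p0))))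

/-- The checks of the third level. -/
noncomputable def pairOK : Bool :=
  ((List.range 10).all fun r => titsFrame.ok (w2 r) &&
    (Nat.beq (titsFrame.run (w2 r) p0) p0 && Nat.beq (titsFrame.run (w2 r) p1) p1)) &&
  decide (((List.range 10).map fun r => titsFrame.run (w2 r) p2).Nodup)

theorem levels_ok : allB levelsOK 11 0 = true := by decide +kernel

theorem pair_ok : pairOK = true := by decide +kernel

theorem second_card : cnt (fun y => !Nat.beq (w1 y) 0) 1755 = 1024 := by decide +kernel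

theorem blt_iff {a b : ℕ} : Nat.blt a b = true ↔ a < b := by
  simp [Nat.blt]

theorem beq_false_of_ne {a : ℕ} (h : (!Nat.beq a 0) = true) : a ≠ 0 := not_beq_zero.1 h

theorem point_lt : p0 < 1755 ∧ p1 < 1755 ∧ p2 < 1755 := by decide +kernel

theorem level_spec {y : ℕ} (hy : y < 1755) :
    (titsFrame.ok (w0 y) = true ∧ titsFrame.run (w0 y) p0 = y) ∧
    (w1 y ≠ 0 → titsFrame.ok (w1 y) = true ∧ titsFrame.run (w1 y) p1 = y ∧ titsFrame.run (w1 y) p0 = p0) := by
  have h := allB_spec_zero levels_ok (by norm_num : 1755 ≤ 2 ^ 11) hy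
  have hb : Nat.ble 1755 y = false := by rw [← Bool.not_eq_true, Nat.ble_eq]; omega
  simp only [levelsOK, hb, Bool.false_or, Bool.and_eq_true, Bool.or_eq_true] at h
  obtain ⟨⟨a, b⟩, c⟩ := h
  refine ⟨⟨a, Nat.eq_of_beq_eq_true b⟩, fun hne => ?_⟩
  rcases c with c | ⟨c1, c2, c3⟩
  · exact absurd (Nat.eq_of_beq_eq_true c) hne
  · exact ⟨c1, Nat.eq_of_beq_eq_true c2, Nat.eq_of_beq_eq_true c3⟩

theorem pair_spec {r : ℕ} (hr : r < 10) :
    titsFrame.ok (w2 r) = true ∧ titsFrame.run (w2 r) p0 = p0 ∧ titsFrame.run (w2 r) p1 = p1 := by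
  have h := pair_ok
  simp only [pairOK, Bool.and_eq_true, List.all_eq_true, List.mem_range] at h
  obtain ⟨a, b, c⟩ := h.1 r hr
  exact ⟨a, Nat.eq_of_beq_eq_true b, Nat.eq_of_beq_eq_true c⟩

theorem pair_inj {r r' : ℕ} (hr : r < 10) (hr' : r' < 10)
    (h : titsFrame.run (w2 r) p2 = titsFrame.run (w2 r') p2) : r = r' := by
  have hh := pair_ok
  simp only [pairOK, Bool.and_eq_true, decide_eq_true_eq] at hh
  exact List.inj_on_of_nodup_map hh.2 (List.mem_range.2 hr) (List.mem_range.2 hr') h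

/-- The coordinates of a valid code. -/
theorem cOK_spec {n : ℕ} (h : cOK n = true) :
    cY0 n < 1755 ∧ cY1 n < 1755 ∧ w1 (cY1 n) ≠ 0 ∧ cR n < 10 := by
  simp only [cOK, Bool.and_eq_true] at h
  exact ⟨blt_iff.1 h.1, blt_iff.1 h.2.1, beq_false_of_ne h.2.2.1, blt_iff.1 h.2.2.2⟩

theorem cElt_mem {n : ℕ} (h : cOK n = true) : cElt n ∈ titsK := by
  obtain ⟨a, b, c, d⟩ := cOK_spec h
  exact titsK.mul_mem (Frame.val_mem frame_valid (level_spec a).1.1)
    (titsK.mul_mem (Frame.val_mem frame_valid ((level_spec b).2 c).1) (Frame.val_mem frame_valid (pair_spec d).1))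

theorem cElt_apply {n : ℕ} (h : cOK n = true) (q : Fin 1755) : (cElt n q : ℕ) = cImg n q := by
  obtain ⟨a, b, c, d⟩ := cOK_spec h
  rw [cElt, Equiv.Perm.mul_apply, Equiv.Perm.mul_apply, Frame.val_apply frame_valid (level_spec a).1.1,
    Frame.val_apply frame_valid ((level_spec b).2 c).1, Frame.val_apply frame_valid (pair_spec d).1]
  rfl

theorem cImg_base {n : ℕ} (h : cOK n = true) :
    cImg n p0 = cY0 n ∧ cImg n p1 = titsFrame.run (w0 (cY0 n)) (cY1 n) := by
  obtain ⟨a, b, c, d⟩ := cOK_spec h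
  obtain ⟨-, e0, e1⟩ := pair_spec d
  obtain ⟨-, f1, f0⟩ := (level_spec b).2 c
  constructor
  · rw [cImg, e0, f0, (level_spec a).1.2]
  · rw [cImg, e1, f1]

theorem cMk_coords {y0 y1 r : ℕ} (h0 : y0 < 2048) (h1 : y1 < 2048) :
    cY0 (cMk y0 y1 r) = y0 ∧ cY1 (cMk y0 y1 r) = y1 ∧ cR (cMk y0 y1 r) = r := by
  simp only [cY0, cY1, cR, cMk, Nat.add_eq, Nat.mul_eq]
  refine ⟨?_, ?_, ?_⟩
  · show (y0 + (2048 * y1 + 4194304 * r)) % 2048 = y0
    omega
  · show (y0 + (2048 * y1 + 4194304 * r)) / 2048 % 2048 = y1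
    omega
  · show (y0 + (2048 * y1 + 4194304 * r)) / 4194304 = r
    omega

theorem cMk_eta (n : ℕ) : cMk (cY0 n) (cY1 n) (cR n) = n := by
  simp only [cY0, cY1, cR, cMk, Nat.add_eq, Nat.mul_eq]
  show n % 2048 + (2048 * (n / 2048 % 2048) + 4194304 * (n / 4194304)) = n
  omega

/-- The codes are determined by the images of three points. -/
theorem code_inj {n n' : ℕ} (h : cOK n = true) (h' : cOK n' = true) (e0 : cImg n p0 = cImg n' p0)
    (e1 : cImg n p1 = cImg n' p1) (e2 : cImg n p2 = cImg n' p2) : n = n' := by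
  obtain ⟨a, b, c, d⟩ := cOK_spec h
  obtain ⟨a', b', c', d'⟩ := cOK_spec h'
  rw [(cImg_base h).1, (cImg_base h').1] at e0
  rw [(cImg_base h).2, (cImg_base h').2, e0] at e1
  have h0 := (level_spec a').1.1
  have ey := Frame.run_inj frame_valid h0 b b' e1
  rw [cImg, cImg, e0, ey] at e2
  have k2 := Frame.run_lt frame_valid (pair_spec d).1 point_lt.2.2
  have k2' := Frame.run_lt frame_valid (pair_spec d').1 point_lt.2.2
  have hh1 := ((level_spec b').2 c').1
  have er := pair_inj d d' (Frame.run_inj frame_valid hh1 k2 k2'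
    (Frame.run_inj frame_valid h0 (Frame.run_lt frame_valid hh1 k2) (Frame.run_lt frame_valid hh1 k2') e2))
  rw [← cMk_eta n, ← cMk_eta n', e0, ey, er]

/-- Every element of the group has a code. -/
theorem exists_code {g : Equiv.Perm (Fin 1755)} (hg : g ∈ titsK) : ∃ n, cOK n = true ∧ cElt n = g := by
  classical
  have hok : ∀ r : Fin 1755 × Lev 1755 lev1Tree × Fin 10, cOK (cMk r.1 r.2.1.1 r.2.2) = true := by
    rintro ⟨y0, ⟨y1, h1⟩, r⟩
    obtain ⟨e0, e1, e2⟩ := cMk_coords (r := (r : ℕ)) (show (y0 : ℕ) < 2048 by omega) (show (y1 : ℕ) < 2048 by omega)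
    simp only [cOK, e0, e1, e2, Bool.and_eq_true]
    exact ⟨blt_iff.2 y0.2, blt_iff.2 y1.2, not_beq_zero.2 h1, blt_iff.2 r.2⟩
  let Φ : Fin 1755 × Lev 1755 lev1Tree × Fin 10 → titsK := fun r => ⟨_, cElt_mem (hok r)⟩
  have hinj : Function.Injective Φ := by
    intro r r' e
    have e' : cElt (cMk r.1 r.2.1.1 r.2.2) = cElt (cMk r'.1 r'.2.1.1 r'.2.2) := congrArg Subtype.val e
    have key : ∀ (q : ℕ), q < 1755 →
        cImg (cMk r.1 r.2.1.1 r.2.2) q = cImg (cMk r'.1 r'.2.1.1 r'.2.2) q := fun q hq => by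
      rw [← cElt_apply (hok r) ⟨q, hq⟩, e', cElt_apply (hok r') ⟨q, hq⟩]
    have hn := code_inj (hok r) (hok r') (key _ point_lt.1) (key _ point_lt.2.1) (key _ point_lt.2.2)
    obtain ⟨⟨y0, hy0⟩, ⟨⟨y1, hy1⟩, hy1'⟩, r2⟩ := r
    obtain ⟨⟨z0, hz0⟩, ⟨⟨z1, hz1⟩, hz1'⟩, s2⟩ := r'
    obtain ⟨a0, a1, a2⟩ := cMk_coords (r := (r2 : ℕ)) (show y0 < 2048 by omega) (show y1 < 2048 by omega)
    obtain ⟨c0, c1, c2⟩ := cMk_coords (r := (s2 : ℕ)) (show z0 < 2048 by omega) (show z1 < 2048 by omega)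
    simp only at hn
    rw [hn] at a0 a1 a2
    obtain rfl := a0.symm.trans c0
    obtain rfl := a1.symm.trans c1
    obtain rfl := Fin.ext (a2.symm.trans c2)
    rfl
  have hb : Function.Bijective Φ := (Nat.bijective_iff_injective_and_card _).2
    ⟨hinj, by
      rw [Nat.card_prod, Nat.card_prod, card_lev, Nat.card_fin, Nat.card_fin, card_titsK,
        show levSize 1755 lev1Tree = 1024 from second_card]⟩
  obtain ⟨r, hr⟩ := hb.2 ⟨g, hg⟩
  exact ⟨_, hok r, congrArg Subtype.val hr⟩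

/-- Two elements agree if they agree on three points. -/
theorem ext3 {g h : Equiv.Perm (Fin 1755)} (hg : g ∈ titsK) (hh : h ∈ titsK)
    (e : ∀ q : Fin 1755, (q : ℕ) = p0 ∨ (q : ℕ) = p1 ∨ (q : ℕ) = p2 → g q = h q) : g = h := by
  obtain ⟨n, hn, rfl⟩ := exists_code hg
  obtain ⟨n', hn', rfl⟩ := exists_code hh
  have key : ∀ (q : ℕ) (hq : q < 1755), q = p0 ∨ q = p1 ∨ q = p2 → cImg n q = cImg n' q := fun q hq hq' => by
    rw [← cElt_apply hn ⟨q, hq⟩, e ⟨q, hq⟩ hq', cElt_apply hn' ⟨q, hq⟩]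
  rw [code_inj hn hn' (key _ point_lt.1 (Or.inl rfl)) (key _ point_lt.2.1 (Or.inr (Or.inl rfl)))
    (key _ point_lt.2.2 (Or.inr (Or.inr rfl)))]

/-- A property of the three base points. -/
noncomputable def at3 (f : ℕ → Bool) : Bool := f p0 && (f p1 && f p2)

theorem at3_spec {f : ℕ → Bool} (h : at3 f = true) {q : ℕ} (hq : q = p0 ∨ q = p1 ∨ q = p2) : f q = true := by
  simp only [at3, Bool.and_eq_true] at h
  rcases hq with rfl | rfl | rfl
  exacts [h.1, h.2.1, h.2.2]

/-- The points probed by the search. -/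
def probes : List ℕ := [3, 731, 736, 17, 100, 401, 777, 1200, 1500, 1700]

/-- A leaf of the search for the centraliser. -/
noncomputable def centLeaf (z : ℕ) (L : List (ℕ × List ℕ)) (y0 y1 r : ℕ) : Bool :=
  (probes.any fun q => !Nat.beq (cImg (cMk y0 y1 r) (cImg z q)) (cImg z (cImg (cMk y0 y1 r) q))) ||
    L.any fun a => Nat.beq a.1 (cMk y0 y1 r)

/-- A field of a hint. -/
noncomputable def hintAt (H i : ℕ) : ℕ := Nat.mod (Nat.shiftRight H (Nat.mul 16 i)) 65536

/-- The third level of the search, given the image of a third point. -/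
noncomputable def centPair (z : ℕ) (L : List (ℕ × List ℕ)) (y0 y1 y2 : ℕ) : Bool :=
  Nat.blt y2 1755 &&
    (Nat.beq (titsFrame.run (w0 y0) (titsFrame.run (w1 y1) y2)) (cImg z (titsFrame.run (w0 y0) y1)) &&
      (List.range 10).all fun r => cond (Nat.beq (titsFrame.run (w2 r) (cImg z p1)) y2) (centLeaf z L y0 y1 r) true)

/-- The search over one image of the first point. -/
noncomputable def centAt (z : ℕ) (L : List (ℕ × List ℕ)) (y0 y1 y2 : ℕ) : Bool :=
  Nat.blt y1 1755 && (Nat.beq (titsFrame.run (w0 y0) y1) (cImg z y0) &&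
    (Nat.beq (w1 y1) 0 || centPair z L y0 y1 y2))

/-- The search for the centraliser of a code, with hints. -/
noncomputable def centOK (z H1 H2 : ℕ) (L : List (ℕ × List ℕ)) (y0 : ℕ) : Bool :=
  Nat.ble 1755 y0 || centAt z L y0 (hintAt H1 y0) (hintAt H2 y0)

/-- The search finds the whole centraliser. -/
theorem cent_sound {z H1 H2 : ℕ} {L : List (ℕ × List ℕ)} (hz : cOK z = true) (hz0 : cImg z p0 = p1)
    (h : allB (centOK z H1 H2 L) 11 0 = true) {g : Equiv.Perm (Fin 1755)} (hg : g ∈ titsK)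
    (hc : g * cElt z = cElt z * g) : ∃ a ∈ L, g = cElt a.1 := by
  obtain ⟨n, hn, rfl⟩ := exists_code hg
  obtain ⟨a, b, c, d⟩ := cOK_spec hn
  have hk := allB_spec_zero h (by norm_num : 1755 ≤ 2 ^ 11) a
  have hb : Nat.ble 1755 (cY0 n) = false := by rw [← Bool.not_eq_true, Nat.ble_eq]; omega
  simp only [centOK, hb, Bool.false_or, centAt, Bool.and_eq_true, Bool.or_eq_true] at hk
  obtain ⟨l1, q1, hk⟩ := hk
  have comm : ∀ (q : ℕ), q < 1755 → cImg n (cImg z q) = cImg z (cImg n q) := by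
    intro q hq
    have e := congrArg (fun p : Equiv.Perm (Fin 1755) => (p ⟨q, hq⟩ : ℕ)) hc
    simp only [Equiv.Perm.mul_apply] at e
    rwa [cElt_apply hn, cElt_apply hz, cElt_apply hz, cElt_apply hn] at e
  have e1 := comm p0 point_lt.1
  rw [hz0, (cImg_base hn).1, (cImg_base hn).2] at e1
  have ey := (Nat.eq_of_beq_eq_true q1).trans e1.symm
  have y1e := Frame.run_inj frame_valid (level_spec a).1.1 (blt_iff.1 l1) b ey
  rw [y1e] at hk
  rcases hk with hk | hk
  · exact absurd (Nat.eq_of_beq_eq_true hk) c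
  simp only [centPair, Bool.and_eq_true] at hk
  obtain ⟨l2, q2, hk⟩ := hk
  have hp1 : cImg z p1 < 1755 := by
    rw [← cElt_apply hz ⟨p1, point_lt.2.1⟩]
    exact (cElt z _).2
  have e2 := comm p1 point_lt.2.1
  rw [(cImg_base hn).2] at e2
  have ez := (Nat.eq_of_beq_eq_true q2).trans e2.symm
  have h0' := (level_spec a).1.1
  have h1' := ((level_spec b).2 c).1
  have k2 := Frame.run_lt frame_valid (pair_spec d).1 hp1
  have y2e := Frame.run_inj frame_valid h1' (blt_iff.1 l2) k2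
    (Frame.run_inj frame_valid h0' (Frame.run_lt frame_valid h1' (blt_iff.1 l2)) (Frame.run_lt frame_valid h1' k2) ez)
  have hr := List.all_eq_true.1 hk _ (List.mem_range.2 d)
  rw [y2e, show Nat.beq (titsFrame.run (w2 (cR n)) (cImg z p1)) (titsFrame.run (w2 (cR n)) (cImg z p1)) = true from
    Nat.beq_refl _, cond_true] at hr
  simp only [centLeaf, cMk_eta, Bool.or_eq_true, List.any_eq_true] at hr
  rcases hr with ⟨q, hqm, hne⟩ | ⟨x, hx, he⟩
  · have hq : q < 1755 := (by decide : ∀ q ∈ probes, q < 1755) q hqm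
    rw [comm q hq, Bool.not_eq_true'] at hne
    exact Bool.noConfusion ((Nat.beq_refl _).symm.trans hne)
  · exact ⟨x, hx, by rw [Nat.eq_of_beq_eq_true he]⟩

end Cfsg.Agent.TwoFourCC
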