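import Cfsg.Agent.SporOut.Sift
import Cfsg.Agent.ChevSmall.TitsNoTwoTrans
import Cfsg.Agent.TwoFourCC.TitsData

/-!
The Tits group as a frame of permutations of 1755 points with certified letters (owner: helper51).
-/

set_option autoImplicit false
set_option maxRecDepth 20000

namespace Cfsg.Agent.TwoFourCC

open Cfsg.Lie Cfsg.Agent.CosetCert Cfsg.Agent.SporOut Cfsg.Agent.ChevSmall.Tits
open scoped Matrix

attribute [local instance] finite_TG

/-- The image of a point. -/
noncomputable def imgPt (g : TG) (i : Fin 1755) : Fin 1755 := (exists_image g i).choose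

theorem imgPt_spec (g : TG) (i : Fin 1755) : mat g *ᵥ O i = O (imgPt g i) := (exists_image g i).choose_spec

attribute [local irreducible] imgPt

theorem imgPt_mul (g h : TG) (i : Fin 1755) : imgPt (g * h) i = imgPt g (imgPt h i) := by
  refine O_injective ?_
  rw [← imgPt_spec, mat_mul, ← Matrix.mulVec_mulVec, imgPt_spec h i, imgPt_spec g (imgPt h i)]

theorem imgPt_bijective (g : TG) : Function.Bijective (imgPt g) := by
  refine Finite.injective_iff_bijective.1 fun i j h => O_injective ?_
  have hi := imgPt_spec g i
  rw [h, ← imgPt_spec g j] at hi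
  have := congrArg (mat g⁻¹ *ᵥ ·) hi
  simpa only [mat_inv_act] using this

/-- The action on the points. -/
noncomputable def actTG : TG →* Equiv.Perm (Fin 1755) :=
  MonoidHom.mk' (fun g => Equiv.ofBijective (imgPt g) (imgPt_bijective g))
    fun g h => Equiv.ext fun i => imgPt_mul g h i

theorem actTG_spec (g : TG) (i : Fin 1755) : mat g *ᵥ O i = O (actTG g i) :=
  imgPt_spec g i

theorem actTG_word {w : List ℕ} (hw : ∀ k ∈ w, k < 4) (i : Fin 1755) :
    (actTG (wordG w) i : ℕ) = permW w i := by
  obtain ⟨h, e⟩ := permW_spec hw i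
  exact congrArg Fin.val (O_injective ((actTG_spec _ i).symm.trans e))

theorem actTG_injective : Function.Injective actTG := by
  rw [injective_iff_map_eq_one]
  intro g hg
  refine Subtype.ext (Units.ext (Matrix.ext_of_mulVec_single fun j => ?_))
  show mat g *ᵥ Pi.single j 1 = mat (1 : TG) *ᵥ Pi.single j 1
  obtain ⟨hlen, hlt, hb⟩ := basis_ok
  simp only [List.all_eq_true, List.mem_range, beq_iff_eq] at hb
  rw [mat_one, Matrix.one_mulVec, ← vecOf_two_pow, ← hb _ (dim_eq ▸ Chev.code_lt chevF4 j), vecOf_appL,
    vecOf_zero, zero_add, Matrix.mulVec_sum]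
  refine Finset.sum_congr rfl fun c hc => ?_
  split
  · have hc' : c < basisIdx.length := by simpa using hc
    rw [List.getD_eq_getElem _ _ (by simpa using hc'), List.getElem_map]
    have hmem : basisIdx[c] ∈ basisIdx := List.getElem_mem hc'
    show mat g *ᵥ O ⟨basisIdx[c], hlt _ hmem⟩ = O ⟨basisIdx[c], hlt _ hmem⟩
    rw [actTG_spec, hg, Equiv.Perm.one_apply]
  · rw [Matrix.mulVec_zero]

/-- The permutations of the Tits group. -/
noncomputable def titsK : Subgroup (Equiv.Perm (Fin 1755)) := (commutator TG).map actTG

/-- The isomorphism with the group of permutations. -/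
noncomputable def titsEquiv : TitsGroup ≃* titsK :=
  (commutator TG).equivMapOfInjective actTG actTG_injective

theorem card_titsK : Nat.card titsK = 17971200 :=
  (Nat.card_congr titsEquiv.toEquiv).symm.trans card_derived

/-- The action of the letters. -/
noncomputable def tblT (l i : ℕ) : ℕ :=
  Nat.mod (Nat.shiftRight (cond (Nat.beq l 1) tblRow1 (cond (Nat.beq l 2) tblRow2 (cond (Nat.beq l 3) tblRow3
    (cond (Nat.beq l 4) tblRow4 (cond (Nat.beq l 5) tblRow5 tblRow6))))) (Nat.mul 16 i)) 65536

/-- The frame of the Tits group. -/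
noncomputable def titsFrame : Frame 1755 where
  T := tblT
  nL := 6
  σ l := actTG (wordG (wordOfLetter.getD l []))
  K := titsK

/-- The check of a letter at a point. -/
noncomputable def letterOK (i : ℕ) : Bool :=
  Nat.ble 1755 i || ((List.range 7).all fun l =>
    Nat.beq l 0 || Nat.beq (titsFrame.T l i) (permW (wordOfLetter.getD l []) i))

theorem words_ok : (List.range 7).all (fun l => wordOKD (wordOfLetter.getD l [])) = true := by decide +kernel

theorem letters_spec : allB letterOK 11 0 = true := by decide +kernel

theorem frame_valid : titsFrame.Valid := by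
  constructor
  · intro l h1 h6 i
    have hl : l < 7 := Nat.lt_succ_of_le h6
    have h := allB_spec_zero letters_spec (by norm_num : 1755 ≤ 2 ^ 11) i.2
    have hb : Nat.ble 1755 i.1 = false := by
      rw [← Bool.not_eq_true, Nat.ble_eq]; exact not_le.2 i.2
    simp only [letterOK, hb, Bool.false_or, List.all_eq_true, List.mem_range, Bool.or_eq_true] at h
    rcases h l hl with e | e
    · have := Nat.eq_of_beq_eq_true e; omega
    · have hw := List.all_eq_true.1 words_ok l (List.mem_range.2 hl)
      exact (actTG_word (wordOKD_lt hw) i).trans (Nat.eq_of_beq_eq_true e).symm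
  · intro l h1 h6
    have hl : l < 7 := Nat.lt_succ_of_le h6
    exact Subgroup.mem_map_of_mem _ (mem_derived (List.all_eq_true.1 words_ok l (List.mem_range.2 hl)))

end Cfsg.Agent.TwoFourCC
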