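import Cfsg.Agent.TwoFourCC.TitsWit

/-!
The check of the classes in a Sylow subgroup of the Tits group at two (owner: helper51).
-/

set_option autoImplicit false
set_option maxRecDepth 20000

namespace Cfsg.Agent.TwoFourCC

open Cfsg.Agent.CosetCert Cfsg.Agent.SporOut

theorem syl_ok : allB sylOK 12 0 = true := by decide +kernel

end Cfsg.Agent.TwoFourCC
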