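import Cfsg.Agent.TwoFourCC.TitsChain

/-!
Checks of the witnesses for products of two conjugates of an element of order thirteen in the Tits group
(owner: helper51).
-/

set_option autoImplicit false
set_option maxRecDepth 20000

namespace Cfsg.Agent.TwoFourCC

open Cfsg.Agent.CosetCert Cfsg.Agent.SporOut

/-- The image of a point under a product of codes. -/
noncomputable def prodImg (A : List ℕ) (q : ℕ) : ℕ :=
  List.rec (motive := fun _ => ℕ) q (fun a _ ih => cImg a ih) A

/-- Two products of codes agree. -/
noncomputable def prodEq (A B : List ℕ) : Bool :=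
  A.all cOK && (B.all cOK && at3 fun q => Nat.beq (prodImg A q) (prodImg B q))

/-- The code of the identity. -/
def codeOne : ℕ := 1508059

/-- A witness for a code. -/
noncomputable def witOK (n : ℕ) : List ℕ → Bool
  | [u, u', v, v'] => prodEq [u, u'] [] && (prodEq [v, v'] [] &&
      prodEq [n] [u, zThirteen, u', v, zThirteen, v'])
  | _ => false

/-- A list of codes with witnesses. -/
noncomputable def listWit (L : List (ℕ × List ℕ)) : Bool :=
  L.all fun a => cOK a.1 && (Nat.beq a.1 codeOne || witOK a.1 a.2)

/-- A list of codes is closed under left multiplication by generators, and is generated by them. -/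
noncomputable def closedOK (G L : List ℕ) (W : List (List ℕ)) : Bool :=
  G.all cOK && (L.all cOK && (L.contains codeOne &&
    ((G.all fun g => L.all fun a => L.any fun c => Nat.beq (cY0 c) (prodImg [g, a] p0) && prodEq [g, a] [c]) &&
      (Nat.beq W.length L.length && (L.zip W).all fun e =>
        (e.2.all fun g => G.contains g) && prodEq [e.1] e.2))))

/-- Every member but the identity is conjugate to the element. -/
noncomputable def conjOK (z : ℕ) (L : List (ℕ × ℕ × ℕ)) : Bool :=
  L.all fun a => Nat.beq a.1 codeOne ||
    (prodEq [a.2.1, a.2.2] [] && prodEq [a.1] [a.2.1, z, a.2.2])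

/-- An entry of the table of the Sylow subgroup. -/
noncomputable def sylEnt (s : ℕ) : ℕ := sylTree.get 40 s

/-- The code of a member of the Sylow subgroup. -/
noncomputable def sylCode (s : ℕ) : ℕ := cMk p0 (Nat.div s 2) (Nat.mod s 2)

/-- The letter of an entry. -/
noncomputable def sylLet (s : ℕ) : ℕ := Nat.mod (Nat.div (sylEnt s) 4096) 16

/-- The parent of an entry. -/
noncomputable def sylPar (s : ℕ) : ℕ := Nat.mod (sylEnt s) 4096

/-- The depth of an entry. -/
noncomputable def sylDep (s : ℕ) : ℕ := Nat.div (sylEnt s) 65536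

/-- A generator of the Sylow subgroup. -/
noncomputable def isSylLetter (l : ℕ) : Bool := Nat.beq l 1 || (Nat.beq l 3 || (Nat.beq l 5 || Nat.beq l 6))

/-- A word in the generators of the Sylow subgroup. -/
noncomputable def okSyl (f : ℕ) : ℕ → Bool :=
  Nat.rec (motive := fun _ => ℕ → Bool) (fun n => Nat.beq n 1)
    (fun _ ih n => Nat.beq n 1 || (isSylLetter (Nat.mod n 16) && ih (Nat.div n 16))) f

/-- A root or an edge of the forest of classes. -/
noncomputable def sylClassOK (s : ℕ) : Bool :=
  cond (Nat.beq (sylLet s) 15) (Nat.beq (sylCode s) codeOne)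
    (cond (Nat.beq (sylLet s) 0) (witOK (sylCode s) (rootWit.getD (sylPar s) []))
      (isSylLetter (sylLet s) && (Nat.blt (sylPar s) 4096 && (!Nat.beq (w1 (Nat.div (sylPar s) 2)) 0 &&
        (!Nat.beq (sylLet (sylPar s)) 15 && (Nat.blt (sylDep (sylPar s)) (sylDep s) &&
          at3 fun q => Nat.beq (cImg (sylCode s) (titsFrame.T (sylLet s) q))
            (titsFrame.T (sylLet s) (cImg (sylCode (sylPar s)) q))))))))

/-- The target of a generator. -/
noncomputable def sylStepOK (y0 l y : ℕ) : Bool :=
  Nat.blt y 1755 && (!Nat.beq (w1 y) 0 && ((List.range 2).any fun r =>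
    at3 fun q => Nat.beq (titsFrame.T l (cImg (cMk p0 y0 0) q)) (cImg (cMk p0 y r) q)))

/-- The checks of a member of the Sylow subgroup. -/
noncomputable def sylOK (s : ℕ) : Bool :=
  cond (Nat.ble 3510 s) true (cond (Nat.beq (w1 (Nat.div s 2)) 0) true
    (sylClassOK s && (Nat.beq (Nat.mod s 2) 1 || (okSyl 96 (w1 (Nat.div s 2)) &&
      ([1, 3, 5, 6] : List ℕ).all fun l => sylStepOK (Nat.div s 2) l (titsFrame.T l (Nat.div s 2))))))

theorem syl_words : okSyl 96 (w0 p0) = true ∧ okSyl 96 (w2 0) = true ∧ okSyl 96 (w2 1) = true ∧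
    prodEq [codeOne] [] = true ∧ prodEq [cMk p0 p1 1, cMk p0 p1 1] [] = true := by decide +kernel

theorem wit_lists : listWit centThree = true ∧ listWit centFive = true ∧ listWit centThirteen = true := by
  decide +kernel

theorem three_group : closedOK (sylThreeWords.flatten.eraseDups) (sylThree.map Prod.fst) sylThreeWords = true ∧
    (sylThree.map Prod.fst).Nodup ∧ sylThree.length = 27 ∧ conjOK zThree sylThree = true := by decide +kernel

theorem five_group : closedOK (sylFiveWords.flatten.eraseDups) (sylFive.map Prod.fst) sylFiveWords = true ∧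
    (sylFive.map Prod.fst).Nodup ∧ sylFive.length = 25 ∧ conjOK zFive sylFive = true := by decide +kernel

theorem thirteen_group : closedOK [zThirteen] (centThirteen.map Prod.fst)
      (sylThirteenPowers.map fun i => List.replicate i zThirteen) = true ∧
    (centThirteen.map Prod.fst).Nodup ∧ centThirteen.length = 13 := by decide +kernel

theorem z_facts : (cOK zThree = true ∧ cImg zThree p0 = p1) ∧ (cOK zFive = true ∧ cImg zFive p0 = p1) ∧
    (cOK zThirteen = true ∧ cImg zThirteen p0 = p1) := by
  decide +kernel

end Cfsg.Agent.TwoFourCC
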